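import Cfsg.Agent.Lib.WQ.Ess

/-!
Automizers in saturated fusion systems on a 2-group of type `G₂(q)`; uniqueness.
-/

set_option autoImplicit false
set_option linter.style.haveILetI false
set_option linter.unusedVariables false
set_option linter.unusedSectionVars false
set_option linter.unusedSimpArgs false
set_option linter.unusedTactic false
set_option linter.unreachableTactic false

namespace Cfsg.Agent.WQ

open Subgroup Cfsg.Agent.Fus Cfsg.Agent.Ess Cfsg.Agent.TwoGrp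
open Cfsg.Agent.Fus2 (M afn HomOn img)
open Cfsg.FusionSystem (centralizerIn normalizerIn)

universe u

variable {Ω : Type u} [Group Ω] {S : Subgroup Ω} {F F' : FusionSystem S} {E : Subgroup Ω}

open QuaternionGroup in
theorem mem_of_q8 (φ : QuaternionGroup 2 →* Ω) (hφ : Function.Injective φ) {X Z : Subgroup Ω}
    (hX : ∀ x, x ∈ X ↔ ∃ q, ∃ c ∈ Z, x = φ q * c) (hZ : ∀ c ∈ Z, ∀ q, φ q * c = c * φ q)
    (hQ : ∀ α : MulAut X, ∀ q, ∃ q', afn α (φ q) = φ q') {Γ : Subgroup (MulAut X)}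
    (hI : Inn X ≤ Γ) {g₁ g₂ : MulAut X} (h₁ : g₁ ∈ Γ) (f₁ : ∀ c ∈ Z, afn g₁ c = c)
    (h₁' : ¬ (afn g₁ (φ (a 1)) = φ (a 1) ∨ afn g₁ (φ (a 1)) = (φ (a 1))⁻¹)) (h₂ : g₂ ∈ Γ)
    (f₂ : ∀ c ∈ Z, afn g₂ c = c)
    (h₂' : afn g₂ (φ (a 1)) = φ (a 1) ∨ afn g₂ (φ (a 1)) = (φ (a 1))⁻¹)
    (h₂'' : ¬ (afn g₂ (φ (xa 0)) = φ (xa 0) ∨ afn g₂ (φ (xa 0)) = (φ (xa 0))⁻¹))
    {β : MulAut X} (hβ : ∀ c ∈ Z, afn β c = c) : β ∈ Γ := by
  have hm : ∀ q, φ q ∈ X := fun q => (hX _).2 ⟨q, 1, one_mem _, (mul_one _).symm⟩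
  have hZX : ∀ c ∈ Z, c ∈ X := fun c hc => (hX _).2 ⟨1, c, hc, by simp⟩
  have lift : ∀ α : MulAut X, ∃ b : QuaternionGroup 2 →* QuaternionGroup 2, Function.Injective b ∧
      ∀ q, afn α (φ q) = φ (b q) := by
    intro α
    choose b hb using hQ α
    refine ⟨MonoidHom.mk' b fun x y => hφ ?_, fun x y e => hφ (Fus2.afn_injective α ?_), hb⟩
    · rw [map_mul, ← hb, ← hb, ← hb, map_mul, (Fus2.homOn_afn α).map_mul (hm x) (hm y)]
    · rw [hb, hb]; exact congrArg φ e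
  obtain ⟨b, hb, e⟩ := lift β
  obtain ⟨b₁, -, e₁⟩ := lift g₁
  obtain ⟨b₂, -, e₂⟩ := lift g₂
  obtain ⟨g, hg, hgZ, e'⟩ := Tr.q8_gen_all
    (fun b => ∃ g ∈ Γ, (∀ c ∈ Z, afn g c = c) ∧ ∀ q, afn g (φ q) = φ (b q))
    (by
      rintro f g ⟨f', k1, k2, k3⟩ ⟨g', k4, k5, k6⟩
      exact ⟨g' * f', mul_mem k4 k1, fun c hc => by rw [Fus2.afn_mul, k2 c hc, k5 c hc],
        fun q => by rw [Fus2.afn_mul, k3, k6, MonoidHom.comp_apply]⟩)
    (fun r => ⟨conjAut X (φ r) (le_normalizer (hm r)),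
      hI (Fus2.mem_Inn_iff.2 ⟨_, hm r, fun x hx => Fus2.afn_conjAut _ hx⟩), fun c hc => by
        rw [Fus2.afn_conjAut _ (hZX c hc), hZ c hc, mul_inv_cancel_right],
      fun q => by rw [Fus2.afn_conjAut _ (hm q)]; simp⟩)
    (by
      rintro f ⟨f', -, -, k2⟩ x y e
      exact hφ (Fus2.afn_injective f' (by rw [k2, k2, e])))
    (g₁ := b₁) (g₂ := b₂) ⟨g₁, h₁, f₁, e₁⟩ (by rwa [e₁, ← map_inv, hφ.eq_iff, hφ.eq_iff] at h₁')
    ⟨g₂, h₂, f₂, e₂⟩ (by rwa [e₂, ← map_inv, hφ.eq_iff, hφ.eq_iff] at h₂')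
    (by rwa [e₂, ← map_inv, hφ.eq_iff, hφ.eq_iff] at h₂'') b hb
  rw [← Fus2.aut_ext (α := g) (β := β) fun x hx => ?_]
  · exact hg
  obtain ⟨q, c, hc, rfl⟩ := (hX x).1 hx
  rw [(Fus2.homOn_afn g).map_mul (hm q) (hZX c hc), (Fus2.homOn_afn β).map_mul (hm q) (hZX c hc),
    e', e, hgZ c hc, hβ c hc]

namespace GC

variable {n : ℕ} (D : GC S n)

include D in
theorem exists_pow {x : Ω} (hx : x ∈ S) : ∃ k : ℕ, x ^ 2 ^ k = 1 := by
  obtain ⟨k, hk⟩ := D.isPGroup ⟨x, hx⟩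
  exact ⟨k, congrArg Subtype.val hk⟩

/-! ### Overgroups of `H` -/

theorem afn_mem_H {Y : Subgroup Ω} (h₁ : D.H ≤ Y) (h₂ : Y ≤ S) (α : MulAut Y) {x : Ω}
    (hx : x ∈ D.H) : afn α x ∈ D.H := by
  have h := afn_cen_sq α (h₁ hx) (fun y hy => D.H_comm hx (D.sq_mem_H (h₂ hy))) _
    (h₁ (D.r_mem_H (a := 1) (b := 0)))
  obtain ⟨a, b, h' | h' | h' | h'⟩ := D.cases (h₂ (Fus2.afn_mem α (h₁ hx))) <;> rw [h'] at h ⊢
  · simp
  · simp only [r_mul_r, s_mul_r, r_mul_s, s_eq_s] at h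
    exact absurd (by linear_combination h.2) D.two_ne
  · simp only [r_mul_r, c_mul_r, r_mul_c, c_eq_c] at h
    exact absurd (by linear_combination -h.1) D.four_ne
  · simp only [r_mul_r, m_mul_r, r_mul_m, m_eq_m] at h
    exact absurd (by linear_combination -h.1) D.two_ne

theorem V_cases {x : Ω} (hx : x ∈ D.H) (h : x * x = 1) :
    x = 1 ∨ x = D.r (hf n) (hf n) ∨ x = D.r (hf n) 0 ∨ x = D.r 0 (hf n) := by
  obtain ⟨a, b, rfl⟩ := hx
  simp only [r_mul_r, r_eq_one] at h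
  rcases (D.two_eq a).1 (by linear_combination h.1) with rfl | rfl <;>
    rcases (D.two_eq b).1 (by linear_combination h.2) with rfl | rfl <;> simp

theorem afn_V {Y : Subgroup Ω} (h₁ : D.H ≤ Y) (h₂ : Y ≤ S) (α : MulAut Y) {a b : ZMod (2 ^ n)}
    (ha : 2 * a = 0) (hb : 2 * b = 0) (h : D.r a b ≠ 1) : afn α (D.r a b) = D.r (hf n) (hf n) ∨
      afn α (D.r a b) = D.r (hf n) 0 ∨ afn α (D.r a b) = D.r 0 (hf n) :=
  (D.V_cases (D.afn_mem_H h₁ h₂ α D.r_mem_H) (by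
    rw [afn_sq α (h₁ D.r_mem_H), afn_eq_one, r_mul_r, r_eq_one]
    exact ⟨by linear_combination ha, by linear_combination hb⟩)).resolve_left
    (by rwa [afn_eq_one])

theorem zw : D.r (hf n) (hf n) * D.r (hf n) 0 = D.r 0 (hf n) := by
  simp [← two_mul, D.h2]

theorem odd_triv {Y : Subgroup Ω} (h₁ : D.H ≤ Y) (h₂ : Y ≤ S) {β : MulAut Y}
    (hβ : (orderOf β).Coprime 2) (e₁ : afn β (D.r (hf n) (hf n)) = D.r (hf n) (hf n))
    (e₂ : afn β (D.r (hf n) 0) = D.r (hf n) 0) : β = 1 := by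
  haveI := D.finite
  haveI := finite_of_le h₂
  obtain ⟨γ, hγ⟩ := exists_oddAut' hβ
  have hH := γ.eq_of_omega h₁ (isPGroup_of_le D.isPGroup D.H_le) (fun a ha b hb => D.H_comm ha hb)
    (fun a ha => by rw [hγ a (h₁ ha)]; exact D.afn_mem_H h₁ h₂ β ha) (fun a ha h => by
      rcases D.V_cases ha h with rfl | rfl | rfl | rfl
      · exact γ.one
      · rw [hγ _ (h₁ ha), e₁]
      · rw [hγ _ (h₁ ha), e₂]
      · rw [← D.zw, γ.mul _ (h₁ D.r_mem_H) _ (h₁ D.r_mem_H), hγ _ (h₁ D.r_mem_H),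
          hγ _ (h₁ D.r_mem_H), e₁, e₂])
  refine Fus2.aut_ext fun x hx => ?_
  rw [Fus2.afn_one, ← hγ x hx]
  have hc : γ.φ x * x⁻¹ ∈ D.H := by
    have h₃ : x⁻¹ * D.r 1 0 * x⁻¹⁻¹ ∈ D.H :=
      D.conj_mem_of_H_le le_rfl D.H_le D.r_mem_H (inv_mem (h₂ hx))
    have h₄ := γ.mul _ hx _ (h₁ h₃)
    have h₅ := γ.mul _ (h₁ (D.r_mem_H (a := 1) (b := 0))) _ hx
    rw [hH _ h₃] at h₄
    rw [hH _ D.r_mem_H] at h₅
    have h₆ : γ.φ x * x⁻¹ * D.r 1 0 = D.r 1 0 * (γ.φ x * x⁻¹) := by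
      have : γ.φ x * (x⁻¹ * D.r 1 0 * x⁻¹⁻¹) = D.r 1 0 * γ.φ x := by
        rw [← h₄, ← h₅]; congr 1; group
      rw [← mul_assoc, ← this]; group
    obtain ⟨a, b, h | h | h | h⟩ := D.cases (mul_mem (h₂ (γ.mem x hx)) (inv_mem (h₂ hx))) <;>
      rw [h] at h₆ ⊢
    · simp
    · simp only [s_mul_r, r_mul_s, s_eq_s] at h₆
      exact absurd (by linear_combination h₆.2) D.one_ne
    · simp only [c_mul_r, r_mul_c, c_eq_c] at h₆
      exact absurd (by linear_combination -h₆.1) D.two_ne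
    · simp only [m_mul_r, r_mul_m, m_eq_m] at h₆
      exact absurd (by linear_combination -h₆.1) D.one_ne
  obtain ⟨k, hk⟩ := D.exists_pow (D.H_le hc)
  exact mul_inv_eq_one.1 (γ.eq_one_of_eq_mul hx (h₁ hc) (by group) (hH _ hc) hk)

theorem afn_z_top (α : MulAut S) : afn α (D.r (hf n) (hf n)) = D.r (hf n) (hf n) := by
  have h := afn_cen α (X := fun _ => True) (fun _ _ _ => trivial) (D.r_mem (hf n) (hf n))
    (fun y hy _ => (D.z_comm hy).symm) _ (D.s_mem 0 0) trivial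
  rcases D.afn_V D.H_le le_rfl α D.h2 D.h2 (by simp [D.h0]) with e | e | e
  · exact e
  · rw [e] at h; simp [D.h0] at h
  · rw [e] at h; simp [D.h0] at h

include D in
theorem aut_top (hF : F.IsSaturated 2) : F.autGroup S ≤ Inn S := by
  haveI := D.finite
  haveI : Fact (Nat.Prime 2) := ⟨Nat.prime_two⟩
  refine autGroup_top_le D.isPGroup hF le_rfl fun β _ hβ => ?_
  have e₁ := D.afn_z_top β
  rw [D.odd_triv D.H_le le_rfl hβ e₁ ?_]
  · exact one_mem _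
  rcases D.afn_V D.H_le le_rfl β D.h2 (mul_zero 2) (by simp [D.h0]) with e | e | e
  · have := Fus2.afn_injective β (e.trans e₁.symm)
    simp [D.h0.symm] at this
  · exact e
  · obtain ⟨γ, hγ⟩ := exists_oddAut' hβ
    have := γ.eq_one_of_eq_mul (D.r_mem (hf n) 0) (D.r_mem (hf n) (hf n))
      (by rw [hγ _ (D.r_mem ..), e, D.zw]) (by rw [hγ _ (D.r_mem ..), e₁]) (k := 1)
      (by simp [sq, ← two_mul, D.h2])
    simp [D.h0] at this

/-- The system contains the standard automorphism of order three of `C`. -/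
def Rho (F : FusionSystem S) : Prop :=
  ∃ f, M F D.C f ∧ (∀ a b, f (D.r a b) = D.r (-a - b) a) ∧ f D.κ = D.κ

theorem Rho.c {D : GC S n} {f : Ω → Ω} (hf : M F D.C f) (h₁ : ∀ a b, f (D.r a b) = D.r (-a - b) a)
    (h₂ : f D.κ = D.κ) (a b : ZMod (2 ^ n)) : f (D.c a b) = D.c (-a - b) a := by
  rw [GC.c, hf.map_mul D.r_mem_C (D.c_zero ▸ D.c_mem_C), h₁, h₂]; rfl

theorem C_normal : S ≤ normalizer (D.C : Set Ω) := fun g hg => by
  haveI := D.finite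
  haveI := finite_of_le D.C_le
  exact mem_normalizer_of_conj_mem fun x hx => D.conj_mem_of_H_le D.H_le_C D.C_le hx hg

theorem aut_C (hF : F.IsSaturated 2) (h : D.Rho F) (h' : D.Rho F') :
    F.autGroup D.C ≤ F'.autGroup D.C := by
  haveI := D.finite
  haveI := finite_of_le D.C_le
  haveI : Finite (MulAut D.C) := finite_mulAut'
  haveI : Fact (Nat.Prime 2) := ⟨Nat.prime_two⟩
  obtain ⟨f, hf₁, hf₂, hf₃⟩ := h
  obtain ⟨f', hf₁', hf₂', hf₃'⟩ := h'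
  obtain ⟨ρ, hρ, eρ⟩ := hf₁.exists_aut' (by
    rintro _ ⟨a, b, rfl | rfl⟩
    · rw [hf₂]; simp
    · rw [Rho.c hf₁ hf₂ hf₃]; simp)
  have hρ' : ρ ∈ F'.autGroup D.C := hf₁'.mem_autGroup (by
    rintro _ ⟨a, b, rfl | rfl⟩
    · rw [eρ _ D.r_mem_C, hf₂, hf₂']
    · rw [eρ _ D.c_mem_C, Rho.c hf₁ hf₂ hf₃, Rho.c hf₁' hf₂' hf₃'])
  have hT := sat_sylow D.isPGroup hF (fn_of_normal F D.C_le D.C_normal)
  have h2 := D.h2
  have step3 : ∀ β ∈ F.autGroup D.C, afn β (D.r (hf n) (hf n)) = D.r (hf n) (hf n) →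
      afn β (D.r (hf n) 0) = D.r (hf n) 0 → β ∈ F'.autGroup D.C := by
    let U : Subgroup (MulAut D.C) := F.autGroup D.C ⊓
      (MulAction.stabilizer (MulAut D.C) (⟨D.r (hf n) (hf n), D.r_mem_C⟩ : D.C) ⊓
        MulAction.stabilizer (MulAut D.C) (⟨D.r (hf n) 0, D.r_mem_C⟩ : D.C))
    have hU : ∀ β, β ∈ U ↔ β ∈ F.autGroup D.C ∧ afn β (D.r (hf n) (hf n)) = D.r (hf n) (hf n) ∧
        afn β (D.r (hf n) 0) = D.r (hf n) 0 := fun β => by
      rw [Fus2.afn_apply _ D.r_mem_C, Fus2.afn_apply _ D.r_mem_C]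
      exact and_congr_right fun _ => and_congr Subtype.ext_iff Subtype.ext_iff
    intro β hβ e₁ e₂
    refine autInducedBy_le_autGroup D.C_le (le_of_normalized hT (U := U) inf_le_left
      (isPGroup_of_forall_coprime fun β hβ hc => D.odd_triv D.H_le_C D.C_le hc ((hU β).1 hβ).2.1
        ((hU β).1 hβ).2.2) (fun τ hτ => mem_normalizer_fintype fun u hu => ?_)
      ((hU β).2 ⟨hβ, e₁, e₂⟩))
    obtain ⟨hu, u₁, u₂⟩ := (hU u).1 hu
    have u₃ : afn u (D.r 0 (hf n)) = D.r 0 (hf n) := by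
      rw [← D.zw, (Fus2.homOn_afn u).map_mul D.r_mem_C D.r_mem_C, u₁, u₂]
    have key : ∀ a b, 2 * a = 0 → 2 * b = 0 → D.r a b ≠ 1 →
        afn (τ * u * τ⁻¹) (D.r a b) = D.r a b := fun a b ha hb h => by
      have : afn u (afn τ⁻¹ (D.r a b)) = afn τ⁻¹ (D.r a b) := by
        rcases D.afn_V D.H_le_C D.C_le τ⁻¹ ha hb h with e | e | e <;> rw [e] <;> assumption
      rw [Fus2.afn_mul, Fus2.afn_mul, this, Fus2.afn_afn_inv]
    exact (hU _).2 ⟨mul_mem (mul_mem (hT.le hτ) hu) (inv_mem (hT.le hτ)),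
      key _ _ h2 h2 (by simp [D.h0]), key _ _ h2 (mul_zero 2) (by simp [D.h0])⟩
  have step2 : ∀ β ∈ F.autGroup D.C, afn β (D.r (hf n) (hf n)) = D.r (hf n) (hf n) →
      β ∈ F'.autGroup D.C := by
    intro β hβ e₁
    rcases D.afn_V D.H_le_C D.C_le β h2 (mul_zero 2) (by simp [D.h0]) with e | e | e
    · have := Fus2.afn_injective β (e.trans e₁.symm)
      simp [D.h0.symm] at this
    · exact step3 β hβ e₁ e
    · have hN := D.C_normal (D.s_mem 0 0)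
      have := step3 _ (mul_mem (conjAut_mem_autGroup D.C_le (D.s_mem 0 0) hN) hβ)
        (by rw [Fus2.afn_mul, e₁, Fus2.afn_conjAut hN D.r_mem_C]; simp)
        (by rw [Fus2.afn_mul, e, Fus2.afn_conjAut hN D.r_mem_C]; simp)
      simpa using mul_mem (inv_mem (conjAut_mem_autGroup D.C_le (D.s_mem 0 0) hN)) this
  have r₁ : afn ρ (D.r (hf n) 0) = D.r (hf n) (hf n) := by
    rw [eρ _ D.r_mem_C, hf₂, r_eq_r]; exact ⟨by linear_combination -h2, rfl⟩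
  have r₂ : afn ρ (D.r 0 (hf n)) = D.r (hf n) 0 := by
    rw [eρ _ D.r_mem_C, hf₂, r_eq_r]; exact ⟨by linear_combination -h2, rfl⟩
  intro β hβ
  rcases D.afn_V D.H_le_C D.C_le β h2 h2 (by simp [D.h0]) with e | e | e
  · exact step2 β hβ e
  · simpa using mul_mem (inv_mem hρ') (step2 _ (mul_mem hρ hβ) (by rw [Fus2.afn_mul, e, r₁]))
  · simpa using mul_mem (inv_mem hρ') (mul_mem (inv_mem hρ') (step2 _ (mul_mem hρ (mul_mem hρ hβ))
      (by rw [Fus2.afn_mul, Fus2.afn_mul, e, r₂, r₁])))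

/-! ### The subgroups `dif (2 j)` -/

variable {j : ZMod (2 ^ n)}

theorem afn_mem_X {k : ZMod (2 ^ n)} (α : MulAut (D.dif k)) {x : Ω} (hx : x ∈ D.dif k)
    (hx' : x ∈ D.X) : afn α x ∈ D.X := by
  have hsq : ∀ y ∈ D.dif k, y * y ∈ D.Dg := by
    rintro _ ⟨a, b, ⟨h, rfl | rfl⟩ | ⟨h, rfl | rfl⟩⟩ <;>
      simp only [r_mul_r, s_mul_s, c_mul_c, m_mul_m, r_mem_Dg]
    · linear_combination h
    · linear_combination h
    · ring
    · ring
  have h := afn_cen_sq α hx (fun y hy => by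
    obtain ⟨e, he⟩ := hsq y hy
    rw [he]
    obtain ⟨a, b, rfl | rfl⟩ := hx' <;> simp [add_comm]) (D.r 1 1) (by simp)
  obtain ⟨a, b, h' | h' | h' | h'⟩ := D.cases (D.dif_le (Fus2.afn_mem α hx)) <;> rw [h'] at h ⊢
  · simp
  · simp
  · simp only [r_mul_r, c_mul_r, r_mul_c, c_eq_c] at h
    exact absurd (by linear_combination -h.1) D.four_ne
  · simp only [r_mul_r, m_mul_r, r_mul_m, m_eq_m] at h
    exact absurd (by linear_combination -h.1) D.four_ne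

theorem icj_mem_X {k : ZMod (2 ^ n)} (α : MulAut (D.dif k)) {x : Ω} (hx : x ∈ D.dif k) :
    x⁻¹ * afn α x ∈ D.X := by
  by_cases hx' : x ∈ D.X
  · exact mul_mem (inv_mem hx') (D.afn_mem_X α hx hx')
  have h : afn α x ∉ D.X := fun h => hx' (by
    simpa only [Fus2.afn_inv_afn] using D.afn_mem_X α⁻¹ (Fus2.afn_mem α hx) h)
  obtain ⟨a, b, rfl | rfl | rfl | rfl⟩ := D.cases (D.dif_le hx) <;>
    obtain ⟨a', b', h' | h' | h' | h'⟩ := D.cases (D.dif_le (Fus2.afn_mem α hx)) <;>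
    rw [h'] at h ⊢ <;> simp at hx' h ⊢

theorem afn_mem_Dg {k : ZMod (2 ^ n)} (α : MulAut (D.dif k)) {x : Ω} (hx : x ∈ D.Dg) :
    afn α x ∈ D.Dg := by
  obtain ⟨d, rfl⟩ := hx
  have hd : D.r d d ∈ D.dif k := by simp
  have h := afn_cen α (X := (· ∈ D.X)) (fun y hy => D.afn_mem_X α⁻¹ hy) hd (by
    rintro _ - ⟨a, b, rfl | rfl⟩ <;> simp [add_comm])
  obtain ⟨e, f, h' | h'⟩ := D.afn_mem_X α hd D.r_mem_X
  · have := h (D.s k 0) (by simp) D.s_mem_X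
    rw [h'] at this ⊢
    simp only [r_mul_s, s_mul_r, s_eq_s] at this
    exact D.r_mem_Dg.2 (by linear_combination this.1)
  · have := h (D.r (hf n) 0) (by simp [D.h2]) D.r_mem_X
    rw [h'] at this
    simp only [r_mul_s, s_mul_r, s_eq_s] at this
    exact absurd (by linear_combination -this.1) D.h0

theorem afn_z {k : ZMod (2 ^ n)} (α : MulAut (D.dif k)) :
    afn α (D.r (hf n) (hf n)) = D.r (hf n) (hf n) := by
  obtain ⟨e, he⟩ := D.afn_mem_Dg α (D.r_mem_Dg.2 rfl : D.r (hf n) (hf n) ∈ D.Dg)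
  have h₁ := afn_sq α (x := D.r (hf n) (hf n)) (by simp)
  have h₂ : D.r (hf n) (hf n) * D.r (hf n) (hf n) = 1 := by simp [← two_mul, D.h2]
  rw [he, h₂, (Fus2.homOn_afn α).map_one, r_mul_r, r_eq_one] at h₁
  rcases (D.two_eq e).1 (by linear_combination h₁.1) with rfl | rfl
  · rw [D.r_zero, afn_eq_one] at he
    simp [D.h0] at he
  · exact he

/-- The wreathed subgroup in its own coordinates. -/
def toWr : Wr D.X n where
  hn := by have := D.hn; omega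
  r := D.r
  s := D.s
  r_mul_r := D.r_mul_r
  r_mul_s := D.r_mul_s
  s_mul_r := D.s_mul_r
  s_mul_s := D.s_mul_s
  r_inj := D.r_inj
  s_inj a b c d h := D.s_eq_s.1 h
  r_ne_s a b c d h := D.r_eq_s.1 h
  mem_iff g := ⟨fun ⟨a, b, h⟩ => h.imp (fun h => ⟨a, b, h⟩) fun h => ⟨a, b, h⟩,
    fun h => h.elim (fun ⟨a, b, h⟩ => ⟨a, b, Or.inl h⟩) fun ⟨a, b, h⟩ => ⟨a, b, Or.inr h⟩⟩

/-- The quaternion centralizer of the `Q₈`. -/
def T : Subgroup Ω where
  carrier := {x | ∃ a, x = D.r a a ∨ x = D.m (a + hf n) a}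
  one_mem' := ⟨0, Or.inl D.r_zero.symm⟩
  mul_mem' := by
    have := D.h2
    rintro _ _ ⟨a, rfl | rfl⟩ ⟨a', rfl | rfl⟩
    · exact ⟨_, Or.inl (D.r_mul_r ..)⟩
    · exact ⟨a + a', Or.inr (by simp [add_assoc])⟩
    · exact ⟨a - a', Or.inr (by simp; ring)⟩
    · exact ⟨a + hf n - a', Or.inl (by simp; linear_combination -this)⟩
  inv_mem' := by
    have := D.h2
    rintro _ ⟨a, rfl | rfl⟩
    · exact ⟨_, Or.inl (D.inv_r ..)⟩
    · exact ⟨a + hf n, Or.inr (by simp; linear_combination -this)⟩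

theorem mem_zp_x {d : ZMod (2 ^ n)} (h : 2 * (2 * d) = 0) :
    D.r d (-d) ∈ zpowers (D.r (qt n) (-qt n)) := by
  rcases (D.two_eq _).1 h with h | h
  · rcases (D.two_eq _).1 h with rfl | rfl
    · rw [neg_zero, D.r_zero]; exact one_mem _
    · exact ⟨2, by simp only [zpow_two, r_mul_r, r_eq_r]
                   exact ⟨by linear_combination D.hq, by linear_combination -D.hq⟩⟩
  · rcases (D.two_eq_hf _).1 h with rfl | rfl
    · exact mem_zpowers _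
    · exact ⟨-1, by simp⟩

theorem q_a : D.toWr.q8Hom j (.a 1) = D.r (qt n) (-qt n) := D.toWr.q8Hom_a_one j
theorem q_xa : D.toWr.q8Hom j (.xa 0) = D.s j (hf n - j) := D.toWr.q8Hom_xa_zero j

theorem q_le : (D.toWr.q8Hom j).range ≤ D.dif (2 * j) ⊓ centralizer (D.T : Set Ω) := by
  have h2 := D.h2
  have h₁ : D.r (qt n) (-qt n) ∈ D.dif (2 * j) ⊓ centralizer (D.T : Set Ω) := by
    refine ⟨D.r_mem_dif.2 (by linear_combination 2 * D.hq + h2), ?_⟩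
    rintro _ ⟨a, rfl | rfl⟩ <;> simp [add_comm, sub_eq_add_neg]
  have h₂ : D.s j (hf n - j) ∈ D.dif (2 * j) ⊓ centralizer (D.T : Set Ω) := by
    refine ⟨D.s_mem_dif.2 (by linear_combination -h2), ?_⟩
    rintro _ ⟨a, rfl | rfl⟩
    · simp [add_comm]
    · simp only [m_mul_s, s_mul_m, c_eq_c]
      exact ⟨by ring, by linear_combination -h2⟩
  rintro _ ⟨q, rfl⟩
  obtain ⟨k, rfl | rfl⟩ := q8_gen q
  · rw [map_pow, q_a]; exact pow_mem h₁ _
  · rw [map_mul, map_pow, q_a, q_xa]; exact mul_mem h₂ (pow_mem h₁ _)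

theorem s_eq_of {a b : ZMod (2 ^ n)} (h₁ : D.s a b ∈ D.dif (2 * j))
    (h₂ : D.s a b * D.s a b = D.r (hf n) (hf n)) :
    ∃ c ∈ zpowers (D.r (qt n) (-qt n)), D.s a b = c * D.s j (hf n - j) := by
  simp only [s_mul_s, r_eq_r, s_mem_dif] at h₁ h₂
  refine ⟨_, D.mem_zp_x (d := a - j) (by linear_combination h₁ + 2 * h₂.1 + D.h2), ?_⟩
  rw [r_mul_s, s_eq_s]
  exact ⟨by ring, by linear_combination h₂.1⟩

theorem mem_q {u : Ω} (h₁ : u ∈ D.dif (2 * j)) (h₂ : u ∈ D.X) (h₃ : u ∉ D.Dg)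
    (h₄ : u * u = D.r (hf n) (hf n)) : u ∈ (D.toWr.q8Hom j).range := by
  have hx : zpowers (D.r (qt n) (-qt n)) ≤ (D.toWr.q8Hom j).range := zpowers_le.2 ⟨_, D.q_a⟩
  obtain ⟨a, b, rfl | rfl⟩ := h₂
  · simp only [r_mul_r, r_eq_r, r_mem_dif, r_mem_Dg] at h₁ h₃ h₄
    have h₅ := ((D.two_eq _).1 h₁).resolve_left (sub_ne_zero.2 h₃)
    obtain rfl : b = -a := by linear_combination -h₅ + h₄.1
    exact hx (D.mem_zp_x (by linear_combination 2 * h₄.1 + D.h2))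
  · obtain ⟨c, hc, e⟩ := D.s_eq_of h₁ h₄
    rw [e]
    exact mul_mem (hx hc) ⟨_, D.q_xa⟩

theorem afn_q (α : MulAut (D.dif (2 * j))) (q : QuaternionGroup 2) :
    ∃ q', afn α (D.toWr.q8Hom j q) = D.toWr.q8Hom j q' := by
  have key : ∀ u ∈ D.dif (2 * j), u ∈ D.X → u ∉ D.Dg → u * u = D.r (hf n) (hf n) →
      afn α u ∈ (D.toWr.q8Hom j).range := fun u h₁ h₂ h₃ h₄ =>
    D.mem_q (Fus2.afn_mem α h₁) (D.afn_mem_X α h₁ h₂)
      (fun h => h₃ (by simpa only [Fus2.afn_inv_afn] using D.afn_mem_Dg α⁻¹ h))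
      (by rw [afn_sq α h₁, h₄, D.afn_z])
  have m₁ : D.r (qt n) (-qt n) ∈ D.dif (2 * j) := (D.q_le ⟨_, D.q_a⟩).1
  have m₂ : D.s j (hf n - j) ∈ D.dif (2 * j) := (D.q_le ⟨_, D.q_xa⟩).1
  have h₁ := key _ m₁ D.r_mem_X (fun h => D.h0 (by linear_combination D.r_mem_Dg.1 h - D.hq)) (by
    rw [r_mul_r, r_eq_r]; exact ⟨by linear_combination D.hq, by linear_combination -D.hq - D.h2⟩)
  have h₂ := key _ m₂ D.s_mem_X (by simp) (by simp)
  have h := Fus2.homOn_afn α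
  suffices afn α (D.toWr.q8Hom j q) ∈ (D.toWr.q8Hom j).range from this.imp fun _ => Eq.symm
  obtain ⟨k, rfl | rfl⟩ := q8_gen q
  · rw [map_pow, q_a, h.map_pow m₁]; exact pow_mem h₁ _
  · rw [map_mul, map_pow, q_a, q_xa, h.map_mul m₂ (pow_mem m₁ _), h.map_pow m₁]
    exact mul_mem h₂ (pow_mem h₁ _)

theorem T_le : D.T ≤ D.dif (2 * j) := by
  rintro _ ⟨a, rfl | rfl⟩ <;> simp [D.h2]

theorem mem_dif_iff (x : Ω) :
    x ∈ D.dif (2 * j) ↔ ∃ q, ∃ c ∈ D.T, x = D.toWr.q8Hom j q * c := by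
  refine ⟨fun hx => ?_, by
    rintro ⟨q, c, hc, rfl⟩; exact mul_mem (D.q_le ⟨q, rfl⟩).1 (D.T_le hc)⟩
  have key : ∀ x ∈ D.dif (2 * j), x ∈ D.X → ∃ q, ∃ c ∈ D.T, x = D.toWr.q8Hom j q * c := by
    rintro _ hx ⟨a, b, rfl | rfl⟩
    · rcases (D.two_eq _).1 (D.r_mem_dif.1 hx) with h | h
      · exact ⟨1, _, ⟨a, Or.inl rfl⟩, by rw [map_one, one_mul, sub_eq_zero.1 h]⟩
      · refine ⟨.a 1, _, ⟨a - qt n, Or.inl rfl⟩, ?_⟩
        rw [q_a, r_mul_r, r_eq_r]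
        exact ⟨by ring, by linear_combination -h + D.hq⟩
    · rcases (D.two_eq _).1 (D.s_mem_dif.1 hx) with h | h
      · refine ⟨.a 1 * .xa 0, _, ⟨a - qt n - j, Or.inl rfl⟩, ?_⟩
        rw [map_mul, q_a, q_xa, r_mul_s, s_mul_r, s_eq_s]
        exact ⟨by ring, by linear_combination -h + D.hq⟩
      · refine ⟨.xa 0, _, ⟨a - j, Or.inl rfl⟩, ?_⟩
        rw [q_xa, s_mul_r, s_eq_s]
        exact ⟨by ring, by linear_combination -h - D.h2⟩
  by_cases hX : x ∈ D.X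
  · exact key x hx hX
  have hy : D.m (0 + hf n) 0 ∈ D.T := ⟨0, Or.inr rfl⟩
  obtain ⟨q, c, hc, e⟩ := key _ (mul_mem hx (inv_mem (D.T_le hy))) (by
    obtain ⟨a, b, rfl | rfl | rfl | rfl⟩ := D.cases (D.dif_le hx) <;> simp at hX ⊢)
  exact ⟨q, _, mul_mem hc hy, by rw [← mul_assoc, ← e, inv_mul_cancel_right]⟩

theorem odd_fix_T {β : MulAut (D.dif (2 * j))} (hβ : (orderOf β).Coprime 2) :
    ∀ c ∈ D.T, afn β c = c := by
  haveI := D.finite
  haveI := finite_of_le (D.dif_le (k := 2 * j))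
  obtain ⟨γ, hγ⟩ := exists_oddAut' hβ
  have hDE : D.Dg ≤ D.dif (2 * j) := by rintro _ ⟨a, rfl⟩; simp
  have hD := γ.eq_of_omega hDE (isPGroup_of_le D.isPGroup D.Dg_le)
    (fun a ha b hb => D.H_comm (D.Dg_le_H ha) (D.Dg_le_H hb))
    (fun a ha => by rw [hγ a (hDE ha)]; exact D.afn_mem_Dg β ha) (by
      rintro _ ⟨a, rfl⟩ h
      simp only [r_mul_r, r_eq_one] at h
      rcases (D.two_eq a).1 (by linear_combination h.1) with rfl | rfl
      · rw [D.r_zero, γ.one]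
      · rw [hγ _ (by simp), D.afn_z])
  rintro _ ⟨a, rfl | rfl⟩
  · rw [← hγ _ (by simp), hD _ (by simp)]
  have hy : D.m (a + hf n) a ∈ D.dif (2 * j) := D.T_le ⟨a, Or.inr rfl⟩
  have h := afn_cen β (X := (· ∈ (D.toWr.q8Hom j).range)) (by
    rintro _ - ⟨q, rfl⟩
    obtain ⟨q', h⟩ := D.afn_q β⁻¹ q
    exact ⟨q', h.symm⟩) hy fun y _ hy' => (D.q_le hy').2 _ ⟨a, Or.inr rfl⟩
  have h₁ := h _ (D.q_le ⟨_, D.q_a⟩).1 ⟨_, D.q_a⟩
  have h₂ := h _ (D.q_le ⟨_, D.q_xa⟩).1 ⟨_, D.q_xa⟩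
  have h₃ : afn β (D.m (a + hf n) a) ∉ D.X := fun h => by
    simpa only [Fus2.afn_inv_afn, m_mem_X] using D.afn_mem_X β⁻¹ (Fus2.afn_mem β hy) h
  obtain ⟨e, f, h' | h' | h' | h'⟩ := D.cases (D.dif_le (Fus2.afn_mem β hy)) <;>
    rw [h'] at h₁ h₂ h₃
  · simp at h₃
  · simp at h₃
  · simp only [c_mul_r, r_mul_c, c_eq_c] at h₁
    exact absurd (by linear_combination -h₁.1 - D.hq) D.h0
  · simp only [m_mul_s, s_mul_m, c_eq_c] at h₂
    have e₁ : γ.φ (D.m (a + hf n) a) = D.r (f - a) (f - a) * D.m (a + hf n) a := by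
      rw [hγ _ hy, h', r_mul_m, m_eq_m]
      exact ⟨by linear_combination h₂.1, by ring⟩
    obtain ⟨k, hk⟩ := D.exists_pow (D.r_mem (f - a) (f - a))
    rw [← hγ _ hy, e₁, γ.eq_one_of_eq_mul hy (by simp) e₁ (hD _ (by simp)) hk, one_mul]

theorem odd_eq_one {β : MulAut (D.dif (2 * j))} (hβ : (orderOf β).Coprime 2)
    (h : afn β (D.r (qt n) (-qt n)) = D.r (qt n) (-qt n) ∨
      afn β (D.r (qt n) (-qt n)) = (D.r (qt n) (-qt n))⁻¹) : β = 1 := by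
  haveI := D.finite
  haveI := finite_of_le (D.dif_le (k := 2 * j))
  obtain ⟨γ, hγ⟩ := exists_oddAut' hβ
  have m₁ : D.r (qt n) (-qt n) ∈ D.dif (2 * j) := (D.q_le ⟨_, D.q_a⟩).1
  have m₂ : D.s j (hf n - j) ∈ D.dif (2 * j) := (D.q_le ⟨_, D.q_xa⟩).1
  have hh := Fus2.homOn_afn β
  have e₁ : afn β (D.r (qt n) (-qt n)) = D.r (qt n) (-qt n) := h.elim id fun h => by
    have := γ.eq_one_of_eq_mul m₁ (c := D.r (hf n) (hf n)) (by simp) (by
      rw [hγ _ m₁, h, inv_r, r_mul_r, r_eq_r]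
      exact ⟨by linear_combination -D.hq - D.h2, by linear_combination D.hq⟩)
      (by rw [hγ _ (by simp), D.afn_z]) (k := 1) (by simp [sq, ← two_mul, D.h2])
    simp [D.h0] at this
  have e₂ : afn β (D.s j (hf n - j)) = D.s j (hf n - j) := by
    obtain ⟨a, b, h' | h'⟩ := D.afn_mem_X β m₂ D.s_mem_X
    · have h₁ : afn β (D.s j (hf n - j) * D.r (qt n) (-qt n)) =
          afn β (D.r (qt n) (-qt n) * D.s j (hf n - j)) := by
        rw [hh.map_mul m₂ m₁, hh.map_mul m₁ m₂, h', e₁]; simp [add_comm]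
      have h₂ := Fus2.afn_injective β h₁
      simp only [s_mul_r, r_mul_s, s_eq_s] at h₂
      exact absurd (by linear_combination -h₂.1 - D.hq) D.h0
    · obtain ⟨c, ⟨k, rfl⟩, e⟩ := D.s_eq_of (h' ▸ Fus2.afn_mem β m₂)
        (by rw [← h', afn_sq β m₂]; simp [D.afn_z])
      obtain ⟨l, hl⟩ := D.exists_pow (zpow_mem (D.r_mem (qt n) (-qt n)) k)
      have := γ.eq_one_of_eq_mul m₂ (zpow_mem m₁ k) (by rw [hγ _ m₂, h', e])
        (by rw [hγ _ (zpow_mem m₁ k), hh.map_zpow m₁, e₁]) hl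
      rw [h', e]
      simp only [this, one_mul]
  refine Fus2.aut_ext fun x hx => ?_
  obtain ⟨q, c, hc, rfl⟩ := (D.mem_dif_iff x).1 hx
  rw [Fus2.afn_one, hh.map_mul (D.q_le ⟨q, rfl⟩).1 (D.T_le hc), D.odd_fix_T hβ c hc]
  congr 1
  obtain ⟨k, rfl | rfl⟩ := q8_gen q
  · rw [map_pow, q_a, hh.map_pow m₁, e₁]
  · rw [map_mul, map_pow, q_a, q_xa, hh.map_mul m₂ (pow_mem m₁ _), hh.map_pow m₁, e₁, e₂]

theorem aut_dif (hF : F.IsSaturated 2) (hE : F.IsFullyNormalized (D.dif (2 * j)))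
    (h' : ¬ IsPGroup 2 (F'.autGroup (D.dif (2 * j)))) :
    F.autGroup (D.dif (2 * j)) ≤ F'.autGroup (D.dif (2 * j)) := by
  haveI := D.finite
  haveI := finite_of_le (D.dif_le (k := 2 * j))
  haveI : Finite (MulAut (D.dif (2 * j))) := finite_mulAut'
  haveI : Fact (Nat.Prime 2) := ⟨Nat.prime_two⟩
  obtain ⟨σ, hσ, hσ', hσ1⟩ : ∃ σ ∈ F'.autGroup (D.dif (2 * j)), (orderOf σ).Coprime 2 ∧ σ ≠ 1 := by
    by_contra h
    push Not at h
    exact h' (isPGroup_of_forall_coprime h)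
  obtain ⟨e, he⟩ := D.hqe
  have hq := D.hq
  have h2 := D.h2
  have hN : D.r e (-e) ∈ normalizer (D.dif (2 * j) : Set Ω) := by
    refine mem_normalizer_of_conj_mem ?_
    rintro _ ⟨a, b, ⟨h, rfl | rfl⟩ | ⟨h, rfl | rfl⟩⟩ <;>
      simp only [inv_r, r_mul_r, r_mul_s, r_mul_c, r_mul_m, s_mul_r, c_mul_r, m_mul_r, r_mem_dif,
        s_mem_dif, c_mem_dif, m_mem_dif]
    · linear_combination h
    · linear_combination h
    · linear_combination h - 4 * he + 2 * hq + h2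
    · linear_combination h - 4 * he + 2 * hq + h2
  refine le_of_sylow_of_coprime (sat_sylow D.isPGroup hF hE) (autInducedBy_le_autGroup D.dif_le)
    fun β _ hβ => mem_of_q8 _ (D.toWr.q8Hom_injective j) D.mem_dif_iff
      (fun c hc q => ((D.q_le ⟨q, rfl⟩).2 c hc).symm) D.afn_q (Inn_le_autGroup D.dif_le) hσ
      (D.odd_fix_T hσ') (fun h => hσ1 (D.odd_eq_one hσ' (by rwa [q_a] at h)))
      (conjAut_mem_autGroup D.dif_le (D.r_mem ..) hN) (fun c hc => ?_) (Or.inl ?_) ?_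
      (D.odd_fix_T hβ)
  · rw [Fus2.afn_conjAut hN (D.T_le hc)]
    obtain ⟨a, rfl | rfl⟩ := hc <;> simp
  · rw [Fus2.afn_conjAut hN (D.q_le ⟨_, rfl⟩).1, q_a]; simp
  · rw [Fus2.afn_conjAut hN (D.q_le ⟨_, rfl⟩).1, q_xa]
    simp only [inv_r, inv_s, r_mul_s, s_mul_r, s_eq_s]
    rintro (h | h)
    · exact D.q0 (by linear_combination h.1 + he)
    · exact D.h0 (by linear_combination -hq + 2 * h.1 + 2 * he - h2)

theorem ess_dif_all {j' : ZMod (2 ^ n)} (h : F.IsEssential 2 (D.dif (2 * j'))) (j : ZMod (2 ^ n)) :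
    F.IsEssential 2 (D.dif (2 * j)) := by
  haveI := D.finite
  haveI : Fact (Nat.Prime 2) := ⟨Nat.prime_two⟩
  have key : ∀ k e, ∀ x ∈ D.dif k, D.r e 0 * x * (D.r e 0)⁻¹ ∈ D.dif (k + 2 * e) := by
    rintro k e _ ⟨a, b, ⟨h, rfl | rfl⟩ | ⟨h, rfl | rfl⟩⟩ <;>
      simp only [inv_r, r_mul_r, r_mul_s, r_mul_c, r_mul_m, s_mul_r, c_mul_r, m_mul_r, r_mem_dif,
        s_mem_dif, c_mem_dif, m_mem_dif] <;> linear_combination h
  have := isEssential_img h (Fus2.M_conj F le_rfl (D.r_mem (j - j') 0))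
  rwa [show img (D.dif (2 * j')) (fun x => D.r (j - j') 0 * x * (D.r (j - j') 0)⁻¹) =
    D.dif (2 * j) from le_antisymm (Fus2.img_le_iff.2 fun x hx => by
      simpa [mul_sub] using key _ (j - j') x hx) fun x hx => by
      have h₁ := key _ (j' - j) x hx
      rw [show 2 * j + 2 * (j' - j) = 2 * j' by ring] at h₁
      have h₂ := Fus2.mem_img_of_mem (fun x => D.r (j - j') 0 * x * (D.r (j - j') 0)⁻¹) h₁
      have h₃ : D.r (j - j') 0 = (D.r (j' - j) 0)⁻¹ := by simp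
      simpa only [h₃, inv_inv, ← mul_assoc, inv_mul_cancel, one_mul, inv_mul_cancel_right]
        using h₂] at this

theorem exists_ess (hF : F.IsSaturated 2) (hfoc : S ≤ F.focalSubgroup) (j : ZMod (2 ^ n)) :
    F.IsEssential 2 (D.flip.dif (2 * j)) := by
  haveI := D.finite
  haveI : Fact (Nat.Prime 2) := ⟨Nat.prime_two⟩
  by_contra h
  refine D.c_mem_X.1 (foc_le_of_essential D.isPGroup hF (X := D.X) ?_ (hfoc (D.c_mem 0 0)))
  rintro E (rfl | hE) α hα x hx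
  · obtain ⟨g, hg, e⟩ := Fus2.mem_Inn_iff.1 (D.aut_top hF hα)
    rw [e x hx]
    exact D.H_le_X (D.icj_mem_H hx hg)
  · rcases D.ess_cases hF hE with rfl | ⟨j', rfl⟩ | ⟨j', rfl⟩
    · by_cases hx' : x ∈ D.H
      · exact D.H_le_X (mul_mem (inv_mem hx') (D.afn_mem_H D.H_le_C D.C_le α hx'))
      have h : afn α x ∉ D.H := fun h => hx' (by
        simpa only [Fus2.afn_inv_afn] using D.afn_mem_H D.H_le_C D.C_le α⁻¹ h)
      obtain ⟨a', b', h' | h'⟩ := Fus2.afn_mem α hx <;> rw [h'] at h ⊢ <;>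
        obtain ⟨a, b, rfl | rfl⟩ := hx <;> simp at hx' h ⊢
    · exact D.icj_mem_X α hx
    · exact absurd (D.flip.ess_dif_all hE j) h

theorem flip_flip_dif {k : ZMod (2 ^ n)} : D.flip.flip.dif k = D.dif k := by
  ext x
  simp only [mem_dif, flip_r, flip_s, flip_c, flip_m, neg_neg]

/-- Uniqueness of the fusion system of type `G₂(q)`. -/
theorem le_of_rho (hF : F.IsSaturated 2) (hF' : F'.IsSaturated 2) (h : D.Rho F) (h' : D.Rho F')
    (hfoc : S ≤ F'.focalSubgroup) : F ≤ F' := by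
  haveI := D.finite
  haveI : Fact (Nat.Prime 2) := ⟨Nat.prime_two⟩
  refine alperin_le D.isPGroup hF ?_
  rintro E (rfl | hE)
  · exact (D.aut_top hF).trans (Inn_le_autGroup le_rfl)
  · rcases D.ess_cases hF hE with rfl | ⟨j, rfl⟩ | ⟨j, rfl⟩
    · exact D.aut_C hF h h'
    · exact D.aut_dif hF hE.2.1 (not_isPGroup_autGroup_of_isEssential
        (D.flip_flip_dif ▸ D.flip.exists_ess hF' hfoc j))
    · exact D.flip.aut_dif hF hE.2.1
        (not_isPGroup_autGroup_of_isEssential (D.exists_ess hF' hfoc j))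

theorem le_foc (h : D.Rho F) {a b a' b' e f e' f' : ZMod (2 ^ n)}
    (h₁ : F.IsConjElt (D.s e f) (D.r a b)) (h₂ : F.IsConjElt (D.m e' f') (D.r a' b')) :
    S ≤ F.focalSubgroup := by
  obtain ⟨ρ, hρ, r₁, -⟩ := h
  have key : ∀ {x y}, F.IsConjElt x y → x⁻¹ * y ∈ F.focalSubgroup := fun {x y} h => by
    obtain ⟨f, hf, rfl⟩ := isConjElt_iff.1 h
    exact Fus2.foc_le_iff.1 le_rfl _ _ hf x (mem_zpowers x)
  have hH : ∀ a b, D.r a b ∈ F.focalSubgroup := fun a b => by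
    obtain ⟨c, hc⟩ := exists_mul_odd_eq_one (1 : ZMod (2 ^ n))
    have := Fus2.foc_le_iff.1 le_rfl _ _ hρ
      (D.r ((2 * c + 1) * (b - a)) ((2 * c + 1) * (-a - 2 * b))) D.r_mem_C
    rw [r₁, inv_r, r_mul_r] at this
    convert this using 2
    · linear_combination (-a) * hc
    · linear_combination (-b) * hc
  have hs : ∀ a b, D.s a b ∈ F.focalSubgroup := fun a₁ b₁ => by
    have := mul_mem (hH (a₁ - e) (b₁ - f)) (inv_mem (mul_mem (key h₁) (inv_mem (hH a b))))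
    simpa only [mul_inv_cancel_right, inv_inv, r_mul_s, sub_add_cancel] using this
  have hm : ∀ a b, D.m a b ∈ F.focalSubgroup := fun a₁ b₁ => by
    have := mul_mem (hH (a₁ - e') (b₁ - f')) (inv_mem (mul_mem (key h₂) (inv_mem (hH a' b'))))
    simpa only [mul_inv_cancel_right, inv_inv, r_mul_m, sub_add_cancel] using this
  intro g hg
  obtain ⟨a, b, rfl | rfl | rfl | rfl⟩ := D.cases hg
  exacts [hH a b, hs a b, by simpa using mul_mem (hs a b) (hm 0 0), hm a b]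

/-- All elements, indexed by a sum type. -/
def param : ((ZMod (2 ^ n) × ZMod (2 ^ n)) ⊕ (ZMod (2 ^ n) × ZMod (2 ^ n))) ⊕
    ((ZMod (2 ^ n) × ZMod (2 ^ n)) ⊕ (ZMod (2 ^ n) × ZMod (2 ^ n))) → Ω :=
  Sum.elim (Sum.elim (fun i => D.r i.1 i.2) fun i => D.s i.1 i.2)
    (Sum.elim (fun i => D.c i.1 i.2) fun i => D.m i.1 i.2)

theorem param_injective : Function.Injective D.param := by
  rintro ((⟨a, b⟩ | ⟨a, b⟩) | (⟨a, b⟩ | ⟨a, b⟩)) ((⟨a', b'⟩ | ⟨a', b'⟩) | (⟨a', b'⟩ | ⟨a', b'⟩)) h <;>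
    simp [param] at h ⊢ <;> exact h

theorem mem_iff_param (x : Ω) : x ∈ S ↔ ∃ i, x = D.param i := by
  constructor
  · intro hx
    obtain ⟨a, b, h | h | h | h⟩ := D.cases hx
    exacts [⟨.inl (.inl (a, b)), h⟩, ⟨.inl (.inr (a, b)), h⟩, ⟨.inr (.inl (a, b)), h⟩,
      ⟨.inr (.inr (a, b)), h⟩]
  · rintro ⟨(⟨a, b⟩ | ⟨a, b⟩) | (⟨a, b⟩ | ⟨a, b⟩), rfl⟩
    exacts [D.r_mem .., D.s_mem .., D.c_mem .., D.m_mem ..]

end GC

/-- Two saturated systems of type `G₂(q)` are isomorphic. -/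
theorem exists_isoM {Ω' : Type*} [Group Ω'] {S' : Subgroup Ω'} {F' : FusionSystem S'} {n : ℕ}
    (D : GC S n) (D' : GC S' n) (hF : F.IsSaturated 2) (hF' : F'.IsSaturated 2) (h : D.Rho F)
    (h' : D'.Rho F') (hfoc : S ≤ F.focalSubgroup) (hfoc' : S' ≤ F'.focalSubgroup) :
    ∃ a b, Fus2.IsoM F F' a b := by
  haveI := D'.finite
  obtain ⟨a, b, hG, e⟩ := Tr.exists_gIso_of_param (S := S) (S' := S')
    (fun x y => match x, y with
      | .inl (.inl i), .inl (.inl j) => .inl (.inl (i.1 + j.1, i.2 + j.2))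
      | .inl (.inl i), .inl (.inr j) => .inl (.inr (i.1 + j.1, i.2 + j.2))
      | .inl (.inl i), .inr (.inl j) => .inr (.inl (i.1 + j.1, i.2 + j.2))
      | .inl (.inl i), .inr (.inr j) => .inr (.inr (i.1 + j.1, i.2 + j.2))
      | .inl (.inr i), .inl (.inl j) => .inl (.inr (i.1 + j.2, i.2 + j.1))
      | .inl (.inr i), .inl (.inr j) => .inl (.inl (i.1 + j.2, i.2 + j.1))
      | .inl (.inr i), .inr (.inl j) => .inr (.inr (i.1 + j.2, i.2 + j.1))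
      | .inl (.inr i), .inr (.inr j) => .inr (.inl (i.1 + j.2, i.2 + j.1))
      | .inr (.inl i), .inl (.inl j) => .inr (.inl (i.1 - j.1, i.2 - j.2))
      | .inr (.inl i), .inl (.inr j) => .inr (.inr (i.1 - j.1, i.2 - j.2))
      | .inr (.inl i), .inr (.inl j) => .inl (.inl (i.1 - j.1, i.2 - j.2))
      | .inr (.inl i), .inr (.inr j) => .inl (.inr (i.1 - j.1, i.2 - j.2))
      | .inr (.inr i), .inl (.inl j) => .inr (.inr (i.1 - j.2, i.2 - j.1))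
      | .inr (.inr i), .inl (.inr j) => .inr (.inl (i.1 - j.2, i.2 - j.1))
      | .inr (.inr i), .inr (.inl j) => .inl (.inr (i.1 - j.2, i.2 - j.1))
      | .inr (.inr i), .inr (.inr j) => .inl (.inl (i.1 - j.2, i.2 - j.1))) D.param D'.param
    (by rintro ((i | i) | (i | i)) ((j | j) | (j | j)) <;> simp [GC.param])
    (by rintro ((i | i) | (i | i)) ((j | j) | (j | j)) <;> simp [GC.param])
    D.param_injective D'.param_injective D.mem_iff_param D'.mem_iff_param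
  have er : ∀ x y, a (D.r x y) = D'.r x y := fun x y => e (.inl (.inl (x, y)))
  have ec : ∀ x y, a (D.c x y) = D'.c x y := fun x y => e (.inr (.inl (x, y)))
  refine ⟨a, b, Tr.isoM_of_eq D'.isPGroup hF' hG fun E hE hI => ?_⟩
  have hρ : D.Rho E := by
    obtain ⟨f, hf, f₁, f₂⟩ := h'
    have hC : img D.C a ≤ D'.C := Fus2.img_le_iff.2 (by
      rintro _ ⟨x, y, rfl | rfl⟩
      · rw [er]; simp
      · rw [ec]; simp)
    refine ⟨_, hI.pull' D.C_le (hf.mono hC), fun x y => ?_, ?_⟩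
    · simp only [er, f₁]
      rw [← er, hG.left _ (D.r_mem ..)]
    · have : a D.κ = D'.κ := by rw [← D.c_zero, ec, D'.c_zero]
      simp only [this, f₂]
      rw [← this, hG.left _ (D.c_zero ▸ D.c_mem 0 0)]
  have hE' : S ≤ E.focalSubgroup := fun x hx => by
    have := hfoc' (hG.mem x hx)
    rw [hI.foc_eq] at this
    exact (hG.apply_mem_img (Fus2.foc_le E) hx).1 this
  exact fs_le_antisymm (D.le_of_rho hF hE h hρ hE') (D.le_of_rho hE hF hρ h hfoc)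

end Cfsg.Agent.WQ
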