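import Cfsg.Agent.Lib.WQ.Pr

/-!
The case of a conjugate of `z` centralizing the cyclic subgroup of index two of `R`.
-/

set_option autoImplicit false
set_option linter.style.haveILetI false
set_option linter.unusedVariables false
set_option linter.unusedSectionVars false
set_option linter.unusedSimpArgs false
set_option linter.unusedTactic false
set_option linter.unreachableTactic false

namespace Cfsg.Agent.WQ

open Subgroup Cfsg.Agent.Fus Cfsg.Agent.Ess Cfsg.Agent.TwoGrp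
open Cfsg.Agent.Fus2 (M afn HomOn img)
open Cfsg.FusionSystem (centralizerIn normalizerIn)

universe u

variable {Ω : Type u} [Group Ω] {S : Subgroup Ω} {F : FusionSystem S} {n : ℕ}

namespace Ctx

variable {X : Ctx F n}

theorem rC {w : Ω} (hw : w ∈ S) (h : X.ii w = 1) (a : ZMod (2 ^ n)) :
    X.r a ∈ centralizerIn S (zpowers w) := mem_cs.2 ⟨X.rS a, by rw [X.gr hw, h, one_mul]⟩

theorem cs_zw {w : Ω} : centralizerIn S (zpowers (X.z * w)) = centralizerIn S (zpowers w) := by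
  ext g
  simp only [mem_cs]
  refine and_congr_right fun hg => ?_
  rw [mul_assoc, ← mul_assoc g, X.z_comm hg, mul_assoc, mul_right_inj]

namespace Pr

variable {w w' : Ω} {φ ψ : Ω → Ω} (h : X.Pr w w' φ ψ) (h₁ : X.ii w = 1) (h₂ : X.ii w' = 1)
include h h₁ h₂

theorem x_mem (b : ZMod (2 ^ n)) : ψ (X.r b) ∈ centralizerIn S (zpowers w) :=
  h.iso.mem' _ (rC h.symm.wS h₂ b)

theorem xS (b : ZMod (2 ^ n)) : ψ (X.r b) ∈ S := (h.x_mem h₁ h₂ b).1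

theorem x_mul (a b : ZMod (2 ^ n)) : ψ (X.r a) * ψ (X.r b) = ψ (X.r (a + b)) := by
  rw [← h.hψ.map_mul (rC h.symm.wS h₂ a) (rC h.symm.wS h₂ b), X.r_mul]

theorem x_zero : ψ (X.r 0) = 1 := by rw [X.r_zero, h.hψ.map_one]

theorem x_conj {g : Ω} (hg : g ∈ centralizerIn S (zpowers w)) (b : ZMod (2 ^ n)) :
    g * ψ (X.r b) = ψ (X.r (X.ii (φ g) * b)) * g := by
  have m := h.iso.mem g hg
  have := congrArg ψ (X.gr m.1 b)
  rwa [h.hψ.map_mul m (rC h.symm.wS h₂ _), h.hψ.map_mul (rC h.symm.wS h₂ _) m,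
    h.iso.left g hg] at this

theorem x_eq_r {a b : ZMod (2 ^ n)} (e : ψ (X.r b) = X.r a) : b = 0 := by
  haveI : NeZero (2 ^ n) := ⟨by positivity⟩
  by_contra hb
  obtain ⟨c, hc⟩ := exists_mul_eq_hf hb
  have : w ∈ X.R := by
    rw [← h.symm.φz, z, ← hc, mul_comm, ← ZMod.natCast_zmod_val c, ← X.r_pow,
      h.hψ.homOn.map_pow (rC h.symm.wS h₂ b), e]
    exact pow_mem (X.rR a) _
  exact (X.R_inv this h.sq).elim (X.conj_ne h.conj) h.ne

theorem ii_x (b : ZMod (2 ^ n)) : X.ii (ψ (X.r b)) = 1 := by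
  have e₁ := h.x_conj h₁ h₂ (rC h.wS h₁ 1) b
  have e₂ := X.gr (h.xS h₁ h₂ b) 1
  have e₃ : ψ (X.r (X.ii (φ (X.r 1)) * b + -b)) = X.r (1 + -X.ii (ψ (X.r b))) := by
    rw [← h.x_mul h₁ h₂, ← X.r_mul, ← X.inv_r, h.hψ.map_inv (rC h.symm.wS h₂ b), ← X.inv_r,
      eq_mul_inv_of_mul_eq e₁.symm, ← mul_one (X.ii (ψ (X.r b))), eq_mul_inv_of_mul_eq e₂.symm]
    group
  rw [h.x_eq_r h₁ h₂ e₃, h.x_zero h₁ h₂, eq_comm, X.r_eq_one] at e₃
  linear_combination -e₃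

theorem jj_x : ∃ c, ∀ b, X.jj (ψ (X.r b)) = b * (2 * c + 1) := by
  have e := add_hom_eq (f := fun b => X.jj (ψ (X.r b))) fun a b => by
    rw [← h.x_mul h₁ h₂, X.jj_mul (h.xS h₁ h₂ a) (h.xS h₁ h₂ b), h.ii_x h₁ h₂]; ring
  obtain ⟨c, hc⟩ := X.odd_of_mul_hf (a := X.jj (ψ (X.r 1))) (by
    rw [← e]
    show X.jj (ψ X.z) ≠ 0
    rw [h.symm.φz, X.jj_conj h.conj h.ne h₁]
    exact X.h0)
  exact ⟨c, fun b => hc ▸ e b⟩

theorem ii_φ {g : Ω} (hg : g ∈ centralizerIn S (zpowers w)) (e : X.ii g = 1) : X.ii (φ g) = 1 := by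
  obtain ⟨c, hc⟩ := h.jj_x h₁ h₂
  have := congrArg X.jj (h.x_conj h₁ h₂ hg 1)
  rw [X.jj_mul hg.1 (h.xS h₁ h₂ _), X.jj_mul (h.xS h₁ h₂ _) hg.1, e, h.ii_x h₁ h₂, hc, hc] at this
  exact (isUnit_odd c).mul_right_cancel (by linear_combination -this)

theorem n2 {s : Ω} (hs : s ∈ centralizerIn S (zpowers w)) (e₁ : X.ii s = 1) (e₂ : X.jj s = 0)
    (hss : s * s = 1) : s = 1 ∨ s = X.z := by
  by_contra hn
  push Not at hn
  have a₁ := h.ii_φ h₁ h₂ hs e₁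
  have m := h.hφ.mem hs
  have a₂ := X.jj_sq m (by rw [← h.hφ.map_mul hs hs, hss, h.hφ.map_one])
  rw [a₁] at a₂
  refine h.symm.ne (h.φz.symm.trans ?_)
  rcases (X.two_eq (X.jj (φ s))).1 (by linear_combination a₂) with a | a
  · exact X.nc h.hφ h.zC hs hss hn.1 e₁ e₂ a₁ a
  · have e : φ (X.z * s) = w' * φ s := by rw [h.hφ.map_mul h.zC hs, h.φz]
    refine X.nc h.hφ h.zC (mul_mem h.zC hs) ?_ (fun e => hn.2 ?_) ?_ ?_ ?_ ?_
    · rw [mul_assoc, ← mul_assoc s, X.z_comm hs.1, mul_assoc, hss, mul_one, X.zz]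
    · rw [← X.inv_z, ← mul_eq_one_iff_inv_eq.1 e]
    · rw [X.ii_mul X.zS hs.1, X.ii_z, e₁, one_mul]
    · rw [X.jj_mul X.zS hs.1, X.jj_z, e₂]; simp
    · rw [e, X.ii_mul h.symm.wS m, h₂, a₁, one_mul]
    · rw [e, X.jj_mul h.symm.wS m, h₂, a, X.jj_conj h.symm.conj h.symm.ne h₂]
      linear_combination X.h2

theorem omega {g : Ω} (hg : g ∈ centralizerIn S (zpowers w)) (e : X.ii g = 1) (hgg : g * g = 1) :
    g = 1 ∨ g = X.z ∨ g = w ∨ g = X.z * w := by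
  have a := X.jj_sq hg.1 hgg
  rw [e] at a
  rcases (X.two_eq (X.jj g)).1 (by linear_combination a) with a | a
  · exact (h.n2 h₁ h₂ hg e a hgg).imp_right Or.inl
  · have := h.n2 h₁ h₂ (mul_mem hg h.wC) (by rw [X.ii_mul hg.1 h.wS, e, h₁, one_mul])
      (by rw [X.jj_mul hg.1 h.wS, e, a, X.jj_conj h.conj h.ne h₁]; linear_combination X.h2)
      (by rw [mul_assoc, ← mul_assoc w, (mem_cs.1 hg).2, mul_assoc, h.sq, mul_one, hgg])
    simp only [← eq_mul_inv_iff_mul_eq, inv_eq_of_mul_eq_one_right h.sq, one_mul] at this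
    exact Or.inr (Or.inr this)

theorem mem_H {g : Ω} (hg : g ∈ centralizerIn S (zpowers w)) (e : X.ii g = 1) :
    ∃ a b, g = X.r a * ψ (X.r b) := by
  obtain ⟨k, hk⟩ := X.hS ⟨g, hg.1⟩
  replace hk : g ^ 2 ^ k = 1 := congrArg Subtype.val hk
  obtain ⟨c, hc⟩ := h.jj_x h₁ h₂
  obtain ⟨c', hc'⟩ := h.symm.jj_x h₂ h₁
  have x0 := h.x_zero h₁ h₂
  induction k generalizing g with
  | zero => exact ⟨0, 0, by rw [X.r_zero, h.hψ.map_one, one_mul, ← hk]; simp⟩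
  | succ k ih =>
    obtain ⟨a, b, hab⟩ := ih (mul_mem hg hg) (by rw [X.ii_mul hg.1 hg.1, e, one_mul])
      (by rw [← _root_.sq, ← pow_mul, ← pow_succ', hk])
    have a₁ := congrArg X.jj hab
    rw [X.jj_mul hg.1 hg.1, X.jj_mul (X.rS a) (h.xS h₁ h₂ b), e, X.ii_r, X.jj_r, hc] at a₁
    have m := h.hφ.mem hg
    have a₂ := congrArg (fun x => X.jj (φ x)) hab
    simp only [h.hφ.map_mul hg hg, h.hφ.map_mul (rC h.wS h₁ a) (h.x_mem h₁ h₂ b),
      h.iso.right _ (rC h.symm.wS h₂ b)] at a₂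
    rw [X.jj_mul m m, X.jj_mul (h.symm.xS h₂ h₁ a) (X.rS b), h.ii_φ h₁ h₂ hg e, h.symm.ii_x h₂ h₁,
      X.jj_r, hc'] at a₂
    obtain ⟨a, rfl⟩ := (par a).resolve_right fun ⟨d, hd⟩ => X.ne_odd (X.jj (φ g))
      (b + 2 * d * c' + d + c') (by rw [hd] at a₂; linear_combination a₂)
    obtain ⟨b, rfl⟩ := (par b).resolve_right fun ⟨d, hd⟩ => X.ne_odd (X.jj g)
      (2 * a + 2 * d * c + d + c) (by rw [hd] at a₁; linear_combination a₁)
    have c₁ : ∀ a, g * X.r a = X.r a * g := fun a => by rw [X.gr hg.1, e, one_mul]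
    have c₂ : ∀ a, g * ψ (X.r a) = ψ (X.r a) * g := fun a => by
      rw [h.x_conj h₁ h₂ hg, h.ii_φ h₁ h₂ hg e, one_mul]
    have c₃ : ∀ a b, ψ (X.r b) * X.r a = X.r a * ψ (X.r b) := fun a b => by
      rw [X.gr (h.xS h₁ h₂ b), h.ii_x h₁ h₂, one_mul]
    have m₁ := mul_mem (rC h.wS h₁ (-a)) (h.x_mem h₁ h₂ (-b))
    have key : ∀ a' b', X.r (-a) * ψ (X.r (-b)) * g = X.r a' * ψ (X.r b') →
        ∃ a b, g = X.r a * ψ (X.r b) := fun a' b' e => ⟨a + a', b + b', by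
      rw [← X.r_mul, ← h.x_mul h₁ h₂, mul_assoc, ← mul_assoc (X.r a'), ← c₃, mul_assoc, ← e,
        ← mul_assoc (ψ _), ← mul_assoc (ψ _), c₃, mul_assoc (X.r _), h.x_mul h₁ h₂, add_neg_cancel,
        x0, mul_one, ← mul_assoc, X.r_mul, add_neg_cancel, X.r_zero, one_mul]⟩
    rcases h.omega h₁ h₂ (mul_mem m₁ hg)
      (by rw [X.ii_mul m₁.1 hg.1, X.ii_mul (X.rS _) (h.xS h₁ h₂ _), X.ii_r, h.ii_x h₁ h₂, e]; simp)
      (by
        rw [mul_assoc, ← mul_assoc g, ← mul_assoc g, c₁, mul_assoc _ g, c₂, mul_assoc, mul_assoc,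
          mul_assoc, hab, ← mul_assoc (ψ _), c₃, mul_assoc, ← mul_assoc (ψ _), h.x_mul h₁ h₂,
          ← mul_assoc (ψ _), c₃, mul_assoc, h.x_mul h₁ h₂, ← mul_assoc, ← mul_assoc, X.r_mul,
          X.r_mul, show -a + -a + 2 * a = 0 by ring, show -b + -b + 2 * b = 0 by ring, x0, X.r_zero,
          one_mul]) with e | e | e | e
    · exact key 0 0 (by rw [e, x0, X.r_zero, one_mul])
    · exact key (hf n) 0 (by rw [e, x0, mul_one, z])
    · exact key 0 (hf n) (by rw [e, X.r_zero, one_mul]; exact h.symm.φz.symm)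
    · exact key (hf n) (hf n) (by rw [e]; exact congrArg _ h.symm.φz.symm)

theorem H_comm {g g' : Ω} (hg : g ∈ centralizerIn S (zpowers w)) (e : X.ii g = 1)
    (hg' : g' ∈ centralizerIn S (zpowers w)) (e' : X.ii g' = 1) : g * g' = g' * g := by
  obtain ⟨a, b, rfl⟩ := h.mem_H h₁ h₂ hg' e'
  rw [← mul_assoc, X.gr hg.1, e, one_mul, mul_assoc, h.x_conj h₁ h₂ hg, h.ii_φ h₁ h₂ hg e, one_mul,
    mul_assoc]

theorem conj_cases {v : Ω} (hv : v ∈ centralizerIn S (zpowers w)) (e : X.ii v = 1)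
    (c : F.IsConjElt X.z v) : v = X.z ∨ v = w ∨ v = X.z * w :=
  (h.omega h₁ h₂ hv e (X.conj_sq c)).resolve_left (X.conj_ne c)

omit h₁ h₂ in
theorem sq_mem' {g : Ω} (hg : g ∈ S) (e : g * w * g⁻¹ = w ∨ g * w * g⁻¹ = X.z * w) :
    g * g ∈ centralizerIn S (zpowers w) := by
  refine mem_cs.2 ⟨mul_mem hg hg, ?_⟩
  rcases e with e | e <;> rw [mul_inv_eq_iff_eq_mul] at e
  · rw [mul_assoc, e, ← mul_assoc g, e, mul_assoc]
  · rw [mul_assoc, e, mul_assoc, ← mul_assoc g, X.z_comm hg, mul_assoc, ← mul_assoc g, e,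
      ← mul_assoc, ← mul_assoc, ← mul_assoc, ← mul_assoc, X.zz, one_mul]

theorem conj_w {g : Ω} (hg : g ∈ S) : g * w * g⁻¹ = w ∨ g * w * g⁻¹ = X.z * w := by
  haveI := X.fin
  haveI : Fact (Nat.Prime 2) := ⟨Nat.prime_two⟩
  have cz : ∀ g ∈ S, g * X.z * g⁻¹ = X.z := fun g hg => by rw [X.z_comm hg, mul_inv_cancel_right]
  have cm : ∀ a b x : Ω, a * b * x * (a * b)⁻¹ = a * (b * x * b⁻¹) * a⁻¹ := fun a b x => by group
  let L : Subgroup Ω :=
    { carrier := {g | g ∈ S ∧ (g * w * g⁻¹ = w ∨ g * w * g⁻¹ = X.z * w)}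
      one_mem' := ⟨one_mem _, Or.inl (by simp)⟩
      mul_mem' := by
        rintro a b ⟨ha, ea⟩ ⟨hb, eb | eb⟩ <;> refine ⟨mul_mem ha hb, ?_⟩ <;> rw [cm, eb]
        · exact ea
        · rw [← conj_mul, cz a ha]
          rcases ea with ea | ea <;> rw [ea]
          · exact Or.inr rfl
          · exact Or.inl (by rw [← mul_assoc, X.zz, one_mul])
      inv_mem' := by
        rintro a ⟨ha, ea | ea⟩ <;> refine ⟨inv_mem ha, ?_⟩
        · exact Or.inl (by rw [inv_inv, mul_assoc, inv_mul_eq_iff_eq_mul, mul_inv_eq_iff_eq_mul.1 ea])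
        · exact Or.inr (by
            rw [inv_inv, mul_assoc, inv_mul_eq_iff_eq_mul, ← mul_assoc, X.z_comm ha, mul_assoc,
              mul_inv_eq_iff_eq_mul.1 ea, ← mul_assoc, ← mul_assoc, X.zz, one_mul]) }
  by_contra hn
  obtain ⟨g, hg, hN, hgL⟩ := exists_mem_normalizer_not_mem X.hS (P := L)
    (lt_of_le_of_ne (fun _ h => h.1) fun e => hn (e.ge hg).2)
  have m := h.x_mem h₁ h₂ (qt n)
  obtain ⟨a₁, a₂⟩ := Fus.conj_mem_of_mem_normalizer hN (show ψ (X.r (qt n)) ∈ L from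
    ⟨m.1, Or.inl (by rw [← (mem_cs.1 m).2, mul_inv_cancel_right])⟩)
  have a₃ := h.sq_mem' a₁ a₂
  rw [conj_mul, h.x_mul h₁ h₂, ← _root_.two_mul, X.hq, show X.r (hf n) = X.z from rfl,
    h.symm.φz] at a₃
  refine hgL ⟨hg, (h.conj_cases h₁ h₂ a₃ (by rw [X.ii_conj hg h.wS, h₁])
    (isConjElt_trans h.conj (Tr.isConjElt_conj h.wS hg))).resolve_left fun e => h.ne ?_⟩
  simpa using e.trans (cz g hg).symm

theorem sq_mem {g : Ω} (hg : g ∈ S) : g * g ∈ centralizerIn S (zpowers w) :=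
  h.sq_mem' hg (h.conj_w h₁ h₂ hg)

theorem y_conj : X.y * w * X.y⁻¹ = X.z * w := by
  refine (h.conj_w h₁ h₂ X.yS).resolve_left fun e => X.h0 ?_
  rw [← X.jj_conj h.conj h.ne h₁]
  exact X.jj_eq h.wS (by rw [X.r_zero, one_mul, mul_inv_eq_iff_eq_mul.1 e])

theorem C_normal : S ≤ normalizer (centralizerIn S (zpowers w) : Set Ω) := fun g hg => by
  haveI := X.fin
  refine mem_normalizer_of_conj_mem fun x hx => ?_
  have : x ∈ centralizerIn S (zpowers (g⁻¹ * w * g⁻¹⁻¹)) := by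
    rcases h.conj_w h₁ h₂ (inv_mem hg) with e | e <;> rw [e]
    exacts [hx, cs_zw.ge hx]
  refine mem_cs.2 ⟨mul_mem (mul_mem hg hx.1) (inv_mem hg), ?_⟩
  calc w * (g * x * g⁻¹) = g * (g⁻¹ * w * g⁻¹⁻¹ * x) * g⁻¹ := by group
    _ = _ := by rw [(mem_cs.1 this).2]; group

theorem w'_eq : w' = w ∨ w' = X.z * w := by
  have := h.sq_mem h₁ h₂ (h.symm.xS h₂ h₁ (qt n))
  rw [h.symm.x_mul h₂ h₁, ← _root_.two_mul, X.hq, show X.r (hf n) = X.z from rfl, h.φz] at this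
  exact (h.conj_cases h₁ h₂ this h₂ h.symm.conj).resolve_left h.symm.ne

end Pr

/-- An automorphism of odd order of `C_S(w)` permuting `z`, `w`, `z w` cyclically. -/
structure AH (X : Ctx F n) (w : Ω) (ρ : MulAut (centralizerIn S (zpowers w))) : Prop where
  mem : ρ ∈ F.autGroup _
  odd : (orderOf ρ).Coprime 2
  pr : X.Pr w (X.z * w) (afn ρ⁻¹) (afn ρ)
  h₁ : X.ii w = 1

theorem Pr.exists_ah {w w' : Ω} {φ ψ : Ω → Ω} (h : X.Pr w w' φ ψ) (h₁ : X.ii w = 1)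
    (h₂ : X.ii w' = 1) : ∃ ρ, X.AH w ρ := by
  haveI := X.fin
  haveI : Fact (Nat.Prime 2) := ⟨Nat.prime_two⟩
  haveI : Finite (MulAut (centralizerIn S (zpowers w))) := finite_mulAut'
  obtain ⟨α₀, hα₀, e₀⟩ := h.hφ.exists_aut' fun x hx => by
    have := h.iso.mem x hx
    rcases h.w'_eq h₁ h₂ with e | e <;> rw [e] at this
    exacts [this, cs_zw.le this]
  obtain ⟨α, hα, e₁, e₂⟩ : ∃ α ∈ F.autGroup (centralizerIn S (zpowers w)), afn α w = X.z ∧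
      afn α X.z = X.z * w := by
    rcases h.w'_eq h₁ h₂ with e | e
    · have hN := h.C_normal h₁ h₂ X.yS
      refine ⟨_, mul_mem (conjAut_mem_autGroup (centralizerIn_le _) X.yS hN) hα₀, ?_, ?_⟩
      · rw [Fus2.afn_mul, e₀ _ h.wC, h.φw, Fus2.afn_conjAut hN h.zC, X.z_comm X.yS,
          mul_inv_cancel_right]
      · rw [Fus2.afn_mul, e₀ _ h.zC, h.φz, e, Fus2.afn_conjAut hN h.wC, h.y_conj h₁ h₂]
    · exact ⟨α₀, hα₀, by rw [e₀ _ h.wC, h.φw], by rw [e₀ _ h.zC, h.φz, e]⟩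
  have e₃ : afn α (X.z * w) = w := by
    rw [(Fus2.homOn_afn α).map_mul h.zC h.wC, e₁, e₂, mul_assoc, X.z_comm h.wS, ← mul_assoc, X.zz,
      one_mul]
  obtain ⟨m, hm, ho⟩ := exists_pow_pPrimeElement (p := 2) (isOfFinOrder_of_finite α) (m := 3)
    (by norm_num)
  obtain ⟨k, rfl⟩ : ∃ k, m = 3 * k + 1 := ⟨m / 3, by unfold Nat.ModEq at hm; omega⟩
  have key : afn (α ^ (3 * k + 1)) w = X.z ∧ afn (α ^ (3 * k + 1)) X.z = X.z * w := by
    clear hm ho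
    induction k with
    | zero => simpa using ⟨e₁, e₂⟩
    | succ k ih =>
      rw [show 3 * (k + 1) + 1 = 3 * k + 1 + 1 + 1 + 1 by ring]
      simp only [pow_succ α (3 * k + 1 + 1 + 1), pow_succ α (3 * k + 1 + 1), pow_succ α (3 * k + 1),
        Fus2.afn_mul, e₁, e₂, e₃, ih, and_self]
  have hβ := M_afn (centralizerIn_le _) (pow_mem hα (3 * k + 1))
  refine ⟨(α ^ (3 * k + 1))⁻¹, inv_mem (pow_mem hα _), by rwa [orderOf_inv], ?_, h₁⟩
  rw [inv_inv]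
  refine ⟨hβ, ?_, h.wS, h.ne, key.1, key.2, ?_⟩ <;> rw [cs_zw]
  · exact M_afn (centralizerIn_le _) (inv_mem (pow_mem hα _))
  exact ⟨hβ.homOn, fun _ => Fus2.afn_mem _, fun _ => Fus2.afn_mem _,
    fun _ _ => Fus2.afn_inv_afn _ _, fun _ _ => Fus2.afn_afn_inv _ _⟩

end Ctx

end Cfsg.Agent.WQ
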