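import Cfsg.Agent.Lib.WQ.Aut
import Cfsg.Agent.Lib.XE.G2b
import Cfsg.Agent.Lib.Fus.SimpleGrp

/-!
The Sylow 2-subgroups of `G₂(q)`, `q ≡ 1 mod 8`.
-/

set_option autoImplicit false
set_option linter.style.haveILetI false
set_option linter.unusedVariables false
set_option linter.unusedSectionVars false
set_option linter.unusedSimpArgs false
set_option linter.unusedTactic false
set_option linter.unreachableTactic false
set_option linter.unnecessarySeqFocus false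

namespace Cfsg.Agent.WQ

open Subgroup Cfsg.Agent.Fus Cfsg.Agent.Ess Cfsg.Agent.TwoGrp Cfsg.Lie Cfsg.Agent.XE Matrix
open Cfsg.Agent.Fus2 (M afn HomOn img)

theorem GC.exists_of {G : Type*} [Group G] {n : ℕ} (hn : 3 ≤ n)
    (r : ZMod (2 ^ n) → ZMod (2 ^ n) → G) (σ κ : G)
    (r_mul_r : ∀ a b c d, r a b * r c d = r (a + c) (b + d))
    (r_inj : ∀ a b c d, r a b = r c d → a = c ∧ b = d) (σσ : σ * σ = 1) (κκ : κ * κ = 1)
    (σκ : σ * κ = κ * σ) (σr : ∀ a b, σ * r a b = r b a * σ)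
    (κr : ∀ a b, κ * r a b = r (-a) (-b) * κ) :
    ∃ (S : Subgroup G) (D : GC S n), D.r = r ∧ D.σ = σ ∧ D.κ = κ := by
  have r0 : r 0 0 = 1 := by
    have := r_mul_r 0 0 0 0
    simp only [add_zero] at this
    exact mul_left_cancel (this.trans (mul_one _).symm)
  let P : G → Prop := fun g =>
    ∃ a b, g = r a b ∨ g = r a b * σ ∨ g = r a b * κ ∨ g = r a b * (σ * κ)
  have h₁ : ∀ a b g, P g → P (r a b * g) := by
    rintro a b _ ⟨c, d, rfl | rfl | rfl | rfl⟩ <;> refine ⟨a + c, b + d, ?_⟩ <;>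
      simp only [← mul_assoc, r_mul_r, true_or, or_true]
  have h₂ : ∀ g, P g → P (σ * g) := by
    rintro _ ⟨c, d, rfl | rfl | rfl | rfl⟩ <;> refine ⟨d, c, ?_⟩ <;>
      simp only [← mul_assoc, σr, true_or, or_true] <;>
      simp only [mul_assoc, ← mul_assoc σ σ, σσ, mul_one, one_mul, true_or, or_true]
  have h₃ : ∀ g, P g → P (κ * g) := by
    rintro _ ⟨c, d, rfl | rfl | rfl | rfl⟩ <;> refine ⟨-c, -d, ?_⟩ <;>
      simp only [← mul_assoc, κr, true_or, or_true] <;>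
      simp only [mul_assoc, σκ, ← mul_assoc κ κ, κκ, mul_one, one_mul, true_or, or_true]
  have h₄ : ∀ g h, P g → P h → P (g * h) := by
    rintro _ h ⟨c, d, rfl | rfl | rfl | rfl⟩ hh <;> try simp only [mul_assoc]
    exacts [h₁ _ _ _ hh, h₁ _ _ _ (h₂ _ hh), h₁ _ _ _ (h₃ _ hh), h₁ _ _ _ (h₂ _ (h₃ _ hh))]
  have i₁ : ∀ a b, (r a b)⁻¹ = r (-a) (-b) := fun a b =>
    inv_eq_of_mul_eq_one_right (by rw [r_mul_r, add_neg_cancel, add_neg_cancel, r0])
  refine ⟨{ carrier := {g | P g}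
            one_mem' := ⟨0, 0, Or.inl r0.symm⟩
            mul_mem' := h₄ _ _
            inv_mem' := ?_ },
    ⟨hn, r, σ, κ, r_mul_r, r_inj, σσ, κκ, σκ, σr, κr, fun _ => Iff.rfl⟩, rfl, rfl, rfl⟩
  rintro _ ⟨c, d, rfl | rfl | rfl | rfl⟩ <;>
    simp only [Set.mem_ofPred_eq, _root_.mul_inv_rev, i₁, inv_eq_of_mul_eq_one_right σσ,
      inv_eq_of_mul_eq_one_right κκ, mul_assoc]
  exacts [⟨_, _, Or.inl rfl⟩, h₂ _ ⟨_, _, Or.inl rfl⟩, h₃ _ ⟨_, _, Or.inl rfl⟩,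
    h₃ _ (h₂ _ ⟨_, _, Or.inl rfl⟩)]

namespace G

variable {K : Type} [Field K]

theorem exists_g2 (f : (Fin 8 → K) → Fin 8 → K) (hl : IsLinearMap K f)
    (hi : ∀ x, f x = 0 → x = 0) (hm : ∀ x y, f (zornMul x y) = zornMul (f x) (f y)) :
    ∃ g : G2 K, ∀ x, g2φ K g x = f x := by
  let e := LinearEquiv.ofInjectiveEndo (hl.mk' f) ((injective_iff_map_eq_zero _).2 hi)
  refine ⟨⟨⟨LinearMap.toMatrix' e.toLinearMap, LinearMap.toMatrix' e.symm.toLinearMap, ?_, ?_⟩,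
    mem_G2_iff.2 fun x y => ?_⟩, fun x => ?_⟩
  · rw [← LinearMap.toMatrix'_comp]; simp
  · rw [← LinearMap.toMatrix'_comp]; simp
  · simp only [LinearMap.toMatrix'_mulVec]
    exact hm x y
  · simp only [g2φ_apply, LinearMap.toMatrix'_mulVec]
    rfl

theorem ext' {g h : G2 K} (e : ∀ x, g2φ K g x = g2φ K h x) : g = h :=
  g2φ_inj (LinearMap.ext e)

theorem mul_act (g h : G2 K) (x : Fin 8 → K) : g2φ K (g * h) x = g2φ K g (g2φ K h x) := by
  rw [map_mul]; rfl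

theorem one_act (x : Fin 8 → K) : g2φ K 1 x = x := by
  rw [map_one]; rfl

theorem exists_tor (s t : Kˣ) : ∃ g : G2 K, ∀ x, g2φ K g x =
    ![x 0, (s * t : K)⁻¹ * x 1, s * x 2, t * x 3, s * t * x 4, (s : K)⁻¹ * x 5, (t : K)⁻¹ * x 6,
      x 7] := by
  have hs := s.ne_zero
  have ht := t.ne_zero
  refine exists_g2 _ ⟨fun x y => ?_, fun c x => ?_⟩ (fun x h => ?_) fun x y => ?_
  · ext i; fin_cases i <;> simp <;> ring
  · ext i; fin_cases i <;> simp <;> ring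
  · simp only [funext_iff, Fin.forall_fin_succ] at h ⊢
    simpa using h
  · simp only [zornMul_eq]
    ext i; fin_cases i <;> simp <;> field_simp

theorem exists_σ : ∃ g : G2 K, ∀ x, g2φ K g x =
    ![x 0, -x 1, x 3, x 2, -x 4, x 6, x 5, x 7] := by
  refine exists_g2 _ ⟨fun x y => ?_, fun c x => ?_⟩ (fun x h => ?_) fun x y => ?_
  · ext i; fin_cases i <;> simp <;> ring
  · ext i; fin_cases i <;> simp <;> ring
  · simp only [funext_iff, Fin.forall_fin_succ] at h ⊢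
    simp at h ⊢
    tauto
  · simp only [zornMul_eq]
    ext i; fin_cases i <;> simp <;> ring

theorem exists_κ : ∃ g : G2 K, ∀ x, g2φ K g x =
    ![x 7, -x 4, -x 5, -x 6, -x 1, -x 2, -x 3, x 0] := by
  refine exists_g2 _ ⟨fun x y => ?_, fun c x => ?_⟩ (fun x h => ?_) fun x y => ?_
  · ext i; fin_cases i <;> simp <;> ring
  · ext i; fin_cases i <;> simp <;> ring
  · simp only [funext_iff, Fin.forall_fin_succ] at h ⊢
    simp at h ⊢
    tauto
  · simp only [zornMul_eq]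
    ext i; fin_cases i <;> simp <;> ring

theorem exists_ρ : ∃ g : G2 K, ∀ x, g2φ K g x =
    ![x 0, x 3, x 1, x 2, x 6, x 4, x 5, x 7] := by
  refine exists_g2 _ ⟨fun x y => ?_, fun c x => ?_⟩ (fun x h => ?_) fun x y => ?_
  · ext i; fin_cases i <;> simp <;> ring
  · ext i; fin_cases i <;> simp <;> ring
  · simp only [funext_iff, Fin.forall_fin_succ] at h ⊢
    simp at h ⊢
    tauto
  · simp only [zornMul_eq]
    ext i; fin_cases i <;> simp <;> ring

theorem exists_P {c : K} (hc : 2 * c = 1) : ∃ g : G2 K, ∀ x, g2φ K g x =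
    ![x 0, x 1, c * x 2 + c * x 3, -x 2 + x 3, x 4, x 5 + x 6, -c * x 5 + c * x 6, x 7] := by
  refine exists_g2 _ ⟨fun x y => ?_, fun c x => ?_⟩ (fun x h => ?_) fun x y => ?_
  · ext i; fin_cases i <;> simp <;> ring
  · ext i; fin_cases i <;> simp <;> ring
  · simp only [funext_iff, Fin.forall_fin_succ] at h ⊢
    simp only [Fin.succ_zero_eq_one, Fin.reduceSucc, cons_val, Pi.zero_apply, IsEmpty.forall_iff,
      and_true] at h ⊢
    obtain ⟨h0, h1, h2, h3, h4, h5, h6, h7⟩ := h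
    exact ⟨h0, h1, by linear_combination h2 - c * h3 - x 2 * hc,
      by linear_combination h2 + c * h3 - x 3 * hc, h4,
      by linear_combination c * h5 - h6 - x 5 * hc, by linear_combination c * h5 + h6 - x 6 * hc, h7⟩
  · simp only [zornMul_eq]
    ext i; fin_cases i <;> simp <;> grind

theorem exists_u (t : K) : ∃ g : G2 K, ∀ x, g2φ K g x =
    ![x 0 - t * x 1, x 1, x 2 - t * x 6, x 3 + t * x 5, x 4 + t * (x 0 - x 7) - t ^ 2 * x 1, x 5,
      x 6, x 7 + t * x 1] := by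
  refine exists_g2 _ ⟨fun x y => ?_, fun c x => ?_⟩ (fun x h => ?_) fun x y => ?_
  · ext i; fin_cases i <;> simp <;> ring
  · ext i; fin_cases i <;> simp <;> ring
  · simp only [funext_iff, Fin.forall_fin_succ] at h ⊢
    simp only [Fin.succ_zero_eq_one, Fin.reduceSucc, cons_val, Pi.zero_apply, IsEmpty.forall_iff,
      and_true] at h ⊢
    obtain ⟨h0, h1, h2, h3, h4, h5, h6, h7⟩ := h
    exact ⟨by linear_combination h0 + t * h1, h1, by linear_combination h2 + t * h6,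
      by linear_combination h3 - t * h5, by linear_combination h4 - t * h0 + t * h7 - t ^ 2 * h1,
      h5, h6, by linear_combination h7 - t * h1⟩
  · simp only [zornMul_eq]
    ext i; fin_cases i <;> simp <;> ring

theorem vanish (f : Module.End K (Fin 8 → K)) (d : Fin 8 → K) (h : ∀ x, f (d * x) = d * f x)
    {i j : Fin 8} (hij : d i ≠ d j) : f (Pi.single i 1) j = 0 := by
  have h₁ : d * Pi.single i 1 = d i • Pi.single i (1 : K) := by
    ext k
    by_cases hk : k = i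
    · subst hk; simp
    · simp [hk]
  have h₂ := congrFun (h (Pi.single i 1)) j
  rw [h₁, map_smul, Pi.smul_apply, Pi.mul_apply, smul_eq_mul] at h₂
  exact (mul_eq_zero.1 (by linear_combination h₂ : (d i - d j) * f (Pi.single i 1) j = 0)).resolve_left
    (sub_ne_zero.2 hij)

theorem g_one (g : G2 K) : g2φ K g ![1, 0, 0, 0, 0, 0, 0, 1] = ![1, 0, 0, 0, 0, 0, 0, 1] := by
  have := g2φ_one g
  rwa [g2B_apply] at this

theorem g_inj (g : G2 K) : Function.Injective (g2φ K g) := fun x y e => by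
  have := congrArg (g2φ K g⁻¹) e
  rwa [← mul_act, ← mul_act, inv_mul_cancel, one_act, one_act] at this

theorem conj_m {c i : K} (hc : 2 * c = 1) (hi : i * i = -1)
    {w₁ w₃ σ κ u₁ u₂ : (Fin 8 → K) → Fin 8 → K}
    (h₁ : ∀ x, w₁ x = ![1, -1, -1, 1, -1, -1, 1, 1] * x)
    (h₃ : ∀ x, w₃ x = ![x 0, -x 1, i * x 2, i * x 3, -x 4, -i * x 5, -i * x 6, x 7])
    (hσ : ∀ x, σ x = ![x 0, -x 1, x 3, x 2, -x 4, x 6, x 5, x 7])
    (hκ : ∀ x, κ x = ![x 7, -x 4, -x 5, -x 6, -x 1, -x 2, -x 3, x 0])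
    (hu₁ : ∀ x, u₁ x = ![x 0 - i * x 1, x 1, x 2 - i * x 6, x 3 + i * x 5,
      x 4 + i * (x 0 - x 7) - i ^ 2 * x 1, x 5, x 6, x 7 + i * x 1])
    (hu₂ : ∀ x, u₂ x = ![x 0 - -i * c * x 1, x 1, x 2 - -i * c * x 6, x 3 + -i * c * x 5,
      x 4 + -i * c * (x 0 - x 7) - (-i * c) ^ 2 * x 1, x 5, x 6, x 7 + -i * c * x 1])
    (x : Fin 8 → K) : κ (u₂ (κ (u₁ (w₁ (σ (κ x)))))) = w₃ (κ (u₂ (κ (u₁ x)))) := by
  simp only [h₁, h₃, hσ, hκ, hu₁, hu₂]
  simp only [Pi.mul_apply, cons_val, vecCons_inj, and_true]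
  refine ⟨?_, ?_, ?_, ?_, ?_, ?_, ?_, ?_⟩ <;> grind

variable (h2 : (2 : K) ≠ 0) {g : G2 K}
  (h₁ : ∀ x, g2φ K g (![1, -1, -1, 1, -1, -1, 1, 1] * x) = ![1, -1, -1, 1, -1, -1, 1, 1] * g2φ K g x)
  (h₂ : ∀ x, g2φ K g (![1, -1, 1, -1, -1, 1, -1, 1] * x) = ![1, -1, 1, -1, -1, 1, -1, 1] * g2φ K g x)
include h2 h₁ h₂

theorem idem : g2φ K g (Pi.single 0 1) = Pi.single 0 1 ∨ g2φ K g (Pi.single 0 1) = Pi.single 7 1 := by
  have n₁ : (1 : K) ≠ -1 := fun h => h2 (by linear_combination h)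
  have v₁ := vanish _ _ h₁ (i := 0) (j := 1) n₁
  have v₂ := vanish _ _ h₁ (i := 0) (j := 2) n₁
  have v₃ := vanish _ _ h₂ (i := 0) (j := 3) n₁
  have v₄ := vanish _ _ h₁ (i := 0) (j := 4) n₁
  have v₅ := vanish _ _ h₁ (i := 0) (j := 5) n₁
  have v₆ := vanish _ _ h₂ (i := 0) (j := 6) n₁
  have e : zornMul (Pi.single 0 1) (Pi.single 0 1) = (Pi.single 0 1 : Fin 8 → K) := by
    rw [zornMul_eq]; ext i; fin_cases i <;> simp
  have m := g2φ_mul g (Pi.single 0 1) (Pi.single 0 1)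
  rw [e, zornMul_eq] at m
  have m₀ := congrFun m 0
  have m₇ := congrFun m 7
  simp only [cons_val, v₁, v₂, v₃, v₄, v₅, v₆, mul_zero, add_zero, zero_add] at m₀ m₇
  generalize hv : g2φ K g (Pi.single 0 1) = v at *
  rcases eq_or_ne (v 0) 0 with a₀ | a₀ <;> rcases eq_or_ne (v 7) 0 with a₇ | a₇
  · have := congrFun (g_inj g (hv.trans (show v = g2φ K g 0 by
      ext i; fin_cases i <;> simp [a₀, a₇, v₁, v₂, v₃, v₄, v₅, v₆]))) 0
    simp at this
  · have a₇ : v 7 = 1 := mul_left_cancel₀ a₇ (by linear_combination -m₇)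
    right; ext i; fin_cases i <;> simp [a₀, a₇, v₁, v₂, v₃, v₄, v₅, v₆]
  · have a₀ : v 0 = 1 := mul_left_cancel₀ a₀ (by linear_combination -m₀)
    left; ext i; fin_cases i <;> simp [a₀, a₇, v₁, v₂, v₃, v₄, v₅, v₆]
  · have a₇ : v 7 = 1 := mul_left_cancel₀ a₇ (by linear_combination -m₇)
    have a₀ : v 0 = 1 := mul_left_cancel₀ a₀ (by linear_combination -m₀)
    have := congrFun (g_inj g (hv.trans (Eq.trans (show v = _ by
      ext i; fin_cases i <;> simp [a₀, a₇, v₁, v₂, v₃, v₄, v₅, v₆]) (g_one g).symm))) 7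
    simp at this

theorem diag (h₀ : g2φ K g (Pi.single 0 1) = Pi.single 0 1) : ∃ s t : Kˣ, ∀ x, g2φ K g x =
    ![x 0, (s * t : K)⁻¹ * x 1, s * x 2, t * x 3, s * t * x 4, (s : K)⁻¹ * x 5, (t : K)⁻¹ * x 6,
      x 7] := by
  have n₁ : (1 : K) ≠ -1 := fun h => h2 (by linear_combination h)
  have e : ∀ x : Fin 8 → K, zornMul (Pi.single 0 1) x = ![1, 1, 1, 1, 0, 0, 0, 0] * x := fun x => by
    rw [zornMul_eq]; ext i; fin_cases i <;> simp
  have h₃ : ∀ x, g2φ K g (![1, 1, 1, 1, 0, 0, 0, 0] * x) = ![1, 1, 1, 1, 0, 0, 0, 0] * g2φ K g x :=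
    fun x => by rw [← e, g2φ_mul, h₀, e]
  have v : ∀ i j : Fin 8, i ≠ j → g2φ K g (Pi.single i 1) j = 0 := by
    intro i j hij
    by_contra h
    have a₁ := mt (vanish _ _ h₁ (i := i) (j := j)) h
    have a₂ := mt (vanish _ _ h₂ (i := i) (j := j)) h
    have a₃ := mt (vanish _ _ h₃ (i := i) (j := j)) h
    clear h h₁ h₂ h₃ h₀ e
    fin_cases i <;> fin_cases j <;> simp [n₁, n₁.symm] at hij a₁ a₂ a₃
  obtain ⟨d, hd⟩ : ∃ d : Fin 8 → K, ∀ x, g2φ K g x = d * x := by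
    refine ⟨fun i => g2φ K g (Pi.single i 1) i, fun x => ?_⟩
    refine DFunLike.congr_fun (?_ : g2φ K g = LinearMap.mul K _ _) x
    refine (Pi.basisFun K (Fin 8)).ext fun i => funext fun j => ?_
    by_cases hij : i = j
    · subst hij; simp
    · simp [v i j hij, Ne.symm hij]
  have m := g2φ_mul g
  simp only [hd, zornMul_eq] at m h₀
  have a₀ := congrFun h₀ 0
  have a₇ := congrFun ((hd _).symm.trans (g_one g)) 7
  have a₁ := congrFun (m (Pi.single 1 1) (Pi.single 4 1)) 0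
  have a₂ := congrFun (m (Pi.single 2 1) (Pi.single 5 1)) 0
  have a₃ := congrFun (m (Pi.single 3 1) (Pi.single 6 1)) 0
  have a₄ := congrFun (m (Pi.single 2 1) (Pi.single 3 1)) 4
  simp at a₀ a₇ a₁ a₂ a₃ a₄
  rw [a₀] at a₁ a₂ a₃
  refine ⟨Units.mkOfMulEqOne _ _ a₂.symm, Units.mkOfMulEqOne _ _ a₃.symm, fun x => ?_⟩
  rw [hd]
  ext i
  fin_cases i <;> simp [a₀, a₇, ← a₄, ← eq_inv_of_mul_eq_one_left a₁.symm,
    ← eq_inv_of_mul_eq_one_right a₂.symm, ← eq_inv_of_mul_eq_one_right a₃.symm]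

end G

open G in
theorem exists_g2_sylow {n : ℕ} (hn : 3 ≤ n) {K : Type} [Field K] [Finite K] {ζ : Kˣ}
    (ho : orderOf ζ = 2 ^ n) (hζ : ∀ (t : Kˣ) (k : ℕ), t ^ 2 ^ k = 1 → t ∈ zpowers ζ) :
    ∃ (T : Sylow 2 (G2 K)) (D : GC (T : Subgroup (G2 K)) n),
      D.Rho (groupFusionSystem (T : Subgroup (G2 K))) ∧
        (T : Subgroup (G2 K)) ≤ (groupFusionSystem (T : Subgroup (G2 K))).focalSubgroup := by
  haveI : Fact (Nat.Prime 2) := ⟨Nat.prime_two⟩
  haveI : NeZero (2 ^ n) := ⟨by positivity⟩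
  have hN : ζ ^ 2 ^ n = 1 := ho ▸ pow_orderOf_eq_one ζ
  choose tor ht using exists_tor (K := K)
  obtain ⟨σ, hσ⟩ := exists_σ (K := K)
  obtain ⟨κ, hκ⟩ := exists_κ (K := K)
  obtain ⟨ρ, hρ⟩ := exists_ρ (K := K)
  have tm : ∀ s t s' t', tor s t * tor s' t' = tor (s * s') (t * t') := fun s t s' t' =>
    ext' fun x => by
      simp only [mul_act, ht]
      ext i; fin_cases i <;> simp <;> ring
  have ti : ∀ s t s' t', tor s t = tor s' t' → s = s' ∧ t = t' := fun s t s' t' h => by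
    have a := congrFun ((ht s t 1).symm.trans (h ▸ ht s' t' 1)) 2
    have b := congrFun ((ht s t 1).symm.trans (h ▸ ht s' t' 1)) 3
    simp at a b
    exact ⟨Units.ext a, Units.ext b⟩
  have t1 : tor 1 1 = 1 := ext' fun x => by
    simp only [ht, one_act]
    ext i; fin_cases i <;> simp
  have tp : ∀ s t (k : ℕ), tor s t ^ k = tor (s ^ k) (t ^ k) := fun s t k => by
    induction k with
    | zero => simp [t1]
    | succ k ih => rw [pow_succ, ih, tm, pow_succ, pow_succ]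
  obtain ⟨S, D, hr, eσ, eκ⟩ := GC.exists_of hn (fun a b => tor (zp ζ a) (zp ζ b)) σ κ
    (fun a b c d => by rw [tm, zp_add hN, zp_add hN])
    (fun a b c d h => (ti _ _ _ _ h).imp (zp_injective ho ·) (zp_injective ho ·))
    (ext' fun x => by
      simp only [mul_act, hσ, one_act]
      ext i; fin_cases i <;> simp)
    (ext' fun x => by
      simp only [mul_act, hκ, one_act]
      ext i; fin_cases i <;> simp)
    (ext' fun x => by
      simp only [mul_act, hκ, hσ]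
      ext i; fin_cases i <;> simp)
    (fun a b => ext' fun x => by
      simp only [mul_act, ht, hσ]
      ext i; fin_cases i <;> simp [mul_comm])
    (fun a b => ext' fun x => by
      simp only [mul_act, ht, hκ, zp_neg hN]
      ext i; fin_cases i <;> simp [mul_comm])
  have hr : ∀ a b, D.r a b = tor (zp ζ a) (zp ζ b) := fun a b => by rw [hr]
  haveI := D.finite
  have hh : ((zp ζ (hf n) : Kˣ) : K) = -1 := by
    have h₁ : zp ζ (hf n) * zp ζ (hf n) = 1 := by rw [← zp_add hN, ← two_mul, D.h2, zp_zero]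
    refine (mul_self_eq_one_iff.1 (congrArg Units.val h₁)).resolve_left fun h => D.h0 ?_
    exact zp_injective ho ((Units.ext h).trans zp_zero.symm)
  have h2 : (2 : K) ≠ 0 := fun h => D.h0 (zp_injective ho ((Units.ext (by
    rw [hh]; push_cast; linear_combination -h)).trans zp_zero.symm))
  obtain ⟨i, hi⟩ : ∃ i : K, i = (zp ζ (qt n) : Kˣ) := ⟨_, rfl⟩
  have hii : i * i = -1 := by
    rw [hi, ← Units.val_mul, ← zp_add hN, ← two_mul, D.hq, hh]
  have hi' : i⁻¹ = -i := inv_eq_of_mul_eq_one_right (by linear_combination -hii)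
  have w₁ : ∀ x, g2φ K (D.r (hf n) 0) x = ![1, -1, -1, 1, -1, -1, 1, 1] * x := fun x => by
    simp only [hr, ht, hh, zp_zero]
    ext i; fin_cases i <;> simp
  have w₂ : ∀ x, g2φ K (D.r 0 (hf n)) x = ![1, -1, 1, -1, -1, 1, -1, 1] * x := fun x => by
    simp only [hr, ht, hh, zp_zero]
    ext i; fin_cases i <;> simp
  have w₃ : ∀ x, g2φ K (D.r (qt n) (qt n)) x =
      ![x 0, -x 1, i * x 2, i * x 3, -x 4, -i * x 5, -i * x 6, x 7] := fun x => by
    simp only [hr, ht, ← hi, hii, hi']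
    ext i; fin_cases i <;> simp
  have hκS : κ ∈ S := eκ ▸ D.c_zero ▸ D.c_mem 0 0
  have hS : IsSylowIn 2 S ⊤ := by
    refine isSylowIn_of_maximal le_top D.isPGroup fun B hB hSB _ => ?_
    by_contra hlt
    obtain ⟨g, hg, hgN, hgS⟩ := exists_mem_normalizer_not_mem hB
      (lt_of_le_of_ne hSB fun e => hlt (e ▸ le_rfl))
    have step₃ : ∀ g ∈ B, g * D.r (hf n) 0 = D.r (hf n) 0 * g → g * D.r 0 (hf n) = D.r 0 (hf n) * g →
        g2φ K g (Pi.single 0 1) = Pi.single 0 1 → g ∈ S := by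
      intro g hg e₁ e₂ e₃
      obtain ⟨s, t, h⟩ := diag h2 (g := g) (fun x => by rw [← w₁, ← w₁, ← mul_act, e₁, mul_act])
        (fun x => by rw [← w₂, ← w₂, ← mul_act, e₂, mul_act]) e₃
      obtain rfl : g = tor s t := ext' fun x => by rw [h, ht]
      obtain ⟨k, hk⟩ := hB ⟨_, hg⟩
      have hk' : tor s t ^ 2 ^ k = 1 := congrArg Subtype.val hk
      rw [tp] at hk'
      replace hk' := ti _ _ _ _ (hk'.trans t1.symm)
      obtain ⟨a, rfl⟩ := (mem_zpowers_iff_zp hN).1 (hζ s k hk'.1)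
      obtain ⟨b, rfl⟩ := (mem_zpowers_iff_zp hN).1 (hζ t k hk'.2)
      exact hr a b ▸ D.r_mem a b
    have step₂ : ∀ g ∈ B, g * D.r (hf n) 0 = D.r (hf n) 0 * g →
        g * D.r 0 (hf n) = D.r 0 (hf n) * g → g ∈ S := by
      intro g hg e₁ e₂
      rcases idem h2 (g := g) (fun x => by rw [← w₁, ← w₁, ← mul_act, e₁, mul_act])
        (fun x => by rw [← w₂, ← w₂, ← mul_act, e₂, mul_act]) with h | h
      · exact step₃ g hg e₁ e₂ h
      · have hneg : -hf n = hf n := by linear_combination -D.h2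
        refine (S.mul_mem_cancel_left hκS).1 (step₃ _ (B.mul_mem (hSB hκS) hg) ?_ ?_ ?_)
        · rw [mul_assoc, e₁, ← mul_assoc, ← eκ, D.κr, hneg, neg_zero, mul_assoc]
        · rw [mul_assoc, e₂, ← mul_assoc, ← eκ, D.κr, hneg, neg_zero, mul_assoc]
        · rw [mul_act, h, hκ]
          ext i; fin_cases i <;> simp
    have step₁ : ∀ g ∈ B, g * D.r (hf n) (hf n) * g⁻¹ = D.r (hf n) (hf n) →
        g * D.r (hf n) 0 * g⁻¹ = D.r (hf n) 0 → g ∈ S := fun g hg e₁ e₂ =>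
      step₂ g hg (mul_inv_eq_iff_eq_mul.1 e₂) (mul_inv_eq_iff_eq_mul.1 (by
        rw [← D.zw, ← conj_mul, e₁, e₂]))
    have cm : ∀ a b x : G2 K, a * b * x * (a * b)⁻¹ = a * (b * x * b⁻¹) * a⁻¹ := fun a b x => by
      group
    have e₁ := D.afn_z_top (conjAut S g hgN)
    have e₂ := D.afn_V D.H_le le_rfl (conjAut S g hgN) D.h2 (mul_zero 2) (by simp [D.h0])
    rw [Fus2.afn_conjAut hgN (D.r_mem ..)] at e₁ e₂
    rcases e₂ with e₂ | e₂ | e₂
    · have := (mul_left_inj _).1 (e₂.trans e₁.symm)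
      simp [D.h0.symm] at this
    · exact hgS (step₁ g hg e₁ e₂)
    · refine hgS ((S.mul_mem_cancel_left (D.s_mem 0 0)).1 (step₁ _ (B.mul_mem (hSB (D.s_mem 0 0)) hg)
        ?_ ?_))
      · rw [cm, e₁]; simp
      · rw [cm, e₂]; simp
  obtain ⟨T, rfl⟩ := isSylowIn_top_iff.1 hS
  have hρr : ∀ a b, ρ * D.r a b * ρ⁻¹ = D.r (-a - b) a := fun a b => by
    rw [mul_inv_eq_iff_eq_mul]
    refine ext' fun x => ?_
    simp only [mul_act, hr, ht, hρ, sub_eq_add_neg, zp_add hN, zp_neg hN]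
    have := (zp ζ a).ne_zero
    have := (zp ζ b).ne_zero
    ext i; fin_cases i <;> simp [mul_comm]
  have hρκ : ρ * D.κ * ρ⁻¹ = D.κ := by
    rw [mul_inv_eq_iff_eq_mul, eκ]
    refine ext' fun x => ?_
    simp only [mul_act, hκ, hρ]
    ext i; fin_cases i <;> simp
  have hRho : D.Rho (groupFusionSystem (T : Subgroup (G2 K))) := by
    refine ⟨fun x => ρ * x * ρ⁻¹, Fus2.M_group_iff.2 ⟨D.C_le, ?_, ρ, fun _ _ => rfl⟩, hρr, hρκ⟩
    rintro _ ⟨a, b, rfl | rfl⟩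
    · rw [hρr]; exact D.r_mem ..
    · rw [GC.c, ← conj_mul, hρr, hρκ]; exact D.c_mem ..
  obtain ⟨c, hc⟩ : ∃ c : K, 2 * c = 1 := ⟨2⁻¹, mul_inv_cancel₀ h2⟩
  obtain ⟨P, hP⟩ := exists_P hc
  obtain ⟨u₁, hu₁⟩ := exists_u i
  obtain ⟨u₂, hu₂⟩ := exists_u (-i * c)
  refine ⟨T, D, hRho, D.le_foc hRho (e := 0) (f := 0) (a := 0) (b := hf n) (e' := hf n) (f' := 0)
    (a' := qt n) (b' := qt n)
    ((Tr.group_isConjElt_iff (D.s_mem ..) (D.r_mem ..)).2 (isConj_iff.2 ⟨P, ?_⟩))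
    ((Tr.group_isConjElt_iff (D.m_mem ..) (D.r_mem ..)).2 (isConj_iff.2 ⟨κ * u₂ * κ * u₁, ?_⟩))⟩
  · rw [mul_inv_eq_iff_eq_mul, GC.s, D.r_zero, one_mul, eσ]
    refine ext' fun x => ?_
    simp only [mul_act, w₂, hσ, hP]
    ext i; fin_cases i <;> simp <;> ring
  · rw [mul_inv_eq_iff_eq_mul, GC.m, eσ, eκ]
    refine ext' fun x => ?_
    simp only [mul_act]
    exact conj_m hc hii w₁ w₃ hσ hκ hu₁ hu₂ x

theorem realizedIn_g2 {Ω : Type*} [Group Ω] {S : Subgroup Ω} {F : FusionSystem S} {n : ℕ}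
    (D : GC S n) (hF : F.IsSaturated 2) (h : D.Rho F) (hfoc : S ≤ F.focalSubgroup) :
    ∃ (K : Type) (_ : Field K) (_ : Fintype K), Odd (Fintype.card K) ∧ Tr.RealizedIn F (G2 K) := by
  haveI : Fact (Nat.Prime 2) := ⟨Nat.prime_two⟩
  have hn := D.hn
  obtain ⟨p, u, hp, e⟩ := Tr.exists_prime_sub n (by omega)
  haveI : Fact p.Prime := ⟨hp⟩
  obtain ⟨g, hg⟩ := IsCyclic.exists_generator (α := (ZMod p)ˣ)
  have ho : orderOf g = 2 ^ n * (2 * u + 1) := by
    rw [orderOf_eq_card_of_forall_mem_zpowers hg, Nat.card_eq_fintype_card, ZMod.card_units]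
    omega
  obtain ⟨T, D', h', hfoc'⟩ := exists_g2_sylow hn (K := ZMod p) (ζ := g ^ (2 * u + 1))
    (by rw [orderOf_pow_of_dvd (by omega) (ho ▸ dvd_mul_left _ _), ho,
      Nat.mul_div_cancel _ (by omega)])
    (fun t k hk => by
      obtain ⟨m, rfl⟩ := mem_powers_iff_mem_zpowers.2 (hg t)
      have h₁ := orderOf_dvd_of_pow_eq_one ((pow_mul g m _).trans hk)
      obtain ⟨l, rfl⟩ : 2 * u + 1 ∣ m := Nat.Coprime.dvd_of_dvd_mul_right
        (Nat.Coprime.pow_right k (by simp)) ((ho ▸ dvd_mul_left _ _ : _ ∣ orderOf g).trans h₁)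
      exact ⟨l, by simp [pow_mul]⟩)
  obtain ⟨a, b, hI⟩ := exists_isoM D D' hF (group_isSaturated T) h h' hfoc hfoc'
  refine ⟨ZMod p, inferInstance, inferInstance, ?_, Tr.realizedIn_of_isoM T hI⟩
  rw [ZMod.card, e]
  obtain ⟨k, rfl⟩ : ∃ k, n = k + 1 := ⟨n - 1, by omega⟩
  exact ⟨2 ^ k * (2 * u + 1), by ring⟩

end Cfsg.Agent.WQ
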