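import Cfsg.Agent.Lib.WQ.CaseA
import Cfsg.Agent.Lib.WQ.Real
import Cfsg.Agent.Lib.Biset.Transfer

/-!
Identification of the fusion system as that of `PSL₃(q)` or `G₂(q)`.
-/

set_option autoImplicit false
set_option linter.style.haveILetI false
set_option linter.unusedVariables false
set_option linter.unusedSectionVars false
set_option linter.unusedSimpArgs false
set_option linter.unusedTactic false
set_option linter.unreachableTactic false

namespace Cfsg.Agent.WQ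

open Subgroup Cfsg.Agent.Fus Cfsg.Agent.Ess Cfsg.Agent.TwoGrp
open Cfsg.Agent.Fus2 (M afn HomOn img)
open Cfsg.FusionSystem (centralizerIn normalizerIn)

universe u

variable {Ω : Type u} [Group Ω] {S : Subgroup Ω} {F : FusionSystem S} {n : ℕ}

namespace Ctx

/-- Coordinates on the homocyclic subgroup. -/
noncomputable def e (X : Ctx F n) {C : Subgroup Ω} (ρ : MulAut C) (a b : ZMod (2 ^ n)) : Ω :=
  X.r a * afn ρ (X.r b)

/-- The homocyclic subgroup. -/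
def H (X : Ctx F n) (w : Ω) : Subgroup Ω where
  carrier := {g | g ∈ centralizerIn S (zpowers w) ∧ X.ii g = 1}
  one_mem' := ⟨one_mem _, X.ii_one⟩
  mul_mem' ha hb := ⟨mul_mem ha.1 hb.1, by rw [X.ii_mul ha.1.1 hb.1.1, ha.2, hb.2, one_mul]⟩
  inv_mem' ha := ⟨inv_mem ha.1, X.ii_inv_one ha.1.1 ha.2⟩

namespace AH

variable {X : Ctx F n} {w : Ω} {ρ : MulAut (centralizerIn S (zpowers w))} (A : X.AH w ρ)
include A

theorem h₂ : X.ii (X.z * w) = 1 := by rw [X.ii_mul X.zS A.pr.wS, X.ii_z, A.h₁, one_mul]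

theorem hρ : M F (centralizerIn S (zpowers w)) (afn ρ) := M_afn (centralizerIn_le _) A.mem

theorem ρz : afn ρ X.z = w := A.pr.symm.φz
theorem ρzw : afn ρ (X.z * w) = X.z := A.pr.symm.φw
theorem ρw : afn ρ w = X.z * w := by
  have := A.hρ.map_mul A.pr.zC (mul_mem A.pr.zC A.pr.wC)
  rwa [← mul_assoc, X.zz, one_mul, A.ρz, A.ρzw, X.z_comm A.pr.wS] at this

theorem ρH {g : Ω} (hg : g ∈ X.H w) : afn ρ g ∈ X.H w :=
  ⟨Fus2.afn_mem ρ hg.1, A.pr.symm.ii_φ A.h₂ A.h₁ (cs_zw.ge hg.1) hg.2⟩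

theorem comm {g g' : Ω} (hg : g ∈ X.H w) (hg' : g' ∈ X.H w) : g * g' = g' * g :=
  A.pr.H_comm A.h₁ A.h₂ hg.1 hg.2 hg'.1 hg'.2

theorem omega {g : Ω} (hg : g ∈ X.H w) (h : g * g = 1) :
    g = 1 ∨ g = X.z ∨ g = w ∨ g = X.z * w := A.pr.omega A.h₁ A.h₂ hg.1 hg.2 h

theorem fpf {g : Ω} (hg : g ∈ X.H w) (h : afn ρ g = g) : g = 1 := by
  by_contra h1
  obtain ⟨k, hk⟩ := X.hS ⟨g, hg.1.1⟩
  obtain ⟨m, h₁, h₂⟩ := exists_inv_pow (congrArg Subtype.val hk) h1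
  have h₃ : afn ρ (g ^ m) = g ^ m := by rw [(Fus2.homOn_afn ρ).map_pow hg.1, h]
  rcases A.omega (pow_mem hg m) h₁ with e | e | e | e
  · exact h₂ e
  · rw [show g ^ m = _ from e, A.ρz] at h₃
    exact A.pr.ne h₃
  · rw [show g ^ m = _ from e, A.ρw, mul_eq_right] at h₃
    exact X.z_ne h₃
  · rw [show g ^ m = _ from e, A.ρzw] at h₃
    exact A.pr.symm.ne h₃.symm

theorem ρ3 {g : Ω} (hg : g ∈ X.H w) : afn ρ (afn ρ (afn ρ g)) = g := by
  haveI := X.fin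
  obtain ⟨γ, hγ⟩ := exists_oddAut' (β := ρ ^ 3) (A.odd.coprime_dvd_left (orderOf_pow_dvd 3))
  have e : ∀ x ∈ X.H w, γ.φ x = afn ρ (afn ρ (afn ρ x)) := fun x hx => by
    rw [hγ x hx.1, pow_three, Fus2.afn_mul, Fus2.afn_mul]
  rw [← e g hg]
  refine γ.eq_of_omega (A := X.H w) (fun _ h => h.1) (isPGroup_of_le X.hS fun _ h => h.1.1)
    (fun a ha b hb => A.comm ha hb) (fun a ha => e a ha ▸ A.ρH (A.ρH (A.ρH ha))) (fun a ha h => ?_)
    g hg
  rw [e a ha]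
  rcases A.omega ha h with rfl | rfl | h | rfl
  · simp only [A.hρ.map_one]
  · rw [A.ρz, A.ρw, A.ρzw]
  · rw [h, A.ρw, A.ρzw, A.ρz]
  · rw [A.ρzw, A.ρz, A.ρw]

theorem rH (a : ZMod (2 ^ n)) : X.r a ∈ X.H w := ⟨rC A.pr.wS A.h₁ a, X.ii_r a⟩

theorem eH (a b : ZMod (2 ^ n)) : X.e ρ a b ∈ X.H w := mul_mem (A.rH a) (A.ρH (A.rH b))

theorem x_mul (a b : ZMod (2 ^ n)) : afn ρ (X.r a) * afn ρ (X.r b) = afn ρ (X.r (a + b)) :=
  A.pr.x_mul A.h₁ A.h₂ a b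

theorem e_mul (a b c d : ZMod (2 ^ n)) : X.e ρ a b * X.e ρ c d = X.e ρ (a + c) (b + d) := by
  rw [e, e, e, mul_assoc, ← mul_assoc (afn ρ _), A.comm (A.ρH (A.rH b)) (A.rH c), mul_assoc,
    A.x_mul, ← mul_assoc, X.r_mul]

theorem e_r (a : ZMod (2 ^ n)) : X.e ρ a 0 = X.r a := by
  rw [e, X.r_zero, A.hρ.map_one, mul_one]

theorem e_zero : X.e ρ 0 0 = 1 := by rw [A.e_r, X.r_zero]

theorem e_inv (a b : ZMod (2 ^ n)) : (X.e ρ a b)⁻¹ = X.e ρ (-a) (-b) :=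
  inv_eq_of_mul_eq_one_right (by rw [A.e_mul, add_neg_cancel, add_neg_cancel, A.e_zero])

theorem e_inj {a b c d : ZMod (2 ^ n)} (h : X.e ρ a b = X.e ρ c d) : a = c ∧ b = d := by
  have h₁ : X.e ρ (a + -c) (b + -d) = 1 := by rw [← A.e_mul, h, ← A.e_inv, mul_inv_cancel]
  have h₂ := A.pr.x_eq_r A.h₁ A.h₂ ((eq_inv_of_mul_eq_one_right h₁).trans (X.inv_r _))
  rw [h₂, A.e_r, X.r_eq_one] at h₁
  exact ⟨by linear_combination h₁, by linear_combination h₂⟩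

theorem mem_H {g : Ω} (hg : g ∈ X.H w) : ∃ a b, g = X.e ρ a b := A.pr.mem_H A.h₁ A.h₂ hg.1 hg.2

theorem ρ_e (a b : ZMod (2 ^ n)) : afn ρ (X.e ρ a b) = X.e ρ (-b) (a - b) := by
  have m₁ := A.rH b
  have m₂ := A.ρH m₁
  have m₃ := A.ρH m₂
  have h := A.fpf (mul_mem (mul_mem m₁ m₂) m₃) (by
    rw [A.hρ.map_mul (mul_mem m₁ m₂).1 m₃.1, A.hρ.map_mul m₁.1 m₂.1, A.ρ3 m₁,
      A.comm (mul_mem m₂ m₃) m₁, mul_assoc])
  rw [e, A.hρ.map_mul (A.rH a).1 m₂.1, eq_inv_of_mul_eq_one_right h, ← e, A.e_inv,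
    ← one_mul (afn ρ _), ← X.r_zero, ← e, A.e_mul, zero_add, sub_eq_add_neg]

theorem conj_e' {g : Ω} (hg : g ∈ centralizerIn S (zpowers w)) (a b : ZMod (2 ^ n)) :
    g * X.e ρ a b = X.e ρ (X.ii g * a) (X.ii (afn ρ⁻¹ g) * b) * g := by
  rw [e, e, ← mul_assoc, X.gr hg.1, mul_assoc, A.pr.x_conj A.h₁ A.h₂ hg, mul_assoc]

theorem ii_ρ' {g : Ω} (hg : g ∈ centralizerIn S (zpowers w)) : X.ii (afn ρ⁻¹ g) = X.ii g := by
  have m := Fus2.afn_mem ρ⁻¹ hg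
  have h := congrArg (afn ρ) (A.conj_e' m 0 1)
  rw [A.hρ.map_mul m (A.eH _ _).1, A.hρ.map_mul (A.eH _ _).1 m, Fus2.afn_afn_inv, A.ρ_e, A.ρ_e,
    A.conj_e' hg, mul_left_inj] at h
  obtain ⟨h₁, h₂⟩ := A.e_inj h
  linear_combination h₁ - h₂

theorem ii_ρ {g : Ω} (hg : g ∈ centralizerIn S (zpowers w)) : X.ii (afn ρ g) = X.ii g := by
  rw [← A.ii_ρ' (Fus2.afn_mem ρ hg), Fus2.afn_inv_afn]

theorem conj_e {g : Ω} (hg : g ∈ centralizerIn S (zpowers w)) (a b : ZMod (2 ^ n)) :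
    g * X.e ρ a b = X.e ρ (X.ii g * a) (X.ii g * b) * g := by rw [A.conj_e' hg, A.ii_ρ' hg]

theorem yN : X.y ∈ normalizer (centralizerIn S (zpowers w) : Set Ω) :=
  A.pr.C_normal A.h₁ A.h₂ X.yS

theorem y_e' {j : ZMod (2 ^ n)} (hj : ∀ b, X.jj (afn ρ (X.r b)) = b * j) (a b : ZMod (2 ^ n)) :
    X.y * X.e ρ a b * X.y⁻¹ = X.e ρ (-a - b * j) b := by
  have h := X.gy (A.ρH (A.rH b)).1.1
  rw [hj, mul_assoc, ← inv_mul_eq_iff_eq_mul, X.inv_r] at h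
  rw [mul_inv_eq_iff_eq_mul, e, e, ← mul_assoc, X.yr, mul_assoc, ← h, sub_eq_add_neg, ← X.r_mul]
  simp only [mul_assoc]

theorem jj_x (b : ZMod (2 ^ n)) : X.jj (afn ρ (X.r b)) = b * -1 := by
  obtain ⟨c, hc⟩ := A.pr.jj_x A.h₁ A.h₂
  have hy := Fus2.M_conj F (centralizerIn_le (S := S) (zpowers w)) X.yS
  have m : ∀ x ∈ centralizerIn S (zpowers w), X.y * x * X.y⁻¹ ∈ centralizerIn S (zpowers w) :=
    fun x => Fus.conj_mem_of_mem_normalizer A.yN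
  have h₁ := A.hρ.comp hy fun x => Fus2.afn_mem ρ
  have h₂ := h₁.comp h₁ fun x hx => m _ (Fus2.afn_mem ρ hx)
  have := X.sc X.z X.zS X.zz X.z_ne X.ii_z X.jj_z h₂ A.pr.zC (by
    simp only [A.ρz, A.pr.y_conj A.h₁ A.h₂, A.ρzw, X.z_comm X.yS, mul_inv_cancel_right])
    _ (A.rH 1).1 (X.rR 1)
  rw [← A.e_r] at this
  simp only [A.ρ_e, A.y_e' hc] at this
  obtain ⟨a, h | h⟩ := (X.mem_R _).1 this
  · rw [hc, show 2 * c + 1 = -1 by linear_combination -(A.e_inj (h.trans (A.e_r a).symm)).2]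
  · have := congrArg X.ii h
    rw [(A.eH _ _).2, X.ii_mul (X.rS a) X.yS, X.ii_r, X.ii_y] at this
    exact absurd (by linear_combination this) X.two_ne

theorem y_e (a b : ZMod (2 ^ n)) : X.y * X.e ρ a b * X.y⁻¹ = X.e ρ (b - a) b := by
  rw [A.y_e' A.jj_x]; congr 1; ring

theorem jj_e (a b : ZMod (2 ^ n)) : X.jj (X.e ρ a b) = 2 * a - b := by
  rw [e, X.jj_mul (X.rS a) (A.ρH (A.rH b)).1.1, X.ii_r, X.jj_r, A.jj_x]; ring

theorem exists_fix {g : Ω} (hg : g ∈ centralizerIn S (zpowers w)) :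
    ∃ a b, ∃ c ∈ centralizerIn S (zpowers w), afn ρ c = c ∧ g = X.e ρ a b * c := by
  have m := Fus2.afn_mem ρ hg
  obtain ⟨a, b, h⟩ := A.mem_H (g := afn ρ g * g⁻¹) ⟨mul_mem m (inv_mem hg), by
    rw [X.ii_mul m.1 (inv_mem hg.1), A.ii_ρ hg, X.ii_mul_inv hg.1]⟩
  obtain ⟨t, ht⟩ := exists_mul_odd_eq_one (1 : ZMod (2 ^ n))
  refine ⟨-(a - (2 * t + 1) * (a + b)), -((2 * t + 1) * (a + b)),
    X.e ρ (a - (2 * t + 1) * (a + b)) ((2 * t + 1) * (a + b)) * g, mul_mem (A.eH _ _).1 hg, ?_, ?_⟩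
  · rw [A.hρ.map_mul (A.eH _ _).1 hg, A.ρ_e, mul_inv_eq_iff_eq_mul.1 h, ← mul_assoc, A.e_mul]
    congr 2
    · ring
    · linear_combination (-(a + b)) * ht
  · rw [← A.e_inv, inv_mul_cancel_left]

theorem fix_sq {c : Ω} (hc : c ∈ centralizerIn S (zpowers w)) (h : afn ρ c = c)
    (hi : X.ii c * X.ii c = 1) : c * c = 1 :=
  A.fpf ⟨mul_mem hc hc, (X.ii_mul hc.1 hc.1).trans hi⟩ (by rw [A.hρ.map_mul hc hc, h])

theorem jj_even {c : Ω} (hc : c ∈ centralizerIn S (zpowers w)) (h : afn ρ c = c)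
    (hi : X.ii c = -1) : ∃ a, X.jj c = 2 * a := by
  haveI := X.fin
  haveI : Fact (Nat.Prime 2) := ⟨Nat.prime_two⟩
  haveI : Finite (MulAut (centralizerIn S (zpowers w))) := finite_mulAut'
  let U : Subgroup (MulAut (centralizerIn S (zpowers w))) :=
    { carrier := {β | β ∈ F.autGroup _ ∧ ∀ x ∈ X.H w, afn β x = x}
      one_mem' := ⟨one_mem _, fun x _ => Fus2.afn_one x⟩
      mul_mem' := fun ha hb => ⟨mul_mem ha.1 hb.1, fun x hx => by
        rw [Fus2.afn_mul, hb.2 x hx, ha.2 x hx]⟩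
      inv_mem' := fun {a} ha => ⟨inv_mem ha.1, fun x hx => by
        rw [← ha.2 x hx, Fus2.afn_inv_afn, ha.2 x hx]⟩ }
  have hT := sat_sylow X.hS X.hF
    (fn_of_normal F (centralizerIn_le _) (A.pr.C_normal A.h₁ A.h₂))
  have hU := le_of_normalized hT (U := U) (fun _ h => h.1)
    (isPGroup_of_forall_coprime fun β hβ ho => by
      obtain ⟨γ, hγ⟩ := exists_oddAut' ho
      refine Fus2.aut_ext fun x hx => ?_
      have m := Fus2.afn_mem β hx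
      have e : X.ii (afn β x) = X.ii x := X.ii_eq m.1 (by
        rw [← hβ.2 _ (A.rH 1), ← (Fus2.homOn_afn β).map_mul hx (A.rH 1).1, X.gr hx.1,
          (Fus2.homOn_afn β).map_mul (A.rH _).1 hx, hβ.2 _ (A.rH _), mul_one])
      have m' : afn β x * x⁻¹ ∈ X.H w := ⟨mul_mem m (inv_mem hx), by
        rw [X.ii_mul m.1 (inv_mem hx.1), e, X.ii_mul_inv hx.1]⟩
      obtain ⟨k, hk⟩ := X.hS ⟨_, m'.1.1⟩
      rw [Fus2.afn_one, ← mul_inv_eq_one]
      exact γ.eq_one_of_eq_mul hx m'.1 (by rw [hγ x hx, inv_mul_cancel_right])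
        (by rw [hγ _ m'.1, hβ.2 _ m']) (congrArg Subtype.val hk))
    (fun τ hτ => mem_normalizer_fintype fun β hβ =>
      ⟨mul_mem (mul_mem (hT.le hτ) hβ.1) (inv_mem (hT.le hτ)), fun x hx => by
        obtain ⟨g, hg, e⟩ := Fus2.mem_autInducedBy_iff.1 (inv_mem hτ)
        rw [Fus2.afn_mul, Fus2.afn_mul, hβ.2 _ ⟨Fus2.afn_mem _ hx.1, by
          rw [e x hx.1, X.ii_conj hg hx.1.1, hx.2]⟩, Fus2.afn_afn_inv]⟩)
  have hy := conjAut_mem_autGroup (F := F) (centralizerIn_le _) X.yS A.yN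
  have hθ : ∀ x ∈ centralizerIn S (zpowers w),
      afn (conjAut _ X.y A.yN * ρ * (conjAut _ X.y A.yN * ρ)) x =
        X.y * afn ρ (X.y * afn ρ x * X.y⁻¹) * X.y⁻¹ := fun x hx => by
    rw [Fus2.afn_mul, Fus2.afn_mul, Fus2.afn_mul, Fus2.afn_conjAut A.yN (Fus2.afn_mem ρ hx),
      Fus2.afn_conjAut A.yN (Fus2.afn_mem ρ
        (Fus.conj_mem_of_mem_normalizer A.yN (Fus2.afn_mem ρ hx)))]
  have hθ' : ∀ x ∈ X.H w, afn (conjAut _ X.y A.yN * ρ * (conjAut _ X.y A.yN * ρ)) x = x :=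
    fun x hx => by
      rw [hθ x hx.1]
      obtain ⟨a, b, rfl⟩ := A.mem_H hx
      simp only [A.ρ_e, A.y_e]
      congr 1 <;> ring
  obtain ⟨g, hg, e⟩ := Fus2.mem_autInducedBy_iff.1
    (hU ⟨mul_mem (mul_mem hy A.mem) (mul_mem hy A.mem), hθ'⟩)
  obtain ⟨a, b, rfl⟩ := A.mem_H (g := g) ⟨mem_cs.2 ⟨hg, (mul_inv_eq_iff_eq_mul.1
    ((e w A.pr.wC).symm.trans (hθ' w ⟨A.pr.wC, A.h₁⟩))).symm⟩, X.ii_eq hg (mul_inv_eq_iff_eq_mul.1
      ((e _ (A.rH 1).1).symm.trans (hθ' _ (A.rH 1))))⟩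
  have e₁ : X.y * c * X.y⁻¹ = X.e ρ (-X.jj c) 0 * c := by
    rw [A.e_r, mul_inv_eq_iff_eq_mul, mul_assoc, X.gy hc.1, ← mul_assoc, ← mul_assoc, X.r_mul,
      neg_add_cancel, X.r_zero, one_mul]
  have e₂ := (hθ c hc).symm.trans (e c hc)
  rw [h, e₁, A.hρ.map_mul (A.eH _ _).1 hc, h, A.ρ_e, ← conj_mul, e₁, A.y_e, ← mul_assoc, A.e_mul,
    A.e_inv, mul_assoc, A.conj_e hc, ← mul_assoc, A.e_mul, mul_left_inj, hi] at e₂
  exact ⟨-b, by linear_combination -(A.e_inj e₂).2⟩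

theorem mem_or {g : Ω} (hg : g ∈ S) :
    g ∈ centralizerIn S (zpowers w) ∨ g * X.y⁻¹ ∈ centralizerIn S (zpowers w) := by
  refine (A.pr.conj_w A.h₁ A.h₂ hg).imp (fun e => mem_cs.2 ⟨hg, (mul_inv_eq_iff_eq_mul.1 e).symm⟩)
    fun e => mem_cs.2 ⟨mul_mem hg (inv_mem X.yS), ?_⟩
  have e₁ := (A.pr.y_conj A.h₁ A.h₂).trans e.symm
  have e₂ : X.z * (X.y * w * X.y⁻¹) = w := by
    rw [A.pr.y_conj A.h₁ A.h₂, ← mul_assoc, X.zz, one_mul]
  have e₃ : X.z * (g * w * g⁻¹) = w := by rw [e, ← mul_assoc, X.zz, one_mul]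
  calc w * (g * X.y⁻¹) = X.z * (g * w * g⁻¹) * (g * X.y⁻¹) := by rw [e₃]
    _ = g * (X.y⁻¹ * X.z) * (X.y * w * X.y⁻¹) := by
      rw [X.z_comm (inv_mem X.yS), ← mul_assoc g, X.z_comm hg]; group
    _ = _ := by rw [mul_assoc, mul_assoc, e₂, mul_assoc]

theorem g1 {u t b : Ω} (hu : u ∈ S) (ht : t ∈ S) (h₁ : u * t = t * u) (h₂ : t * t = X.z)
    (c : F.IsConjElt u b) (hb : F.IsFullyCentralized (zpowers b)) :
    X.ii b = X.ii u ∨ X.ii b = -X.ii u := by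
  haveI := X.fin
  haveI : Fact (Nat.Prime 2) := ⟨Nat.prime_two⟩
  obtain ⟨φ, hφ, rfl⟩ := ext_cen X.hS X.hF c hb
  have m₁ := X.z_mem_cs hu
  have m₂ := self_mem_cs hu
  have m₃ := mem_cs.2 ⟨ht, h₁⟩
  have e : φ X.z = φ t * φ t := by rw [← hφ.map_mul m₃ m₃, h₂]
  have cz := isConjElt_of_M hφ m₁
  have hQ : zpowers X.z ⊔ zpowers u ≤ centralizerIn S (zpowers u) :=
    sup_le (zpowers_le.2 m₁) (zpowers_le.2 m₂)
  have key : φ u ∈ centralizerIn S (zpowers w) → ∀ α ∈ F.autGroup (centralizerIn S (zpowers w)),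
      afn α (φ X.z) = X.z → X.ii (afn α (φ u)) = X.ii u ∨ X.ii (afn α (φ u)) = -X.ii u :=
    fun hm α hα e' => (X.inv ((hφ.mono hQ).comp (M_afn (centralizerIn_le _) hα)
      ((hφ.mono hQ).homOn.mem_of_sup (by
        rintro _ ⟨i, rfl⟩
        rw [hφ.homOn.map_zpow m₁, e]
        exact zpow_mem (A.pr.sq_mem A.h₁ A.h₂ (hφ.mem m₃)) i) (by
        rintro _ ⟨i, rfl⟩
        rw [hφ.homOn.map_zpow m₂]
        exact zpow_mem hm i))) (mem_sup_left (mem_zpowers _)) e' (mem_sup_right (mem_zpowers _))).1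
  have hc : φ u ∈ centralizerIn S (zpowers (φ X.z)) := mem_cs.2 ⟨hφ.mem m₂, by
    rw [← hφ.map_mul m₁ m₂, ← hφ.map_mul m₂ m₁, X.z_comm hu]⟩
  rcases A.pr.conj_cases A.h₁ A.h₂ (e ▸ A.pr.sq_mem A.h₁ A.h₂ (hφ.mem m₃))
    ((X.conj_ii cz).resolve_right fun h => X.sq_ne (X.ii (φ t)) (by
      rw [← X.ii_mul (hφ.mem m₃) (hφ.mem m₃), ← e, h])) cz with h | h | h
  · exact (X.inv hφ m₁ h m₂).1
  · rw [h] at hc
    rw [← A.ii_ρ' hc]
    exact key hc _ (inv_mem A.mem) (by rw [h, A.pr.φw])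
  · rw [h, cs_zw] at hc
    rw [← A.ii_ρ hc]
    exact key hc _ A.mem (by rw [h, A.ρzw])

theorem g3 {b : Ω} (hb : b ∈ S) (hbb : b * b = 1) (hT : X.Tc b) :
    ∃ b', F.IsConjElt b b' ∧ ¬ X.Tc b' ∧ X.ii b' = -1 := by
  obtain ⟨i₁, d, j₁⟩ := hT
  rcases A.mem_or hb with h | h
  · obtain ⟨a, c, k, hk, ρk, rfl⟩ := A.exists_fix h
    have jm : ∀ a c, X.jj (X.e ρ a c * k) = X.jj k + (2 * a - c) := fun a c => by
      rw [X.jj_mul (A.eH _ _).1.1 hk.1, (A.eH _ _).2, one_mul, A.jj_e]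
    have ρm : ∀ a c, afn ρ (X.e ρ a c * k) = X.e ρ (-c) (a - c) * k := fun a c => by
      rw [A.hρ.map_mul (A.eH _ _).1 hk, ρk, A.ρ_e]
    obtain ⟨l, hl⟩ := A.jj_even hk ρk (by rwa [X.ii_mul (A.eH _ _).1.1 hk.1, (A.eH _ _).2,
      one_mul] at i₁)
    rw [jm, hl] at j₁
    have m := Fus2.afn_mem ρ h
    rcases par a with ⟨a, rfl⟩ | ⟨a, rfl⟩
    · refine ⟨_, isConjElt_trans (isConjElt_of_M A.hρ h) (isConjElt_of_M A.hρ m), fun ⟨_, f, hf⟩ =>
        ?_, by rw [A.ii_ρ m, A.ii_ρ h, i₁]⟩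
      rw [ρm, ρm, jm, hl] at hf
      exact X.ne_odd (l + c - a) f (by linear_combination hf)
    · refine ⟨_, isConjElt_of_M A.hρ h, fun ⟨_, f, hf⟩ => ?_, by rw [A.ii_ρ h, i₁]⟩
      rw [ρm, jm, hl] at hf
      exact X.ne_odd (d - 3 * a - 1) f (by linear_combination hf - j₁)
  · obtain ⟨a, c, e⟩ := A.mem_H (g := b * X.y⁻¹) ⟨h, by
      have := X.ii_mul_inv X.yS
      rw [X.ii_y] at this
      rw [X.ii_mul hb (inv_mem X.yS), i₁, this]⟩
    rw [mul_inv_eq_iff_eq_mul] at e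
    rw [e, X.jj_mul (A.eH _ _).1.1 X.yS, X.jj_y, A.jj_e] at j₁
    rw [e, mul_assoc, ← mul_assoc X.y, mul_inv_eq_iff_eq_mul.1 (A.y_e a c), mul_assoc, X.yy,
      ← A.e_r, A.e_mul, A.e_mul, ← A.e_zero] at hbb
    exact absurd (by linear_combination j₁ + (A.e_inj hbb).1 + X.hq) (X.ne_odd (a + qt n) d)

theorem ii_inv (hfoc : S ≤ F.focalSubgroup) {t : Ω} (ht : t ∈ S) (htt : t * t = 1) :
    X.ii t = 1 ∨ X.ii t = -1 := by
  haveI := X.fin
  haveI : Fact (Nat.Prime 2) := ⟨Nat.prime_two⟩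
  by_contra hn
  push Not at hn
  obtain ⟨b₀, c₀, h₀⟩ := exists_fc (F := F) ht
  have g : ∀ b, F.IsConjElt t b → ¬ X.Tc b → X.ii b₀ = X.ii b ∨ X.ii b₀ = -X.ii b := by
    intro b c hT
    obtain ⟨f, hf, rfl⟩ := isConjElt_iff.1 c
    have m := hf.mem (mem_zpowers t)
    obtain ⟨s, hs, h₁, h₂⟩ := X.good m
      (by rw [← hf.map_mul (mem_zpowers t) (mem_zpowers t), htt, hf.map_one]) hT
    exact A.g1 m hs h₁ h₂ (isConjElt_trans (isConjElt_symm c) c₀) h₀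
  have g₀ := g t (isConjElt_refl ht) fun h => hn.2 h.1
  have key : ∀ b, F.IsConjElt t b → X.ii b = X.ii t ∨ X.ii b = -X.ii t := by
    intro b c
    by_cases hT : X.Tc b
    · obtain ⟨f, hf, rfl⟩ := isConjElt_iff.1 c
      obtain ⟨b', c', hT', e⟩ := A.g3 (hf.mem (mem_zpowers t))
        (by rw [← hf.map_mul (mem_zpowers t) (mem_zpowers t), htt, hf.map_one]) hT
      rcases g b' (isConjElt_trans c c') hT' with h | h <;> rcases g₀ with h' | h'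
      exacts [absurd (by linear_combination h - h' + e) hn.2,
        absurd (by linear_combination h' - h - e) hn.1,
        absurd (by linear_combination h - h' - e) hn.1,
        absurd (by linear_combination h' - h + e) hn.2]
    · rcases g b c hT with h | h <;> rcases g₀ with h' | h'
      exacts [Or.inl (h.symm.trans h'), Or.inr (h.symm.trans h'),
        Or.inr (by linear_combination h - h'), Or.inl (by linear_combination h - h')]
  let ι : S →* (ZMod (2 ^ n))ˣ := MonoidHom.toHomUnits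
    { toFun := fun g => X.ii g, map_one' := X.ii_one, map_mul' := fun a b => X.ii_mul a.2 b.2 }
  have hι : ∀ g : S, (ι g : ZMod (2 ^ n)) = X.ii g := fun g => rfl
  obtain ⟨Y, _, hY⟩ := Biset.exists_isCharBiset X.hS F X.hF
  have := hY.pow_eq_one_of_mem_focal (A := (ZMod (2 ^ n))ˣ ⧸ zpowers (-1)) X.hS
    ((QuotientGroup.mk' (zpowers (-1))).comp ι) (z := ⟨t, ht⟩) (fun P f hf a b ha haP e => by
      have ha' : (a : Ω) = 1 ∨ (a : Ω) = t := by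
        obtain ⟨k, rfl⟩ := ha
        have h2 : (⟨t, ht⟩ : S) ^ (2 : ℤ) = 1 := by
          rw [zpow_two]; exact Subtype.ext htt
        rcases Int.even_or_odd' k with ⟨l, rfl | rfl⟩
        · left; simp only [zpow_mul, h2, one_zpow, OneMemClass.coe_one]
        · right; simp only [zpow_add, zpow_mul, h2, one_zpow, one_mul, zpow_one]
      have hf' : M F P f := hf
      have : ι b = ι a ∨ ι b = -ι a := by
        simp only [Units.ext_iff, Units.val_neg, hι, ← e]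
        rcases ha' with h | h <;> rw [h] at haP ⊢
        · exact Or.inl (by rw [hf'.map_one])
        · exact key _ (isConjElt_of_M hf' haP)
      refine QuotientGroup.eq.2 ?_
      rcases this with h | h <;> rw [h]
      · simp
      · simp) (hfoc ht)
  obtain ⟨k, hk⟩ := (QuotientGroup.eq_one_iff _).1 this
  have hk' : ((-1 : (ZMod (2 ^ n))ˣ) ^ k) = ι ⟨t, ht⟩ := hk
  rcases Int.even_or_odd k with h | h
  · rw [h.neg_one_zpow] at hk'
    exact hn.1 (congrArg Units.val hk').symm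
  · rw [h.neg_one_zpow] at hk'
    exact hn.2 (congrArg Units.val hk').symm

theorem ii_pm (hfoc : S ≤ F.focalSubgroup) {g : Ω} (hg : g ∈ centralizerIn S (zpowers w)) :
    X.ii g = 1 ∨ X.ii g = -1 := by
  obtain ⟨a, b, c, hc, h, rfl⟩ := A.exists_fix hg
  rw [X.ii_mul (A.eH _ _).1.1 hc.1, (A.eH _ _).2, one_mul]
  obtain ⟨k, hk⟩ := X.hS ⟨c, hc.1⟩
  replace hk : c ^ 2 ^ k = 1 := congrArg Subtype.val hk
  clear hg
  induction k generalizing c with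
  | zero => exact Or.inl (by rw [show c = 1 by simpa using hk, X.ii_one])
  | succ k ih =>
    have := ih _ (mul_mem hc hc) (by rw [A.hρ.map_mul hc hc, h])
      (by rw [← sq, ← pow_mul, ← pow_succ', hk])
    rw [X.ii_mul hc.1 hc.1] at this
    exact A.ii_inv hfoc hc.1 (A.fix_sq hc h (this.resolve_right (X.sq_ne _)))

theorem σσ (a : ZMod (2 ^ n)) : X.r a * (w * X.y) * (X.r a * (w * X.y)) = 1 := by
  rw [mul_assoc, mul_assoc w, ← mul_assoc X.y, X.yr, ← mul_assoc w, ← mul_assoc w, X.gr A.pr.wS,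
    A.h₁, one_mul, ← mul_assoc, ← mul_assoc, ← mul_assoc, ← mul_assoc, X.r_mul, add_neg_cancel,
    X.r_zero, one_mul, mul_assoc w, mul_inv_eq_iff_eq_mul.1 (A.pr.y_conj A.h₁ A.h₂), mul_assoc,
    mul_assoc, X.yy, ← mul_assoc, ← mul_assoc, X.z_comm A.pr.wS, mul_assoc _ w, mul_assoc _ w,
    ← mul_assoc w, A.pr.sq, one_mul]
  exact X.zz

theorem σr (a b c : ZMod (2 ^ n)) : X.r a * (w * X.y) * X.e ρ b (b + c) =
    X.e ρ c (c + b) * (X.r a * (w * X.y)) := by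
  rw [mul_assoc, mul_assoc, mul_inv_eq_iff_eq_mul.1 (A.y_e _ _), ← mul_assoc, ← mul_assoc,
    A.comm (mul_mem (A.rH a) ⟨A.pr.wC, A.h₁⟩) (A.eH _ _), add_sub_cancel_left, add_comm]
  simp only [mul_assoc]

theorem mem_or' (a : ZMod (2 ^ n)) {g : Ω} (hg : g ∈ S) : g ∈ centralizerIn S (zpowers w) ∨
    ∃ g' ∈ centralizerIn S (zpowers w), g = g' * (X.r a * (w * X.y)) :=
  (A.mem_or hg).imp_right fun h =>
    ⟨_, mul_mem h (inv_mem (mul_mem (A.rH a).1 A.pr.wC)), by group⟩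

theorem mem_H' {g : Ω} (hg : g ∈ X.H w) : ∃ a b, g = X.e ρ a (a + b) := by
  obtain ⟨a, b, rfl⟩ := A.mem_H hg
  exact ⟨a, b - a, by rw [add_sub_cancel]⟩

theorem final (hs : F.IsSimple 2) : ∃ (K : Type) (_ : Field K) (_ : Fintype K),
    Odd (Fintype.card K) ∧ (Tr.RealizedIn F (Matrix.ProjectiveSpecialLinearGroup (Fin 3) K) ∨
      Tr.RealizedIn F (Lie.G2 K)) := by
  haveI := X.fin
  haveI : NeZero (2 ^ n) := ⟨by positivity⟩
  have hn := X.hn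
  have hfoc := foc_of_simple X.hS hs X.yS (X.rS 1) fun h => by
    rw [X.yr, mul_left_inj, X.r_eq_r] at h
    exact X.two_ne (by linear_combination -h)
  have rm : ∀ a b c d, X.e ρ a (a + b) * X.e ρ c (c + d) = X.e ρ (a + c) (a + c + (b + d)) :=
    fun a b c d => by rw [A.e_mul]; congr 1; ring
  have ri : ∀ a b c d, X.e ρ a (a + b) = X.e ρ c (c + d) → a = c ∧ b = d := fun a b c d h =>
    ⟨(A.e_inj h).1, by linear_combination (A.e_inj h).2 - (A.e_inj h).1⟩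
  have σS : ∀ a, X.r a * (w * X.y) ∈ S := fun a => mul_mem (X.rS a) (mul_mem A.pr.wS X.yS)
  by_cases h : ∀ g ∈ centralizerIn S (zpowers w), X.ii g = 1
  · let D : Wr S n :=
      { hn := by omega
        r := fun a b => X.e ρ a (a + b)
        s := fun a b => X.e ρ a (a + b) * (X.r 0 * (w * X.y))
        r_mul_r := rm
        r_mul_s := fun a b c d => by rw [← mul_assoc, rm]
        s_mul_r := fun a b c d => by rw [mul_assoc, A.σr, ← mul_assoc, rm]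
        s_mul_s := fun a b c d => by
          rw [mul_assoc, ← mul_assoc (X.r 0 * _), A.σr, mul_assoc, A.σσ, mul_one, rm]
        r_inj := ri
        s_inj := fun a b c d h => ri _ _ _ _ (mul_right_cancel h)
        r_ne_s := fun a b c d h => by
          have := congrArg X.ii h
          rw [X.ii_mul (A.eH _ _).1.1 (σS 0), (A.eH _ _).2, (A.eH _ _).2, X.r_zero, one_mul, one_mul,
            X.ii_mul A.pr.wS X.yS, A.h₁, X.ii_y] at this
          exact X.two_ne (by linear_combination this)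
        mem_iff := fun g => by
          constructor
          · intro hg'
            rcases A.mem_or' 0 hg' with hg | ⟨g, hg, rfl⟩
            · exact Or.inl (A.mem_H' ⟨hg, h g hg⟩)
            · obtain ⟨a, b, rfl⟩ := A.mem_H' ⟨hg, h g hg⟩
              exact Or.inr ⟨a, b, rfl⟩
          · rintro (⟨a, b, rfl⟩ | ⟨a, b, rfl⟩)
            exacts [(A.eH _ _).1.1, mul_mem (A.eH _ _).1.1 (σS 0)] }
    have h2 : 2 < Nat.card S := by
      rw [D.card_eq]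
      exact lt_of_lt_of_le (by norm_num) (Nat.pow_le_pow_right (by norm_num) (show 2 ≤ _ by omega))
    obtain ⟨p, _, hp, h'⟩ := Tr.realizedIn_psl3_wr X.hF D
      (Tr.WrF.conj_of_center D X.hF (Tr.center_eq_bot_of_simple X.hS hs h2)) (by
        by_contra h₂
        have h3 := Tr.eq_bot_of_simple X.hS hs h2 (Tr.WrF.isNormal_U D X.hF h₂)
        have h4 : D.r (hf n) 0 ∈ D.U := D.mem_U.2 ⟨_, _, rfl⟩
        rw [h3, mem_bot, D.r_eq_one_iff] at h4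
        exact D.h0 h4.1)
    exact ⟨ZMod p, inferInstance, inferInstance, by rwa [ZMod.card], Or.inl h'⟩
  push Not at h
  obtain ⟨g, hg, hg'⟩ := h
  obtain ⟨a, b, κ, hκ, ρκ, rfl⟩ := A.exists_fix hg
  have iκ : X.ii κ = -1 := (A.ii_pm hfoc hκ).resolve_left fun h => hg' (by
    rw [X.ii_mul (A.eH _ _).1.1 hκ.1, (A.eH _ _).2, h, one_mul])
  obtain ⟨c, hc⟩ := A.jj_even hκ ρκ iκ
  have κκ := A.fix_sq hκ ρκ (by rw [iκ]; ring)
  have hC : ∀ g ∈ centralizerIn S (zpowers w), ∃ a b, g = X.e ρ a (a + b) ∨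
      g = X.e ρ a (a + b) * κ := fun g hg => by
    rcases A.ii_pm hfoc hg with h | h
    · obtain ⟨a, b, e⟩ := A.mem_H' ⟨hg, h⟩
      exact ⟨a, b, Or.inl e⟩
    · obtain ⟨a, b, e⟩ := A.mem_H' (g := g * κ) ⟨mul_mem hg hκ, by
        rw [X.ii_mul hg.1 hκ.1, h, iκ]; ring⟩
      exact ⟨a, b, Or.inr (by rw [← e, mul_assoc, κκ, mul_one])⟩
  have σκ : X.r c * (w * X.y) * κ = κ * (X.r c * (w * X.y)) := by
    rw [← mul_assoc κ, X.gr hκ.1, mul_assoc _ κ, ← mul_assoc κ, ← (mem_cs.1 hκ).2, mul_assoc w κ,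
      X.gy hκ.1, iκ, hc, ← mul_assoc w, ← mul_assoc w, X.gr A.pr.wS, A.h₁, ← mul_assoc, ← mul_assoc,
      ← mul_assoc, ← mul_assoc, X.r_mul, show -1 * c + 1 * (2 * c) = c by ring]
  let D : GC S n :=
    { hn := hn
      r := fun a b => X.e ρ a (a + b)
      σ := X.r c * (w * X.y)
      κ := κ
      r_mul_r := rm
      r_inj := ri
      σσ := A.σσ c
      κκ := κκ
      σκ := σκ
      σr := A.σr c
      κr := fun a b => by rw [A.conj_e hκ, iκ]; congr 2 <;> ring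
      mem_iff := fun g => by
        constructor
        · intro hg'
          rcases A.mem_or' c hg' with hg | ⟨g, hg, rfl⟩ <;> obtain ⟨a, b, rfl | rfl⟩ := hC g hg
          exacts [⟨a, b, Or.inl rfl⟩, ⟨a, b, Or.inr (Or.inr (Or.inl rfl))⟩,
            ⟨a, b, Or.inr (Or.inl rfl)⟩, ⟨a, b, Or.inr (Or.inr (Or.inr (by rw [σκ, mul_assoc])))⟩]
        · rintro ⟨a, b, rfl | rfl | rfl | rfl⟩
          exacts [(A.eH _ _).1.1, mul_mem (A.eH _ _).1.1 (σS c), mul_mem (A.eH _ _).1.1 hκ.1,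
            mul_mem (A.eH _ _).1.1 (mul_mem (σS c) hκ.1)] }
  obtain ⟨K, _, _, h₁, h₂⟩ := realizedIn_g2 D X.hF ⟨afn ρ, A.hρ.mono (by
    rintro _ ⟨a, b, rfl | rfl⟩
    exacts [(A.eH _ _).1, mul_mem (A.eH _ _).1 hκ]), fun a b => by
      show afn ρ (X.e ρ a (a + b)) = X.e ρ (-a - b) (-a - b + a)
      rw [A.ρ_e]; congr 1 <;> ring, ρκ⟩ hfoc
  exact ⟨K, inferInstance, inferInstance, h₁, Or.inr h₂⟩

end AH

theorem main (X : Ctx F n) (hs : F.IsSimple 2) : (∃ (K : Type) (_ : Field K) (_ : Fintype K),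
    Odd (Fintype.card K) ∧ (Tr.RealizedIn F (Matrix.ProjectiveSpecialLinearGroup (Fin 3) K) ∨
      Tr.RealizedIn F (Lie.G2 K))) ∨
    ∃ P : Subgroup Ω, P ≤ S ∧ IsQuasiDihedral P ∧ F.StronglyClosed P := by
  haveI := X.fin
  haveI : Fact (Nat.Prime 2) := ⟨Nat.prime_two⟩
  haveI : NeZero (2 ^ n) := ⟨by positivity⟩
  rcases X.dichotomy with h | ⟨w, w', φ, ψ, h, h₁, h₂⟩
  · have h2 : 2 < Nat.card S := by
      have := Nat.card_le_card_of_injective (fun a => (⟨X.r a, X.rS a⟩ : S))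
        fun a b e => X.r_inj (congrArg Subtype.val e)
      rw [Nat.card_zmod] at this
      exact lt_of_lt_of_le (lt_of_lt_of_le (by norm_num)
        (Nat.pow_le_pow_right (by norm_num) X.hn)) this
    obtain ⟨u, hu, hne⟩ : ∃ u, F.IsConjElt X.z u ∧ u ≠ X.z := by
      by_contra hn
      push Not at hn
      have := Fus2.le_center (isCentral_zpowers X.hS X.hF X.zS hn) (mem_zpowers _)
      rw [Tr.center_eq_bot_of_simple X.hS hs h2, mem_bot] at this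
      exact X.z_ne this
    exact Or.inr (X.caseC h hu hne)
  · obtain ⟨ρ, A⟩ := h.exists_ah h₁ h₂
    exact Or.inl (A.final hs)

end Ctx

end Cfsg.Agent.WQ
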