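import Cfsg.Agent.Lib.WQ.Gen

/-!
A weakly closed generalized quaternion subgroup: coordinates and first consequences.
-/

set_option autoImplicit false
set_option linter.style.haveILetI false
set_option linter.unusedVariables false
set_option linter.unusedSectionVars false
set_option linter.unusedSimpArgs false
set_option linter.unusedTactic false
set_option linter.unreachableTactic false

namespace Cfsg.Agent.WQ

open Subgroup Cfsg.Agent.Fus Cfsg.Agent.Ess Cfsg.Agent.TwoGrp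
open Cfsg.Agent.Fus2 (M afn HomOn img)
open Cfsg.FusionSystem (centralizerIn normalizerIn)

universe u

variable {Ω : Type u} [Group Ω] {S : Subgroup Ω} {F : FusionSystem S} {n : ℕ}

/-- The standing hypotheses, in coordinates. -/
structure Ctx (F : FusionSystem S) (n : ℕ) where
  hn : 3 ≤ n
  fin : Finite S
  hS : IsPGroup 2 S
  hF : F.IsSaturated 2
  R : Subgroup Ω
  r : ZMod (2 ^ n) → Ω
  y : Ω
  ii : Ω → ZMod (2 ^ n)
  jj : Ω → ZMod (2 ^ n)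
  R_le : R ≤ S
  mem_R : ∀ t, t ∈ R ↔ ∃ a, t = r a ∨ t = r a * y
  r_mul : ∀ a b, r a * r b = r (a + b)
  r_inj : Function.Injective r
  yy : y * y = r (hf n)
  yr : ∀ a, y * r a = r (-a) * y
  r_ne : ∀ a, r a ≠ y
  cr : ∀ g ∈ S, ∀ a, g * r a * g⁻¹ = r (ii g * a)
  cy : ∀ g ∈ S, g * y * g⁻¹ = r (jj g) * y
  wc : ∀ {P f}, M F P f → R ≤ P → ∃ e d, (∀ a, f (r a) = r (e * a)) ∧ f y = r d * y
  sc : ∀ s ∈ S, s * s = 1 → s ≠ 1 → ii s = 1 → jj s = 0 → ∀ {P f}, M F P f → s ∈ P → f s = s →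
    ∀ t ∈ P, t ∈ R → f t ∈ R
  fac : ∀ {P f}, M F P f → r (hf n) ∈ P → f (r (hf n)) = r (hf n) →
    ∃ g, M F (P ⊔ R) g ∧ ∀ x ∈ P, (f x)⁻¹ * g x ∈ R

theorem add_hom_eq {f : ZMod (2 ^ n) → ZMod (2 ^ n)} (h : ∀ a b, f (a + b) = f a + f b)
    (a : ZMod (2 ^ n)) : f a = a * f 1 := by
  haveI : NeZero (2 ^ n) := ⟨by positivity⟩
  have := map_nsmul (AddMonoidHom.mk' f h) a.val 1
  simpa using this

theorem odd_pow_aux (b : ZMod (2 ^ n)) (k : ℕ) :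
    ∃ c, (2 * b + 1) ^ 2 ^ (k + 1) = 1 + 2 ^ (k + 3) * c := by
  induction k with
  | zero =>
    rcases par b with ⟨c, rfl⟩ | ⟨c, rfl⟩
    · exact ⟨2 * c * c + c, by ring⟩
    · exact ⟨2 * c * c + 3 * c + 1, by ring⟩
  | succ k ih =>
    obtain ⟨c, hc⟩ := ih
    exact ⟨c + 2 ^ (k + 2) * c * c, by rw [pow_succ 2 (k + 1), pow_mul, hc]; ring⟩

theorem odd_pow_eq_one (hn : 3 ≤ n) (b : ZMod (2 ^ n)) : (2 * b + 1) ^ 2 ^ (n - 2) = 1 := by
  obtain ⟨k, rfl⟩ : ∃ k, n = k + 3 := ⟨n - 3, by omega⟩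
  obtain ⟨c, hc⟩ := odd_pow_aux b k
  rw [show k + 3 - 2 = k + 1 by omega, hc, two_pow_eq_zero, zero_mul, add_zero]

open QuaternionGroup in
theorem exists_ctx [Finite S] (hS : IsPGroup 2 S) (hF : F.IsSaturated 2) {R : Subgroup Ω}
    (hRS : R ≤ S) {k : ℕ} (hk : 2 ≤ k) (eR : R ≃* QuaternionGroup (2 ^ k)) (hW : F.WeaklyClosed R)
    (hC : ∀ y ∈ centralizerIn S R, orderOf y = 2 →
      ∀ C : FusionSystem (centralizerIn S (zpowers y)),
        F.IsCentralizerSystem (zpowers y) C → C.StronglyClosed R) :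
    Nonempty (Ctx F (k + 1)) := by
  haveI : Fact (Nat.Prime 2) := ⟨Nat.prime_two⟩
  haveI : NeZero (2 ^ k) := ⟨by positivity⟩
  haveI : NeZero (2 ^ (k + 1)) := ⟨by positivity⟩
  obtain ⟨f, hf₁, hf₂⟩ := exists_hom_of_equiv eR
  obtain ⟨x, hx⟩ : ∃ x, x = f (a 1) := ⟨_, rfl⟩
  obtain ⟨y, hy⟩ : ∃ y, y = f (xa 0) := ⟨_, rfl⟩
  have ho : orderOf x = 2 ^ (k + 1) := by
    rw [hx, orderOf_injective f hf₁, orderOf_a_one, pow_succ']
  have hN : x ^ 2 ^ (k + 1) = 1 := ho ▸ pow_orderOf_eq_one x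
  obtain ⟨r, hr⟩ : ∃ r : ZMod (2 ^ (k + 1)) → Ω, r = zp x := ⟨_, rfl⟩
  have r_mul : ∀ a b, r a * r b = r (a + b) := fun a b => by rw [hr, zp_add hN]
  have r_inj : Function.Injective r := hr ▸ zp_injective ho
  have r1 : r 1 = x := by rw [hr, zp_one hN]
  have r0 : r 0 = 1 := by rw [hr, zp_zero]
  have rn : ∀ m : ℕ, r m = x ^ m := fun m => by rw [hr, zp_natCast hN]
  have rv : ∀ b, r b = x ^ b.val := fun b => by rw [← rn, ZMod.natCast_zmod_val]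
  have rp : ∀ b (m : ℕ), r b ^ m = r (b * m) := fun b m => by
    induction m with
    | zero => simp [r0]
    | succ m ih => rw [pow_succ, ih, r_mul]; congr 1; push_cast; ring
  have fa : ∀ i, ∃ b, f (a i) = r b := fun i => ⟨i.val, by
    rw [rn, hx, ← map_pow, a_one_pow, ZMod.natCast_zmod_val]⟩
  have yr : ∀ b, y * r b = r (-b) * y := fun b => by
    have := zp_mul_of_inverts (a := x) (b := y) hN (by
      rw [eq_mul_inv_iff_mul_eq, hx, hy, ← map_mul, ← map_mul]; simp) (-b)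
    rw [neg_neg] at this
    rw [hr, this]
  have yy : y * y = r (hf (k + 1)) := by
    have : hf (k + 1) = ((2 ^ k : ℕ) : ZMod (2 ^ (k + 1))) := by simp [hf]
    rw [this, rn, hx, hy, ← map_mul, ← map_pow, a_one_pow]; simp
  have xR : x ∈ R := (hf₂ x).2 ⟨_, hx⟩
  have yR : y ∈ R := (hf₂ y).2 ⟨_, hy⟩
  have rR : ∀ b, r b ∈ R := fun b => rv b ▸ pow_mem xR _
  have r_ne : ∀ b, r b ≠ y := fun b h => by
    rw [rv, hx, hy, ← map_pow, a_one_pow] at h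
    cases hf₁ h
  have mem_R : ∀ t, t ∈ R ↔ ∃ b, t = r b ∨ t = r b * y := fun t => by
    refine ⟨fun ht => ?_, ?_⟩
    · obtain ⟨i | i, rfl⟩ := (hf₂ t).1 ht
      · exact (fa i).imp fun _ => Or.inl
      · obtain ⟨b, hb⟩ := fa i
        exact ⟨-b, Or.inr (by rw [← yr, ← hb, hy, ← map_mul]; simp)⟩
    · rintro ⟨b, rfl | rfl⟩
      exacts [rR b, mul_mem (rR b) yR]
  have h4 : (4 : ZMod (2 ^ (k + 1))) ≠ 0 := by
    have := two_pow_ne_zero (n := k + 1) (k := 2) (by omega)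
    norm_num at this ⊢
    exact this
  have h2 := two_mul_hf (n := k + 1) (by omega)
  have wc : ∀ {P g}, M F P g → R ≤ P → ∃ e d, (∀ b, g (r b) = r (e * b)) ∧ g y = r d * y := by
    intro P g hg hP
    replace hg := hg.mono hP
    have hm : ∀ t ∈ R, g t ∈ R := fun t ht =>
      (Fus2.weaklyClosed_iff.1 hW).2 g hg ▸ Fus2.mem_img_of_mem g ht
    obtain ⟨e, he | he⟩ := (mem_R _).1 (hm x xR)
    · have h₁ : ∀ b, g (r b) = r (e * b) := fun b => by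
        rw [rv, hg.homOn.map_pow xR, he, rp, ZMod.natCast_zmod_val]
      obtain ⟨d, hd | hd⟩ := (mem_R _).1 (hm y yR)
      · have h₂ := hg.inj _ (mul_mem yR (rR 1)) _ (mul_mem (rR 1) yR) (by
          rw [hg.map_mul yR (rR 1), hg.map_mul (rR 1) yR, hd, h₁, r_mul, r_mul, add_comm])
        rw [yr] at h₂
        exact absurd (by linear_combination -2 * r_inj (mul_right_cancel h₂)) h4
      · exact ⟨e, d, h₁, hd⟩
    · have h₁ : r e * y * (r e * y) = r (hf (k + 1)) := by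
        rw [mul_assoc, ← mul_assoc y, yr, mul_assoc, yy, r_mul, r_mul]; congr 1; ring
      have h₂ := hg.inj _ (pow_mem xR 4) _ (one_mem _) (by
        rw [hg.homOn.map_pow xR, hg.map_one, he, show 4 = 2 * 2 from rfl, pow_mul, sq, sq, h₁, r_mul,
          ← two_mul, h2, r0])
      rw [← rn, ← r0] at h₂
      exact absurd (by simpa using r_inj h₂) h4
  have : ∀ g : Ω, ∃ e d, g ∈ S → (∀ b, g * r b * g⁻¹ = r (e * b)) ∧ g * y * g⁻¹ = r d * y := by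
    intro g
    by_cases hg : g ∈ S
    · obtain ⟨e, d, h⟩ := wc (Fus2.M_conj F le_rfl hg) hRS
      exact ⟨e, d, fun _ => h⟩
    · exact ⟨0, 0, fun h => absurd h hg⟩
  choose ii jj hij using this
  have key : ∀ s (hs : s ∈ S), s * s = 1 → s ≠ 1 → (∀ t ∈ R, t * s = s * t) →
      (Fus2.centralizerSystem F (zpowers_le.2 hs)).StronglyClosed R := fun s hs h₁ h₂ h₃ =>
    hC s (mem_centralizerIn.2 ⟨hs, h₃⟩) (orderOf_eq_two_iff'.2 ⟨h₁, h₂⟩) _
      (Fus2.isCentralizerSystem_centralizerSystem F _)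
  have mk : ∀ {s P g} (hs : s ∈ S), M F P g → s ∈ P → g s = s → ∀ Q ≤ P,
      (∀ t ∈ Q, s * t = t * s) → M (Fus2.centralizerSystem F (zpowers_le.2 hs)) Q g := by
    intro s P g hs hg hsP e Q hQ hc
    refine (Fus2.M_centralizer_iff (Fus2.isCentralizerSystem_centralizerSystem F _)).2
      ⟨fun t ht => mem_cs.2 ⟨hg.le (hQ ht), hc t ht⟩, g,
        hg.mono (sup_le hQ (zpowers_le.2 hsP)), fun _ _ => rfl, ?_⟩
    rintro _ ⟨i, rfl⟩
    rw [hg.homOn.map_zpow hsP, e]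
  refine ⟨⟨by omega, inferInstance, hS, hF, R, r, y, ii, jj, hRS, mem_R, r_mul, r_inj, yy, yr, r_ne,
    fun g hg => (hij g hg).1, fun g hg => (hij g hg).2, wc, ?_, ?_⟩⟩
  · intro s hs h₁ h₂ h₃ h₄ P g hg hsP e t ht htR
    have hc : ∀ t ∈ R, t * s = s * t := by
      have c₁ : ∀ b, r b * s = s * r b := fun b => by
        rw [eq_comm, ← mul_inv_eq_iff_eq_mul, (hij s hs).1, h₃, one_mul]
      have c₂ : y * s = s * y := by
        rw [eq_comm, ← mul_inv_eq_iff_eq_mul, (hij s hs).2, h₄, r0, one_mul]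
      intro t ht
      obtain ⟨b, rfl | rfl⟩ := (mem_R t).1 ht
      · exact c₁ b
      · rw [mul_assoc, c₂, ← mul_assoc, c₁, mul_assoc]
    exact (Fus2.stronglyClosed_iff.1 (key s hs h₁ h₂ hc)).2 _ _ (mk hs hg hsP e (P ⊓ R) inf_le_left
      fun t ht => (hc t ht.2).symm) t ⟨ht, htR⟩ htR
  · intro P g hg hz e
    have hzS := hRS (rR (hf (k + 1)))
    have h0 := hf_ne_zero (n := k + 1) (by omega)
    have hc : ∀ t ∈ S, r (hf (k + 1)) * t = t * r (hf (k + 1)) := fun t ht => by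
      rw [eq_comm, ← mul_inv_eq_iff_eq_mul, (hij t ht).1]
      rcases (two_mul_eq_zero_iff (by omega) (ii t * hf (k + 1))).1 (by
        linear_combination ii t * h2) with h | h
      · have := (hij t ht).1 (hf (k + 1))
        rw [h, r0, conj_eq_one_iff, ← r0] at this
        exact absurd (r_inj this) h0
      · rw [h]
    obtain ⟨g', hg', e'⟩ := Fus2.exists_ext_mod_sc (isPGroup_of_le hS (centralizerIn_le _))
      (Fus2.centralizer_saturated hS hF (fc_of_central F (zpowers_le.2 hzS) fun g hg x hx => by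
        obtain ⟨i, rfl⟩ := hx
        exact (Commute.zpow_left (hc g hg) i).eq) (Fus2.isCentralizerSystem_centralizerSystem F _))
      (key _ hzS (by rw [r_mul, ← two_mul, h2, r0]) (fun h => h0 (r_inj (h.trans r0.symm)))
        fun t ht => (hc t (hRS ht)).symm)
      (mk hzS hg hz e P le_rfl fun t ht => hc t (hg.le ht))
    obtain ⟨-, g'', h₁, h₂, -⟩ :=
      (Fus2.M_centralizer_iff (Fus2.isCentralizerSystem_centralizerSystem F _)).1 hg'
    exact ⟨g', (h₁.mono le_sup_left).congr h₂, e'⟩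

namespace Ctx

variable (X : Ctx F n)

section Arith
include X

theorem h2 : 2 * hf n = 0 := two_mul_hf (by have := X.hn; omega)
theorem h0 : hf n ≠ 0 := hf_ne_zero (by have := X.hn; omega)
theorem hq : 2 * qt n = hf n := two_mul_qt (by have := X.hn; omega)
theorem hqe : ∃ e, qt n = 2 * e := qt_even X.hn
theorem two_eq (a : ZMod (2 ^ n)) : 2 * a = 0 ↔ a = 0 ∨ a = hf n :=
  two_mul_eq_zero_iff (by have := X.hn; omega) a
theorem ne_odd (a b : ZMod (2 ^ n)) : 2 * a ≠ 2 * b + 1 := two_mul_ne (by have := X.hn; omega) a b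
theorem four_ne : (4 : ZMod (2 ^ n)) ≠ 0 := by
  have := two_pow_ne_zero (n := n) (k := 2) (by have := X.hn; omega)
  norm_num at this ⊢
  exact this
theorem two_ne : (2 : ZMod (2 ^ n)) ≠ 0 := fun h => X.four_ne (by linear_combination 2 * h)
theorem q0 : qt n ≠ 0 := fun h => X.h0 (by linear_combination -X.hq + 2 * h)
theorem sq_ne (a : ZMod (2 ^ n)) : a * a ≠ -1 := fun h => by
  rcases par a with ⟨b, rfl⟩ | ⟨b, rfl⟩
  · exact X.ne_odd (2 * b * b) (-1) (by linear_combination h)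
  · have := (isUnit_odd (b * b + b)).mul_left_eq_zero.1
      (by linear_combination h : 2 * (2 * (b * b + b) + 1) = 0)
    exact X.two_ne this
theorem odd_of_mul_hf {a : ZMod (2 ^ n)} (h : hf n * a ≠ 0) : ∃ b, a = 2 * b + 1 :=
  (par a).resolve_left fun ⟨b, hb⟩ => h (by rw [hb]; linear_combination b * X.h2)

end Arith

/-- The involution of `R`. -/
def z : Ω := X.r (hf n)

attribute [simp] r_mul

@[simp] theorem r_eq_r {a b : ZMod (2 ^ n)} : X.r a = X.r b ↔ a = b := X.r_inj.eq_iff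

theorem r_zero : X.r 0 = 1 := mul_left_cancel ((X.r_mul 0 0).trans (by rw [add_zero, mul_one]))

@[simp] theorem r_eq_one {a : ZMod (2 ^ n)} : X.r a = 1 ↔ a = 0 := by rw [← X.r_zero, r_eq_r]

@[simp] theorem inv_r (a : ZMod (2 ^ n)) : (X.r a)⁻¹ = X.r (-a) :=
  inv_eq_of_mul_eq_one_right (by simp)

theorem r_pow (a : ZMod (2 ^ n)) (k : ℕ) : X.r a ^ k = X.r (k * a) := by
  induction k with
  | zero => simp [X.r_zero]
  | succ k ih => rw [pow_succ, ih, X.r_mul]; congr 1; push_cast; ring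

theorem r_comm (a b : ZMod (2 ^ n)) : X.r a * X.r b = X.r b * X.r a := by simp [add_comm]

theorem rR (a : ZMod (2 ^ n)) : X.r a ∈ X.R := (X.mem_R _).2 ⟨a, Or.inl rfl⟩
theorem yR : X.y ∈ X.R := (X.mem_R _).2 ⟨0, Or.inr (by rw [X.r_zero, one_mul])⟩
theorem rS (a : ZMod (2 ^ n)) : X.r a ∈ S := X.R_le (X.rR a)
theorem yS : X.y ∈ S := X.R_le X.yR
theorem zS : X.z ∈ S := X.rS _
theorem zz : X.z * X.z = 1 := by simp [z, ← two_mul, X.h2]
theorem z_ne : X.z ≠ 1 := by simp [z, X.h0]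
theorem inv_z : X.z⁻¹ = X.z := inv_eq_of_mul_eq_one_right X.zz
theorem ry_sq (a : ZMod (2 ^ n)) : X.r a * X.y * (X.r a * X.y) = X.z := by
  rw [mul_assoc, ← mul_assoc X.y, X.yr, mul_assoc, X.yy, X.r_mul, X.r_mul, z]; congr 1; ring

theorem gr {g : Ω} (hg : g ∈ S) (a : ZMod (2 ^ n)) : g * X.r a = X.r (X.ii g * a) * g :=
  mul_inv_eq_iff_eq_mul.1 (X.cr g hg a)

theorem gy {g : Ω} (hg : g ∈ S) : g * X.y = X.r (X.jj g) * X.y * g :=
  mul_inv_eq_iff_eq_mul.1 (X.cy g hg)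

theorem ii_eq {g : Ω} (hg : g ∈ S) {e : ZMod (2 ^ n)} (h : g * X.r 1 = X.r e * g) : X.ii g = e := by
  simpa [X.gr hg] using h

theorem jj_eq {g : Ω} (hg : g ∈ S) {e : ZMod (2 ^ n)} (h : g * X.y = X.r e * X.y * g) :
    X.jj g = e := by
  simpa [X.gy hg] using h

theorem ii_mul {g g' : Ω} (hg : g ∈ S) (hg' : g' ∈ S) : X.ii (g * g') = X.ii g * X.ii g' :=
  X.ii_eq (mul_mem hg hg') (by rw [mul_assoc, X.gr hg', ← mul_assoc, X.gr hg, mul_one, mul_assoc])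

theorem jj_mul {g g' : Ω} (hg : g ∈ S) (hg' : g' ∈ S) :
    X.jj (g * g') = X.ii g * X.jj g' + X.jj g :=
  X.jj_eq (mul_mem hg hg') (by
    rw [mul_assoc, X.gy hg', ← mul_assoc, ← mul_assoc, X.gr hg, mul_assoc _ g, X.gy hg, ← X.r_mul]
    simp only [mul_assoc])

theorem ii_r (a : ZMod (2 ^ n)) : X.ii (X.r a) = 1 := X.ii_eq (X.rS a) (X.r_comm ..)
theorem jj_r (a : ZMod (2 ^ n)) : X.jj (X.r a) = 2 * a :=
  X.jj_eq (X.rS a) (by rw [mul_assoc, X.yr, ← mul_assoc, X.r_mul]; congr 2; ring)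
theorem ii_y : X.ii X.y = -1 := X.ii_eq X.yS (X.yr 1)
theorem jj_y : X.jj X.y = 0 := X.jj_eq X.yS (by rw [X.r_zero, one_mul])
theorem ii_one : X.ii 1 = 1 := X.r_zero ▸ X.ii_r 0
theorem jj_one : X.jj 1 = 0 := by rw [← X.r_zero, X.jj_r, mul_zero]
theorem ii_z : X.ii X.z = 1 := X.ii_r _
theorem jj_z : X.jj X.z = 0 := (X.jj_r _).trans X.h2

theorem ii_mul_inv {g : Ω} (hg : g ∈ S) : X.ii g * X.ii g⁻¹ = 1 := by
  rw [← X.ii_mul hg (inv_mem hg), mul_inv_cancel, X.ii_one]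

theorem jj_inv {g : Ω} (hg : g ∈ S) : X.ii g * X.jj g⁻¹ + X.jj g = 0 := by
  rw [← X.jj_mul hg (inv_mem hg), mul_inv_cancel, X.jj_one]

theorem ii_inv_one {g : Ω} (hg : g ∈ S) (h : X.ii g = 1) : X.ii g⁻¹ = 1 := by
  simpa [h] using X.ii_mul_inv hg

theorem ii_odd {g : Ω} (hg : g ∈ S) : ∃ b, X.ii g = 2 * b + 1 :=
  (par _).resolve_left fun ⟨b, hb⟩ => X.ne_odd (b * X.ii g⁻¹) 0 (by
    linear_combination X.ii_mul_inv hg - X.ii g⁻¹ * hb)

theorem ii_pow {g : Ω} (hg : g ∈ S) (k : ℕ) : X.ii (g ^ k) = X.ii g ^ k := by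
  induction k with
  | zero => simp [X.ii_one]
  | succ k ih => rw [pow_succ, X.ii_mul (pow_mem hg k) hg, ih, pow_succ]

theorem ii_conj {g u : Ω} (hg : g ∈ S) (hu : u ∈ S) : X.ii (g * u * g⁻¹) = X.ii u := by
  rw [X.ii_mul (mul_mem hg hu) (inv_mem hg), X.ii_mul hg hu]
  linear_combination X.ii u * X.ii_mul_inv hg

theorem z_comm {g : Ω} (hg : g ∈ S) : g * X.z = X.z * g := by
  obtain ⟨b, hb⟩ := X.ii_odd hg
  rw [z, X.gr hg, hb]
  congr 2
  linear_combination b * X.h2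

theorem ii_sq {u : Ω} (hu : u ∈ S) (h : u * u = 1) : X.ii u * X.ii u = 1 := by
  rw [← X.ii_mul hu hu, h, X.ii_one]

theorem jj_sq {u : Ω} (hu : u ∈ S) (h : u * u = 1) : X.ii u * X.jj u + X.jj u = 0 := by
  rw [← X.jj_mul hu hu, h, X.jj_one]

theorem R_ii {t : Ω} (ht : t ∈ X.R) : (X.ii t = 1 ∨ X.ii t = -1) ∧ ∃ e, X.jj t = 2 * e := by
  obtain ⟨a, rfl | rfl⟩ := (X.mem_R t).1 ht
  · exact ⟨Or.inl (X.ii_r a), a, X.jj_r a⟩
  · rw [X.ii_mul (X.rS a) X.yS, X.jj_mul (X.rS a) X.yS, X.ii_r, X.ii_y, X.jj_y, X.jj_r]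
    exact ⟨Or.inr (one_mul _), a, by ring⟩

theorem R_inv {t : Ω} (ht : t ∈ X.R) (h : t * t = 1) : t = 1 ∨ t = X.z := by
  obtain ⟨a, rfl | rfl⟩ := (X.mem_R t).1 ht
  · rw [X.r_mul, X.r_eq_one, ← two_mul, X.two_eq] at h
    simpa [z] using h
  · exact absurd ((X.ry_sq a).symm.trans h) X.z_ne

theorem comm_R {s : Ω} (hs : s ∈ S) (h₁ : X.ii s = 1) (h₂ : X.jj s = 0) {t : Ω} (ht : t ∈ X.R) :
    s * t = t * s := by
  have c₁ : ∀ a, s * X.r a = X.r a * s := fun a => by rw [X.gr hs, h₁, one_mul]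
  have c₂ : s * X.y = X.y * s := by rw [X.gy hs, h₂, X.r_zero, one_mul]
  obtain ⟨a, rfl | rfl⟩ := (X.mem_R t).1 ht
  · exact c₁ a
  · rw [← mul_assoc, c₁, mul_assoc, c₂, mul_assoc]

variable {P : Subgroup Ω} {f : Ω → Ω}

theorem wc_mem (hf : M F P f) (hP : X.R ≤ P) {t : Ω} (ht : t ∈ X.R) : f t ∈ X.R := by
  obtain ⟨e, d, h₁, h₂⟩ := X.wc hf hP
  obtain ⟨a, rfl | rfl⟩ := (X.mem_R t).1 ht
  · exact h₁ a ▸ X.rR _
  · rw [hf.map_mul (hP (X.rR a)) (hP X.yR), h₁, h₂]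
    exact mul_mem (X.rR _) (mul_mem (X.rR _) X.yR)

theorem wc_z (hf : M F P f) (hP : X.R ≤ P) : f X.z = X.z :=
  (X.R_inv (X.wc_mem hf hP (X.rR _)) (by
    rw [← hf.map_mul (hP (X.rR _)) (hP (X.rR _))]; exact (congrArg f X.zz).trans hf.map_one)).resolve_left
    fun h => X.z_ne (hf.inj _ (hP (X.rR _)) _ (one_mem _) (h.trans hf.map_one.symm))

theorem wc_ii (hf : M F P f) (hP : X.R ≤ P) {u : Ω} (hu : u ∈ P) :
    X.ii (f u) = X.ii u ∧ ∃ e d, X.jj (f u) = (2 * e + 1) * X.jj u + d * (1 - X.ii u) := by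
  obtain ⟨e, d, h₁, h₂⟩ := X.wc hf hP
  obtain ⟨e, rfl⟩ := X.odd_of_mul_hf (a := e) fun h => X.z_ne (by
    rw [← X.wc_z hf hP, z, h₁, mul_comm, h, X.r_zero])
  have a₁ := hf.map_conj hu (hP (X.rR 1))
  have a₂ := hf.map_conj hu (hP X.yR)
  rw [X.cr u (hf.le hu), h₁, h₁, X.cr _ (hf.mem hu), X.r_eq_r] at a₁
  have a₃ : X.ii (f u) = X.ii u := (isUnit_odd e).mul_left_cancel (by linear_combination -a₁)
  rw [X.cy u (hf.le hu), hf.map_mul (hP (X.rR _)) (hP X.yR), h₁, h₂, ← conj_mul,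
    X.cr _ (hf.mem hu), X.cy _ (hf.mem hu), ← mul_assoc, ← mul_assoc, X.r_mul, X.r_mul,
    mul_left_inj, X.r_eq_r, a₃] at a₂
  exact ⟨a₃, e, d, by linear_combination -a₂⟩

/-- Invariants under maps fixing `z`. -/
theorem inv (hf : M F P f) (hz : X.z ∈ P) (e : f X.z = X.z) {u : Ω} (hu : u ∈ P) :
    (X.ii (f u) = X.ii u ∨ X.ii (f u) = -X.ii u) ∧ ∃ c, X.jj (f u) = X.jj u + 2 * c := by
  obtain ⟨g, hg, h⟩ := X.fac hf hz e
  obtain ⟨a₁, e, d, a₂⟩ := X.wc_ii hg le_sup_right (mem_sup_left hu)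
  obtain ⟨b₁, c, b₂⟩ := X.R_ii (h u hu)
  have c₁ := X.ii_mul (hf.mem hu) (X.R_le (h u hu))
  have c₂ := X.jj_mul (hf.mem hu) (X.R_le (h u hu))
  rw [mul_inv_cancel_left] at c₁ c₂
  obtain ⟨k, hk⟩ := X.ii_odd (hf.le hu)
  refine ⟨b₁.imp (fun h => ?_) fun h => ?_, e * X.jj u - d * k - X.ii (f u) * c, ?_⟩
  · rw [← a₁, c₁, h, mul_one]
  · rw [← a₁, c₁, h]; ring
  · linear_combination a₂ - c₂ - X.ii (f u) * b₂ - d * hk

theorem fc_z : F.IsFullyCentralized (zpowers X.z) := by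
  haveI := X.fin
  refine fc_of_central F (zpowers_le.2 X.zS) ?_
  rintro g hg _ ⟨i, rfl⟩
  exact (Commute.zpow_left (X.z_comm hg).symm i).eq

theorem to_z {u : Ω} (h : F.IsConjElt X.z u) :
    ∃ φ, M F (centralizerIn S (zpowers u)) φ ∧ φ u = X.z := by
  haveI := X.fin
  haveI : Fact (Nat.Prime 2) := ⟨Nat.prime_two⟩
  exact ext_cen X.hS X.hF (isConjElt_symm h) X.fc_z

theorem z_mem_cs {u : Ω} (hu : u ∈ S) : X.z ∈ centralizerIn S (zpowers u) :=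
  mem_cs.2 ⟨X.zS, X.z_comm hu⟩

theorem self_mem_cs {u : Ω} (hu : u ∈ S) : u ∈ centralizerIn S (zpowers u) := mem_cs.2 ⟨hu, rfl⟩

theorem R_le_cs {s : Ω} (hs : s ∈ S) (h₁ : X.ii s = 1) (h₂ : X.jj s = 0) :
    X.R ≤ centralizerIn S (zpowers s) := fun t ht => mem_cs.2 ⟨X.R_le ht, X.comm_R hs h₁ h₂ ht⟩

theorem conj_sq {u : Ω} (h : F.IsConjElt X.z u) : u * u = 1 := by
  obtain ⟨f, hf, rfl⟩ := isConjElt_iff.1 h
  rw [← hf.map_mul (mem_zpowers _) (mem_zpowers _), X.zz, hf.map_one]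

theorem conj_ne {u : Ω} (h : F.IsConjElt X.z u) : u ≠ 1 := by
  obtain ⟨f, hf, rfl⟩ := isConjElt_iff.1 h
  exact fun e => X.z_ne (hf.inj _ (mem_zpowers _) _ (one_mem _) (e.trans hf.map_one.symm))

theorem z3 {u : Ω} (h : F.IsConjElt X.z u) (h₁ : X.ii u = 1) (h₂ : X.jj u = 0) : u = X.z := by
  obtain ⟨φ, hφ, e⟩ := X.to_z h
  have hu := isConjElt_right_mem h
  exact hφ.inj _ (self_mem_cs hu) _ (X.z_mem_cs hu)
    (e.trans (X.wc_z hφ (X.R_le_cs hu h₁ h₂)).symm)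

theorem jj_conj {u : Ω} (h : F.IsConjElt X.z u) (hne : u ≠ X.z) (h₁ : X.ii u = 1) :
    X.jj u = hf n :=
  ((X.two_eq _).1 (by
    have := X.jj_sq (isConjElt_right_mem h) (X.conj_sq h)
    rw [h₁] at this
    linear_combination this)).resolve_left fun e => hne (X.z3 h h₁ e)

theorem nc (hf : M F P f) (hz : X.z ∈ P) {s : Ω} (hs : s ∈ P) (hss : s * s = 1) (h1 : s ≠ 1)
    (h₁ : X.ii s = 1) (h₂ : X.jj s = 0) (h₃ : X.ii (f s) = 1) (h₄ : X.jj (f s) = 0) :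
    f X.z = X.z := by
  haveI := X.fin
  haveI : Fact (Nat.Prime 2) := ⟨Nat.prime_two⟩
  have hsS := hf.le hs
  obtain ⟨s₀, c₀, h₀⟩ := exists_fc (F := F) hsS
  obtain ⟨α, hα, eα⟩ := ext_cen X.hS X.hF c₀ h₀
  obtain ⟨β, hβ, eβ⟩ := ext_cen X.hS X.hF
    (isConjElt_trans (isConjElt_symm (isConjElt_of_M hf hs)) c₀) h₀
  have hR := X.R_le_cs hsS h₁ h₂
  have hR' := X.R_le_cs (hf.mem hs) h₃ h₄
  obtain ⟨a₁, e, d, a₂⟩ := X.wc_ii hα hR (self_mem_cs hsS)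
  rw [eα, h₁] at a₁
  rw [eα, h₁, h₂, mul_zero, sub_self, mul_zero, add_zero] at a₂
  have hQ : P ⊓ centralizerIn S (zpowers s) ≤ centralizerIn S (zpowers s) := inf_le_right
  obtain ⟨γ, hγ, eγ⟩ := (hα.mono hQ).inv
  have m₁ : s ∈ P ⊓ centralizerIn S (zpowers s) := ⟨hs, self_mem_cs hsS⟩
  have m₂ : X.z ∈ P ⊓ centralizerIn S (zpowers s) := ⟨hz, X.z_mem_cs hsS⟩
  have hf' : ∀ x ∈ P ⊓ centralizerIn S (zpowers s), f x ∈ centralizerIn S (zpowers (f s)) :=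
    fun x hx => mem_cs.2 ⟨hf.mem hx.1, by
      rw [← hf.map_mul hs hx.1, (mem_cs.1 hx.2).2, hf.map_mul hx.1 hs]⟩
  have hδ := hγ.comp ((hf.mono inf_le_left).comp hβ hf') fun y hy => by
    obtain ⟨x, hx, rfl⟩ := (hα.mono hQ).mem_img.1 hy
    rwa [eγ x hx]
  have := X.sc s₀ (isConjElt_right_mem c₀)
    (by rw [← eα, ← hα.map_mul m₁.2 m₁.2, hss, hα.map_one])
    (fun h => h1 (hα.inj _ m₁.2 _ (one_mem _) (by rw [eα, h, hα.map_one]))) a₁ a₂ hδ
    (eα ▸ Fus2.mem_img_of_mem α m₁) (by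
      simp only [← eα, eγ s m₁]
      rw [eβ, eα]) _ (Fus2.mem_img_of_mem α m₂) (X.wc_mem hα hR (X.rR _))
  simp only [eγ _ m₂] at this
  have c : F.IsConjElt X.z (β (f X.z)) :=
    isConjElt_trans (isConjElt_of_M hf hz) (isConjElt_of_M hβ (hf' _ m₂))
  exact hβ.inj _ (hf' _ m₂) _ (hR' (X.rR _))
    (((X.R_inv this (X.conj_sq c)).resolve_left (X.conj_ne c)).trans (X.wc_z hβ hR').symm)

end Ctx

end Cfsg.Agent.WQ
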