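import Cfsg.Agent.Lib.WQ.GC

/-!
Essential subgroups of saturated fusion systems on a 2-group of type `G₂(q)`.
-/

set_option autoImplicit false
set_option linter.style.haveILetI false
set_option linter.unusedVariables false
set_option linter.unusedSectionVars false
set_option linter.unusedSimpArgs false
set_option linter.unusedTactic false
set_option linter.unreachableTactic false

namespace Cfsg.Agent.WQ

open Subgroup Cfsg.Agent.Fus Cfsg.Agent.Ess Cfsg.Agent.TwoGrp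
open Cfsg.Agent.Fus2 (M afn HomOn img)
open Cfsg.FusionSystem (centralizerIn normalizerIn)

universe u

variable {Ω : Type u} [Group Ω] {S : Subgroup Ω} {F : FusionSystem S} {E : Subgroup Ω}

theorem pair' {p : ℕ} [Finite S] [hp : Fact p.Prime] (hS : IsPGroup p S) (hF : F.IsSaturated p)
    (hE : F.IsEssential p E) : ∃ γ ∈ F.autGroup E, ∀ g ∈ S, ∀ g' ∈ S, g ∉ E → g' ∉ E →
    ∀ u ∈ E, ∀ u' ∈ E, (∀ x ∈ E, x⁻¹ * (g * x * g⁻¹) ∈ zpowers u) →
    (∀ x ∈ E, x⁻¹ * (g' * x * g'⁻¹) ∈ zpowers u') → g * u = u * g → g' * u' = u' * g' →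
    g' * afn γ⁻¹ u = afn γ⁻¹ u * g' → g * afn γ u' = afn γ u' * g → False := by
  obtain ⟨γ, hγ, H⟩ := pair hS hF hE
  refine ⟨γ, hγ, fun g hg g' hg' h₁ h₂ u hu u' hu' h₃ h₄ e₁ e₂ e₃ e₄ =>
    H g hg g' hg' h₁ h₂ (fun x hx => ?_) fun x hx => ?_⟩
  · obtain ⟨k, hk⟩ := h₃ x hx
    refine ⟨_, zpow_mem hu k, hk.symm, (Commute.zpow_right e₁ k).eq, ?_⟩
    rw [(Fus2.homOn_afn _).map_zpow hu]
    exact (Commute.zpow_right e₃ k).eq
  · obtain ⟨k, hk⟩ := h₄ x hx
    refine ⟨_, zpow_mem hu' k, hk.symm, (Commute.zpow_right e₂ k).eq, ?_⟩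
    rw [(Fus2.homOn_afn _).map_zpow hu']
    exact (Commute.zpow_right e₄ k).eq

theorem sq_mem_phi {G : Type*} [Group G] {R : Subgroup G} {x : G} (hx : x ∈ R) :
    x * x ∈ phi 2 R := by rw [← sq]; exact pow_mem_phi hx

namespace GC

variable {n : ℕ} (D : GC S n)

theorem sq_mem_H {g : Ω} (hg : g ∈ S) : g * g ∈ D.H := by
  obtain ⟨a, b, rfl | rfl | rfl | rfl⟩ := D.cases hg <;> simp

theorem H_normal : S ≤ normalizer (D.H : Set Ω) := fun g hg => by
  haveI := D.finite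
  haveI := finite_of_le D.H_le
  exact mem_normalizer_of_conj_mem fun x hx => D.conj_mem_of_H_le le_rfl D.H_le hx hg

theorem Dg_normal : S ≤ normalizer (D.Dg : Set Ω) := fun g hg => by
  haveI := D.finite
  haveI := finite_of_le D.Dg_le
  refine mem_normalizer_of_conj_mem ?_
  rintro _ ⟨e, rfl⟩
  obtain ⟨a, b, rfl | rfl | rfl | rfl⟩ := D.cases hg <;> simp

theorem mem_zp_z {a b : ZMod (2 ^ n)} (h : 2 * a = 0) (e : b = a) :
    D.r a b ∈ zpowers (D.r (hf n) (hf n)) := by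
  subst e
  rcases (D.two_eq _).1 h with rfl | rfl
  · rw [D.r_zero]; exact one_mem _
  · exact mem_zpowers _

/-- Elements `r a b` with `2(a ± b) = 0` act trivially modulo the centre. -/
theorem icj_A₀ {a b : ZMod (2 ^ n)} (h₁ : 2 * (a - b) = 0) (h₂ : 2 * (a + b) = 0) {x : Ω}
    (hx : x ∈ S) : x⁻¹ * (D.r a b * x * (D.r a b)⁻¹) ∈ zpowers (D.r (hf n) (hf n)) := by
  obtain ⟨e, f, rfl | rfl | rfl | rfl⟩ := D.cases hx <;>
    simp only [inv_r, inv_s, inv_c, inv_m, r_mul_r, r_mul_s, r_mul_c, r_mul_m, s_mul_r, c_mul_r,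
      m_mul_r, s_mul_s, c_mul_c, m_mul_m] <;> refine D.mem_zp_z ?_ ?_
  · ring
  · ring
  · linear_combination -h₁
  · linear_combination h₁
  · linear_combination -h₁ - h₂
  · linear_combination h₁
  · linear_combination -h₂
  · ring

section

variable (hF : F.IsSaturated 2) (hE : F.IsEssential 2 E)
include hF hE

theorem z_mem : D.r (hf n) (hf n) ∈ E :=
  mem_of_comm hE (D.r_mem ..) fun x hx => D.z_comm (hE.1.1 hx)

theorem H_le_of_inv (h : ∀ β ∈ F.autGroup E, ∀ x ∈ E, x ∈ D.H → afn β x ∈ D.H) : D.H ≤ E := by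
  haveI := D.finite
  haveI : Fact (Nat.Prime 2) := ⟨Nat.prime_two⟩
  exact SP4.OB.le_of_chain D.isPGroup hF hE D.H_le (hE.1.1.trans D.H_normal) le_rfl h h
    (fun g hg x hx => D.icj_mem_H (hE.1.1 hx) (D.H_le hg))
    (fun g hg x hx _ => D.icj_mem_H (hE.1.1 hx) (D.H_le hg))
    fun g hg x hx hx' => by rw [D.H_comm hg hx', mul_inv_cancel_right]

theorem mem_of_z {a b : ZMod (2 ^ n)} (h₁ : 2 * (a - b) = 0) (h₂ : 2 * (a + b) = 0) {y : Ω}
    (hy : y ∈ E) (e : y * y = D.r (hf n) (hf n)) : D.r a b ∈ E := by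
  haveI := D.finite
  haveI : Fact (Nat.Prime 2) := ⟨Nat.prime_two⟩
  exact mem_of_phi D.isPGroup hF hE (D.r_mem ..) fun x hx =>
    zpowers_le.2 (e ▸ sq_mem_phi hy) (D.icj_A₀ h₁ h₂ (hE.1.1 hx))

theorem ess_C (hEC : E ≤ D.C) : E = D.C := by
  haveI := D.finite
  haveI : Fact (Nat.Prime 2) := ⟨Nat.prime_two⟩
  have hV : ∀ a b, 2 * a = 0 → 2 * b = 0 → D.r a b ∈ E := fun a b ha hb =>
    mem_of_comm hE (D.r_mem ..) fun x hx => by
      obtain ⟨e, f, rfl | rfl⟩ := hEC hx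
      · simp [add_comm]
      · simp only [c_mul_r, r_mul_c, c_eq_c]
        exact ⟨by linear_combination -ha, by linear_combination -hb⟩
  obtain ⟨a₀, b₀, hk⟩ : ∃ a b, D.c a b ∈ E := by
    by_contra h
    refine h ⟨0, 0, mem_of_phi D.isPGroup hF hE (D.c_mem ..) fun x hx => ?_⟩
    obtain ⟨e, f, rfl | rfl⟩ := hEC hx
    · simpa using sq_mem_phi (inv_mem hx)
    · exact absurd ⟨e, f, hx⟩ h
  by_cases hA : ∃ a b, D.r a b ∈ E ∧ D.r a b * D.r a b ≠ 1
  · obtain ⟨a, b, hy, hy'⟩ := hA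
    have hH : D.H ≤ E := D.H_le_of_inv hF hE fun β hβ x hx hx' => by
      have h₁ := afn_comm β hx hy (D.H_comm hx' D.r_mem_H)
      have h₂ : afn β (D.r a b) * afn β (D.r a b) ≠ 1 := by
        rw [afn_sq β hy, Ne, afn_eq_one]; exact hy'
      obtain ⟨e, f, h | h⟩ := hEC (Fus2.afn_mem β hx)
      · rw [h]; simp
      · obtain ⟨e', f', h' | h'⟩ := hEC (Fus2.afn_mem β hy)
        · rw [h, h'] at h₁
          rw [h'] at h₂
          simp only [c_mul_r, r_mul_c, c_eq_c] at h₁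
          exact absurd (by simp only [r_mul_r, r_eq_one]
                           exact ⟨by linear_combination -h₁.1, by linear_combination -h₁.2⟩) h₂
        · rw [h'] at h₂; simp at h₂
    refine le_antisymm hEC ?_
    rintro _ ⟨e, f, rfl | rfl⟩
    · exact hH D.r_mem_H
    · simpa using mul_mem (hH (D.r_mem_H (a := e - a₀) (b := f - b₀))) hk
  exfalso
  push Not at hA
  have half : ∀ a : ZMod (2 ^ n), 2 * a = 0 → ∃ a', 2 * a' = a := fun a ha => by
    rcases (D.two_eq a).1 ha with rfl | rfl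
    exacts [⟨0, by simp⟩, ⟨_, D.hq⟩]
  have key : ∀ a b, D.r a b ∈ E → D.r a b ≠ 1 → ∃ a' b', D.r a' b' ∉ E ∧
      ∀ x ∈ E, x⁻¹ * (D.r a' b' * x * (D.r a' b')⁻¹) ∈ zpowers (D.r a b) := by
    intro a b h h'
    have h₁ := hA a b h
    simp only [r_mul_r, r_eq_one] at h₁
    obtain ⟨a', rfl⟩ := half a (by linear_combination h₁.1)
    obtain ⟨b', rfl⟩ := half b (by linear_combination h₁.2)
    refine ⟨a', b', fun h₂ => h' ?_, fun x hx => ?_⟩
    · simpa [two_mul] using hA _ _ h₂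
    · obtain ⟨e, f, rfl | rfl⟩ := hEC hx
      · simp [D.r_zero]
      · have : (D.c e f)⁻¹ * (D.r a' b' * D.c e f * (D.r a' b')⁻¹) = (D.r (2 * a') (2 * b'))⁻¹ := by
          simp only [inv_r, inv_c, r_mul_c, c_mul_r, c_mul_c, r_eq_r]; constructor <;> ring
        rw [this]; exact inv_mem (mem_zpowers _)
  obtain ⟨γ, hγ, H⟩ := pair' D.isPGroup hF hE
  obtain ⟨a', b', hv', hv1, a, b, e⟩ : ∃ a' b', D.r a' b' ∈ E ∧ D.r a' b' ≠ 1 ∧
      ∃ a b, afn γ (D.r a' b') = D.r a b := by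
    have h₁ := hV (hf n) 0 D.h2 (by simp)
    have h₂ := hV 0 (hf n) (by simp) D.h2
    obtain ⟨e, f, h | h⟩ := hEC (Fus2.afn_mem γ h₁)
    · exact ⟨_, _, h₁, by simp [D.h0], _, _, h⟩
    obtain ⟨e', f', h' | h'⟩ := hEC (Fus2.afn_mem γ h₂)
    · exact ⟨_, _, h₂, by simp [D.h0], _, _, h'⟩
    refine ⟨hf n + 0, 0 + hf n, by simpa using mul_mem h₁ h₂, by simp [D.h0], e - e', f - f', ?_⟩
    rw [← D.r_mul_r, (Fus2.homOn_afn γ).map_mul h₁ h₂, h, h', c_mul_c]
  have hv : D.r a b ∈ E := e ▸ Fus2.afn_mem γ hv'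
  obtain ⟨g₁, g₂, hg, hg'⟩ := key a b hv (by rw [← e, Ne, afn_eq_one]; exact hv1)
  obtain ⟨k₁, k₂, hk, hk'⟩ := key a' b' hv' hv1
  refine H _ (D.r_mem ..) _ (D.r_mem ..) hg hk _ hv _ hv' hg' hk' (by simp [add_comm])
    (by simp [add_comm]) ?_ (by rw [e]; simp [add_comm])
  rw [← e, Fus2.afn_inv_afn]; simp [add_comm]

theorem not_ess_X (hEX : E ≤ D.X) {a₁ b₁ : ZMod (2 ^ n)} (hs : D.s a₁ b₁ ∈ E) : False := by
  haveI := D.finite
  haveI : Fact (Nat.Prime 2) := ⟨Nat.prime_two⟩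
  have hD : D.Dg ≤ E := by
    rintro _ ⟨e, rfl⟩
    refine mem_of_comm hE (D.r_mem ..) fun x hx => ?_
    obtain ⟨a, b, rfl | rfl⟩ := hEX hx <;> simp [add_comm]
  by_cases hA : ∃ a b, D.r a b ∈ E ∧ a ≠ b
  · obtain ⟨a, b, hy, hab⟩ := hA
    have hm : ∀ x ∈ E, x⁻¹ * (D.m 0 0 * x * (D.m 0 0)⁻¹) ∈ D.Dg := fun x hx => by
      obtain ⟨e, f, rfl | rfl⟩ := hEX hx <;> simp [add_comm]
    have := mem_of_triv_phi D.isPGroup hF hE hD (inv_subgroupOf_iff.2 fun β hβ x hx hx' => ?_)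
      (D.m_mem 0 0) (mem_norm hE.1.1 fun x hx => hD (hm x hx)) hm ?_
    · simpa using hEX this
    · have h := afn_cen β (X := fun _ => True) (fun _ _ _ => trivial) hx (fun y hy _ => by
        obtain ⟨e, rfl⟩ := hx'
        obtain ⟨a, b, rfl | rfl⟩ := hEX hy <;> simp [add_comm])
      obtain ⟨e, f, h' | h'⟩ := hEX (Fus2.afn_mem β hx)
      · have := h _ hs trivial
        rw [h'] at this ⊢
        simp only [r_mul_s, s_mul_r, s_eq_s] at this
        exact D.r_mem_Dg.2 (by linear_combination this.1)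
      · have := h _ hy trivial
        rw [h'] at this
        simp only [r_mul_s, s_mul_r, s_eq_s] at this
        exact absurd (by linear_combination -this.1) hab
    · rintro _ ⟨e, rfl⟩
      simpa using sq_mem_phi (inv_mem (D.r_mem_Dg.2 rfl : D.r e e ∈ D.Dg))
  · push Not at hA
    exact D.h0 (hA _ _ (D.mem_of_z hF hE (a := hf n) (b := 0) (by simp [D.h2]) (by simp [D.h2])
      (hD (D.r_mem_Dg.2 rfl : D.r (qt n) (qt n) ∈ D.Dg)) (by simp [← two_mul, D.hq])))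

theorem not_H_le {a₁ b₁ a₃ b₃ : ZMod (2 ^ n)} (hs : D.s a₁ b₁ ∈ E) (hm : D.m a₃ b₃ ∈ E) :
    ¬ D.H ≤ E := fun h => by
  haveI := D.finite
  haveI : Fact (Nat.Prime 2) := ⟨Nat.prime_two⟩
  refine (lt_of_isEssential D.isPGroup hF hE).not_ge fun g hg => ?_
  have hs' : ∀ a b, D.s a b ∈ E := fun a b => by
    simpa using mul_mem (h (D.r_mem_H (a := a - a₁) (b := b - b₁))) hs
  have hm' : ∀ a b, D.m a b ∈ E := fun a b => by
    simpa using mul_mem (h (D.r_mem_H (a := a - a₃) (b := b - b₃))) hm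
  obtain ⟨a, b, rfl | rfl | rfl | rfl⟩ := D.cases hg
  exacts [h D.r_mem_H, hs' .., by simpa using mul_mem (hs' a b) (hm' 0 0), hm' ..]

theorem ess_dif {a₁ b₁ a₃ b₃ : ZMod (2 ^ n)} (hs : D.s a₁ b₁ ∈ E) (hm : D.m a₃ b₃ ∈ E)
    (hsq : ∀ y ∈ E, y * y ∈ D.Dg) {y₀ : Ω} (hy₀ : y₀ ∈ E) (hbig : y₀ * y₀ * (y₀ * y₀) ≠ 1) :
    ∃ j, E = D.dif (2 * j) := by
  haveI := D.finite
  haveI : Fact (Nat.Prime 2) := ⟨Nat.prime_two⟩
  obtain ⟨e₀, he₀⟩ := hsq y₀ hy₀
  have he₀' : 2 * e₀ ≠ 0 := fun h => hbig (by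
    rw [he₀, D.r_mul_r, D.r_eq_one]; exact ⟨by linear_combination h, by linear_combination h⟩)
  have hX : ∀ β : MulAut E, ∀ x ∈ E, x ∈ D.X → afn β x ∈ D.X := fun β x hx hx' => by
    have h := afn_cen_sq β hx (fun y hy => by
      obtain ⟨e, he⟩ := hsq y hy
      rw [he]
      obtain ⟨a, b, rfl | rfl⟩ := hx' <;> simp [add_comm]) y₀ hy₀
    rw [he₀] at h
    obtain ⟨a, b, h' | h' | h' | h'⟩ := D.cases (hE.1.1 (Fus2.afn_mem β hx)) <;> rw [h'] at h ⊢
    · simp
    · simp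
    · simp only [c_mul_r, r_mul_c, c_eq_c] at h
      exact absurd (by linear_combination -h.1) he₀'
    · simp only [m_mul_r, r_mul_m, m_eq_m] at h
      exact absurd (by linear_combination -h.1) he₀'
  have hDX : ∀ g ∈ D.Dg, ∀ x ∈ D.X, g * x = x * g := by
    rintro _ ⟨e, rfl⟩ _ ⟨a, b, rfl | rfl⟩ <;> simp [add_comm]
  have hD : D.Dg ≤ E :=
    SP4.OB.le_of_chain D.isPGroup hF hE D.Dg_le (hE.1.1.trans D.Dg_normal) le_rfl
      (fun β _ => hX β) (fun β _ => hX β)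
      (fun g hg x hx => D.H_le_X (D.icj_mem_H (hE.1.1 hx) (D.Dg_le hg)))
      (fun g hg x hx _ => D.H_le_X (D.icj_mem_H (hE.1.1 hx) (D.Dg_le hg)))
      fun g hg x hx hx' => by rw [hDX g hg x hx', mul_inv_cancel_right]
  have hr : ∀ a b, D.r a b ∈ E → 2 * (a - b) = 0 := fun a b h => by
    have := hsq _ h
    simp only [r_mul_r, r_mem_Dg] at this
    linear_combination this
  have hm' : ∀ a b, D.m a b ∈ E → 2 * (a - b) = 0 := fun a b h => by
    have := hsq _ h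
    simp only [m_mul_m, r_mem_Dg] at this
    linear_combination this
  have hw : D.r (hf n) 0 ∈ E := D.mem_of_z hF hE (by simp [D.h2]) (by simp [D.h2])
    (hD (D.r_mem_Dg.2 rfl : D.r (qt n) (qt n) ∈ D.Dg)) (by simp [← two_mul, D.hq])
  have hA : ∀ a b, 2 * (a - b) = 0 → D.r a b ∈ E := fun a b h => by
    rcases (D.two_eq _).1 h with h | h
    · exact hD (D.r_mem_Dg.2 (sub_eq_zero.1 h))
    · have := mul_mem hw (hD (D.r_mem_Dg.2 rfl : D.r b b ∈ D.Dg))
      rwa [D.r_mul_r, ← h, sub_add_cancel, zero_add] at this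
  have hE' : E = D.dif (a₁ - b₁) := by
    refine le_antisymm (fun x hx => ?_) ?_
    · obtain ⟨a, b, rfl | rfl | rfl | rfl⟩ := D.cases (hE.1.1 hx)
      · exact D.r_mem_dif.2 (hr _ _ hx)
      · have := hr _ _ (by simpa using mul_mem hx hs)
        exact D.s_mem_dif.2 (by linear_combination this)
      · have := hm' _ _ (by simpa using mul_mem hx hs)
        exact D.c_mem_dif.2 (by linear_combination this)
      · exact D.m_mem_dif.2 (hm' _ _ hx)
    · have h₃ := hm' _ _ hm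
      have hm'' : ∀ a b, 2 * (a - b) = 0 → D.m a b ∈ E := fun a b h => by
        simpa using mul_mem (hA (a - a₃) (b - b₃) (by linear_combination h - h₃)) hm
      rintro _ ⟨a, b, ⟨h, rfl | rfl⟩ | ⟨h, rfl | rfl⟩⟩
      · exact hA _ _ h
      · exact hm'' _ _ h
      · simpa using mul_mem (hA (a - a₁) (b - b₁) (by linear_combination h)) hs
      · simpa using mul_mem (hm'' (a + b₁) (b + a₁) (by linear_combination h)) hs
  rcases par (a₁ - b₁) with ⟨j, hj⟩ | ⟨j, hj⟩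
  · exact ⟨j, hj ▸ hE'⟩
  exfalso
  rw [hj] at hE'
  refine D.not_H_le hF hE hs hm (D.H_le_of_inv hF hE fun β hβ x hx hx' => ?_)
  have hDi : ∀ d ∈ D.Dg, afn β d ∈ D.Dg := fun d hd => by
    have h := afn_cen β (X := (· ∈ D.X)) (hX β⁻¹) (hD hd) (fun y _ hy => hDX d hd y hy)
    obtain ⟨e, f, h' | h'⟩ := hX β d (hD hd) (D.H_le_X (D.Dg_le_H hd))
    · have := h _ hs D.s_mem_X
      rw [h'] at this ⊢
      simp only [r_mul_s, s_mul_r, s_eq_s] at this
      exact D.r_mem_Dg.2 (by linear_combination this.1)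
    · have := h _ hw D.r_mem_X
      rw [h'] at this
      simp only [r_mul_s, s_mul_r, s_eq_s] at this
      exact absurd (by linear_combination -this.1) D.h0
  obtain ⟨a, b, rfl⟩ := hx'
  have h₁ : D.r a b * D.r a b = D.r a a * D.r a a := by
    simp only [r_mul_r, r_eq_r, true_and]
    linear_combination -hr _ _ hx
  have hd : D.r a a ∈ D.Dg := D.r_mem_Dg.2 rfl
  obtain ⟨e, he⟩ := hDi _ hd
  have h₂ := afn_sq β hx
  rw [h₁, ← afn_sq β (hD hd), he] at h₂
  obtain ⟨a', b', h' | h'⟩ := hX β _ hx D.r_mem_X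
  · rw [h']; simp
  · have h₃ := Fus2.afn_mem β hx
    rw [h'] at h₂ h₃
    rw [hE', s_mem_dif] at h₃
    simp only [s_mul_s, r_mul_r, r_eq_r] at h₂
    rcases (D.two_eq _).1 h₃ with h₄ | h₄
    · exact absurd (by linear_combination -h₂.1 + h₄) (D.ne_odd (e - b') j)
    · exact absurd (by linear_combination -h₂.1 + h₄ - D.hq) (D.ne_odd (e - b' - qt n) j)

theorem not_ess_small {a₁ b₁ a₃ b₃ : ZMod (2 ^ n)} (hs : D.s a₁ b₁ ∈ E) (hm : D.m a₃ b₃ ∈ E)
    (hsq : ∀ y ∈ E, y * y * (y * y) = 1) : False := by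
  haveI := D.finite
  haveI : Fact (Nat.Prime 2) := ⟨Nat.prime_two⟩
  have h2 := D.h2
  have hq := D.hq
  have hs' : ∀ a b, D.s a b ∈ E → 2 * (a + b) = 0 := fun a b h => by
    have := hsq _ h
    simp only [s_mul_s, r_mul_r, r_eq_one] at this
    linear_combination this.1
  have hm' : ∀ a b, D.m a b ∈ E → 2 * (a - b) = 0 := fun a b h => by
    have := hsq _ h
    simp only [m_mul_m, r_mul_r, r_eq_one] at this
    linear_combination this.1
  have hr : ∀ a b, D.r a b ∈ E → 2 * (a - b) = 0 ∧ 2 * (a + b) = 0 := fun a b h => by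
    have h₁ := hs' _ _ (by simpa using mul_mem h hs)
    have h₂ := hm' _ _ (by simpa using mul_mem h hm)
    exact ⟨by linear_combination h₂ - hm' _ _ hm, by linear_combination h₁ - hs' _ _ hs⟩
  have hz := D.z_mem hF hE
  obtain ⟨γ, hγ, H⟩ := pair' D.isPGroup hF hE
  by_cases hel : ∃ y ∈ E, y * y = D.r (hf n) (hf n)
  · obtain ⟨y, hy, e⟩ := hel
    obtain ⟨e₈, he₈⟩ := D.hqe
    have hx₄ : D.r (qt n) (-qt n) ∈ E :=
      D.mem_of_z hF hE (by linear_combination 2 * hq + h2) (by ring) hy e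
    have hd₄ : D.r (qt n) (qt n) ∈ E :=
      D.mem_of_z hF hE (by ring) (by linear_combination 2 * hq + h2) hy e
    have nx : D.r e₈ (-e₈) ∉ E := fun h => D.h0 (by linear_combination (hr _ _ h).1 - hq + 2 * he₈)
    have nd : D.r e₈ e₈ ∉ E := fun h => D.h0 (by linear_combination (hr _ _ h).2 - hq + 2 * he₈)
    have ix : ∀ x ∈ E, x⁻¹ * (D.r e₈ (-e₈) * x * (D.r e₈ (-e₈))⁻¹) ∈
        zpowers (D.r (qt n) (-qt n)) := fun x hx => by
      obtain ⟨a, b, rfl | rfl | rfl | rfl⟩ := D.cases (hE.1.1 hx)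
      · simp [D.r_zero]
      · refine ⟨-1, ?_⟩
        simp only [zpow_neg, zpow_one, inv_r, inv_s, r_mul_s, s_mul_r, s_mul_s, r_eq_r]
        exact ⟨by linear_combination -he₈, by linear_combination he₈⟩
      · refine ⟨-1, ?_⟩
        simp only [zpow_neg, zpow_one, inv_r, inv_c, r_mul_c, c_mul_r, c_mul_c, r_eq_r]
        exact ⟨by linear_combination -he₈, by linear_combination he₈⟩
      · simp [D.r_zero]
    have id : ∀ x ∈ E, x⁻¹ * (D.r e₈ e₈ * x * (D.r e₈ e₈)⁻¹) ∈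
        zpowers (D.r (qt n) (qt n)) := fun x hx => by
      obtain ⟨a, b, rfl | rfl | rfl | rfl⟩ := D.cases (hE.1.1 hx)
      · simp [D.r_zero]
      · simp [D.r_zero]
      · refine ⟨-1, ?_⟩
        simp only [zpow_neg, zpow_one, inv_r, inv_c, r_mul_c, c_mul_r, c_mul_c, r_eq_r]
        exact ⟨by linear_combination -he₈, by linear_combination -he₈⟩
      · refine ⟨-1, ?_⟩
        simp only [zpow_neg, zpow_one, inv_r, inv_m, r_mul_m, m_mul_r, m_mul_m, r_eq_r]
        exact ⟨by linear_combination -he₈, by linear_combination -he₈⟩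
    have up : ∀ v ∈ S, v * D.r (qt n) (-qt n) = D.r (qt n) (-qt n) * v →
        D.r e₈ (-e₈) * v = v * D.r e₈ (-e₈) := fun v hv h => by
      obtain ⟨a, b, rfl | rfl | rfl | rfl⟩ := D.cases hv
      · simp [add_comm]
      · simp only [r_mul_s, s_mul_r, s_eq_s] at h
        exact absurd (by linear_combination -h.1 - hq) D.h0
      · simp only [r_mul_c, c_mul_r, c_eq_c] at h
        exact absurd (by linear_combination -h.1 - hq) D.h0
      · simp only [r_mul_m, m_mul_r, m_eq_m]; constructor <;> ring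
    have back : ∀ u ∈ E, u * afn γ (D.r (qt n) (-qt n)) = afn γ (D.r (qt n) (-qt n)) * u →
        D.r e₈ (-e₈) * afn γ⁻¹ u = afn γ⁻¹ u * D.r e₈ (-e₈) := fun u hu h => by
      have := afn_comm γ⁻¹ hu (Fus2.afn_mem γ hx₄) h
      rw [Fus2.afn_inv_afn] at this
      exact up _ (hE.1.1 (Fus2.afn_mem _ hu)) this
    obtain ⟨a, b, h | h | h | h⟩ := D.cases (hE.1.1 (Fus2.afn_mem γ hx₄))
    · exact H _ (D.r_mem ..) _ (D.r_mem ..) nx nx _ hx₄ _ hx₄ ix ix (by simp [add_comm])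
        (by simp [add_comm]) (back _ hx₄ (by rw [h]; simp [add_comm])) (by rw [h]; simp [add_comm])
    · exact H _ (D.r_mem ..) _ (D.r_mem ..) nd nx _ hd₄ _ hx₄ id ix (by simp [add_comm])
        (by simp [add_comm]) (back _ hd₄ (by rw [h]; simp [add_comm])) (by rw [h]; simp [add_comm])
    · have := afn_sq γ hx₄
      rw [h, c_mul_c, sub_self, sub_self, D.r_zero, eq_comm, afn_eq_one, r_mul_r, r_eq_one] at this
      exact D.h0 (by linear_combination this.1 - hq)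
    · exact H _ (D.r_mem ..) _ (D.r_mem ..) nx nx _ hx₄ _ hx₄ ix ix (by simp [add_comm])
        (by simp [add_comm]) (back _ hx₄ (by rw [h]; simp [add_comm, sub_eq_add_neg]))
        (by rw [h]; simp [add_comm, sub_eq_add_neg])
  · have hone : ∀ y ∈ E, y * y = 1 := fun y hy => by
      have : y * y ∈ zpowers (D.r (hf n) (hf n)) := by
        obtain ⟨a, b, rfl | rfl | rfl | rfl⟩ := D.cases (hE.1.1 hy) <;>
          simp only [r_mul_r, s_mul_s, c_mul_c, m_mul_m] <;> refine D.mem_zp_z ?_ ?_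
        · linear_combination (hr _ _ hy).1 + (hr _ _ hy).2
        · linear_combination -(hr _ _ hy).1
        · exact hs' _ _ hy
        · ring
        · ring
        · ring
        · exact hm' _ _ hy
        · linear_combination -hm' _ _ hy
      obtain ⟨k, hk⟩ := this
      have hzz : D.r (hf n) (hf n) * D.r (hf n) (hf n) = 1 := by simp [← two_mul, h2]
      rcases Int.even_or_odd' k with ⟨l, rfl | rfl⟩
      · rw [← hk]; simp only [zpow_mul, zpow_two, hzz, one_zpow]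
      · refine absurd ⟨y, hy, ?_⟩ hel
        rw [← hk]; simp only [zpow_add, zpow_mul, zpow_two, hzz, one_zpow, one_mul, zpow_one]
    have hcomm : ∀ x ∈ E, ∀ y ∈ E, x * y = y * x := fun x hx y hy => by
      have h₁ := hone _ (mul_mem hx hy)
      rw [← inv_eq_of_mul_eq_one_right h₁, mul_inv_rev, inv_eq_of_mul_eq_one_right (hone x hx),
        inv_eq_of_mul_eq_one_right (hone y hy)]
    have key : ∀ v ∈ S, ∃ a b, D.r a b ∉ E ∧ 2 * (a - b) = 0 ∧ 2 * (a + b) = 0 ∧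
        D.r a b * v = v * D.r a b := by
      have nw : D.r (hf n) 0 ∉ E := fun h => by
        have := hcomm _ h _ hs
        simp only [r_mul_s, s_mul_r, s_eq_s] at this
        exact D.h0 (by linear_combination this.1)
      have nx : D.r (qt n) (-qt n) ∉ E := fun h => by
        have := hone _ h
        simp only [r_mul_r, r_eq_one] at this
        exact D.h0 (by linear_combination this.1 - hq)
      have nd : D.r (qt n) (qt n) ∉ E := fun h => by
        have := hone _ h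
        simp only [r_mul_r, r_eq_one] at this
        exact D.h0 (by linear_combination this.1 - hq)
      intro v hv
      obtain ⟨a, b, rfl | rfl | rfl | rfl⟩ := D.cases hv
      · exact ⟨_, _, nw, by simp [h2], by simp [h2], by simp [add_comm]⟩
      · exact ⟨_, _, nd, by ring, by linear_combination 2 * hq + h2, by simp [add_comm]⟩
      · refine ⟨_, _, nw, by simp [h2], by simp [h2], ?_⟩
        simp only [r_mul_c, c_mul_r, c_eq_c]
        exact ⟨by linear_combination h2, by ring⟩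
      · exact ⟨_, _, nx, by linear_combination 2 * hq + h2, by ring,
          by simp [add_comm, sub_eq_add_neg]⟩
    obtain ⟨g₁, g₂, hg, hg₁, hg₂, hg'⟩ := key _ (hE.1.1 (Fus2.afn_mem γ hz))
    obtain ⟨k₁, k₂, hk, hk₁, hk₂, hk'⟩ := key _ (hE.1.1 (Fus2.afn_mem γ⁻¹ hz))
    exact H _ (D.r_mem ..) _ (D.r_mem ..) hg hk _ hz _ hz
      (fun x hx => D.icj_A₀ hg₁ hg₂ (hE.1.1 hx)) (fun x hx => D.icj_A₀ hk₁ hk₂ (hE.1.1 hx))
      (by simp [add_comm]) (by simp [add_comm]) hk' hg'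

/-- The classification of the essential subgroups. -/
theorem ess_cases : E = D.C ∨ (∃ j, E = D.dif (2 * j)) ∨ ∃ j, E = D.flip.dif (2 * j) := by
  by_cases hC : E ≤ D.C
  · exact Or.inl (D.ess_C hF hE hC)
  right
  obtain ⟨x₁, hx₁, hx₁'⟩ := SetLike.not_le_iff_exists.1 hC
  obtain ⟨a₁, b₁, a₃, b₃, hs, hm⟩ : ∃ a₁ b₁ a₃ b₃, D.s a₁ b₁ ∈ E ∧ D.m a₃ b₃ ∈ E := by
    obtain ⟨a, b, rfl | rfl | rfl | rfl⟩ := D.cases (hE.1.1 hx₁)
    · simp at hx₁'
    · obtain ⟨x₂, hx₂, hx₂'⟩ := SetLike.not_le_iff_exists.1 fun h => D.not_ess_X hF hE h hx₁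
      obtain ⟨a', b', rfl | rfl | rfl | rfl⟩ := D.cases (hE.1.1 hx₂)
      · simp at hx₂'
      · simp at hx₂'
      · exact ⟨_, _, _, _, hx₁, by simpa using mul_mem hx₁ hx₂⟩
      · exact ⟨_, _, _, _, hx₁, hx₂⟩
    · simp at hx₁'
    · obtain ⟨x₂, hx₂, hx₂'⟩ := SetLike.not_le_iff_exists.1 fun h =>
        D.flip.not_ess_X hF hE h (a₁ := a) (b₁ := -b) (by simpa using hx₁)
      obtain ⟨a', b', rfl | rfl | rfl | rfl⟩ := D.flip.cases (hE.1.1 hx₂)
      · exact absurd D.flip.r_mem_X hx₂'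
      · exact absurd D.flip.s_mem_X hx₂'
      · exact ⟨_, _, _, _, by simpa using mul_mem hx₁ hx₂, hx₁⟩
      · exact ⟨_, _, _, _, by simpa using hx₂, hx₁⟩
  obtain ⟨y₀, hy₀, hbig⟩ : ∃ y ∈ E, y * y * (y * y) ≠ 1 := by
    by_contra h
    push Not at h
    exact D.not_ess_small hF hE hs hm h
  obtain ⟨β, x, hx, hx', hβ⟩ : ∃ β : MulAut E, ∃ x ∈ E, x ∈ D.H ∧ afn β x ∉ D.H := by
    by_contra h
    push Not at h
    exact D.not_H_le hF hE hs hm (D.H_le_of_inv hF hE fun β _ => h β)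
  have key := afn_cen_sq β hx fun y hy => D.H_comm hx' (D.sq_mem_H (hE.1.1 hy))
  obtain ⟨a, b, h | h | h | h⟩ := D.cases (hE.1.1 (Fus2.afn_mem β hx)) <;> rw [h] at hβ key
  · simp at hβ
  · refine Or.inl (D.ess_dif hF hE hs hm (fun y hy => ?_) hy₀ hbig)
    obtain ⟨e, f, he⟩ := D.sq_mem_H (hE.1.1 hy)
    have := key y hy
    rw [he] at this ⊢
    simp only [r_mul_s, s_mul_r, s_eq_s] at this
    exact D.r_mem_Dg.2 (by linear_combination -this.1)
  · obtain ⟨e, f, he⟩ := D.sq_mem_H (hE.1.1 hy₀)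
    have := key y₀ hy₀
    rw [he] at this hbig
    simp only [r_mul_c, c_mul_r, c_eq_c] at this
    exact absurd (by rw [r_mul_r, r_eq_one]
                     exact ⟨by linear_combination -this.1, by linear_combination -this.2⟩) hbig
  · refine Or.inr (D.flip.ess_dif hF hE (a₁ := a₃) (b₁ := -b₃) (a₃ := a₁) (b₃ := -b₁)
      (by simpa using hm) (by simpa using hs) (fun y hy => ?_) hy₀ hbig)
    obtain ⟨e, f, he⟩ := D.sq_mem_H (hE.1.1 hy)
    have := key y hy
    rw [he] at this ⊢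
    simp only [r_mul_m, m_mul_r, m_eq_m] at this
    exact ⟨e, by rw [flip_r, r_eq_r]; exact ⟨rfl, by linear_combination -this.1⟩⟩

end

end GC

end Cfsg.Agent.WQ
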