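import Cfsg.Agent.Lib.WQ.Gen

/-!
Coordinates on a 2-group of type `G₂(q)`: `(C_{2^n} × C_{2^n}) ⋊ 2²`.
-/

set_option autoImplicit false
set_option linter.style.haveILetI false
set_option linter.unusedVariables false
set_option linter.unusedSectionVars false
set_option linter.unusedSimpArgs false

namespace Cfsg.Agent.WQ

open Subgroup Cfsg.Agent.TwoGrp

/-- Coordinates on a 2-group of type `G₂(q)`. -/
structure GC {G : Type*} [Group G] (S : Subgroup G) (n : ℕ) where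
  hn : 3 ≤ n
  r : ZMod (2 ^ n) → ZMod (2 ^ n) → G
  σ : G
  κ : G
  r_mul_r : ∀ a b c d, r a b * r c d = r (a + c) (b + d)
  r_inj : ∀ a b c d, r a b = r c d → a = c ∧ b = d
  σσ : σ * σ = 1
  κκ : κ * κ = 1
  σκ : σ * κ = κ * σ
  σr : ∀ a b, σ * r a b = r b a * σ
  κr : ∀ a b, κ * r a b = r (-a) (-b) * κ
  mem_iff : ∀ g, g ∈ S ↔ ∃ a b, g = r a b ∨ g = r a b * σ ∨ g = r a b * κ ∨ g = r a b * (σ * κ)

namespace GC

variable {G : Type*} [Group G] {S : Subgroup G} {n : ℕ} (D : GC S n)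

/-- Elements acting as the swap. -/
def s (a b : ZMod (2 ^ n)) : G := D.r a b * D.σ
/-- Elements acting as the inversion. -/
def c (a b : ZMod (2 ^ n)) : G := D.r a b * D.κ
/-- Elements acting as minus the swap. -/
def m (a b : ZMod (2 ^ n)) : G := D.r a b * (D.σ * D.κ)

attribute [simp] r_mul_r

section Arith
include D

theorem h2 : 2 * hf n = 0 := two_mul_hf (by have := D.hn; omega)
theorem h0 : hf n ≠ 0 := hf_ne_zero (by have := D.hn; omega)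
theorem hq : 2 * qt n = hf n := two_mul_qt (by have := D.hn; omega)
theorem hqe : ∃ e, qt n = 2 * e := qt_even D.hn
theorem two_eq (a : ZMod (2 ^ n)) : 2 * a = 0 ↔ a = 0 ∨ a = hf n :=
  two_mul_eq_zero_iff (by have := D.hn; omega) a
theorem two_eq_hf (a : ZMod (2 ^ n)) : 2 * a = hf n ↔ a = qt n ∨ a = -qt n :=
  two_mul_eq_hf_iff (by have := D.hn; omega) a
theorem ne_odd (a b : ZMod (2 ^ n)) : 2 * a ≠ 2 * b + 1 := two_mul_ne (by have := D.hn; omega) a b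
theorem four_ne : (4 : ZMod (2 ^ n)) ≠ 0 := by
  have := two_pow_ne_zero (n := n) (k := 2) (by have := D.hn; omega)
  norm_num at this ⊢
  exact this
theorem two_ne : (2 : ZMod (2 ^ n)) ≠ 0 := fun h => D.four_ne (by linear_combination 2 * h)
theorem one_ne : (1 : ZMod (2 ^ n)) ≠ 0 := fun h => D.four_ne (by linear_combination 4 * h)
theorem q0 : qt n ≠ 0 := fun h => D.h0 (by linear_combination -D.hq + 2 * h)

end Arith

variable (a b a' b' : ZMod (2 ^ n))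

theorem r_zero : D.r 0 0 = 1 := by
  have := D.r_mul_r 0 0 0 0
  simp only [add_zero] at this
  exact mul_left_cancel (this.trans (mul_one _).symm)

theorem σσ' (x : G) : D.σ * (D.σ * x) = x := by rw [← mul_assoc, D.σσ, one_mul]
theorem κκ' (x : G) : D.κ * (D.κ * x) = x := by rw [← mul_assoc, D.κκ, one_mul]
theorem κσ' (x : G) : D.κ * (D.σ * x) = D.σ * (D.κ * x) := by rw [← mul_assoc, ← D.σκ, mul_assoc]
theorem σr' (x : G) : D.σ * (D.r a b * x) = D.r b a * (D.σ * x) := by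
  rw [← mul_assoc, D.σr, mul_assoc]
theorem κr' (x : G) : D.κ * (D.r a b * x) = D.r (-a) (-b) * (D.κ * x) := by
  rw [← mul_assoc, D.κr, mul_assoc]
theorem rr' (x : G) : D.r a b * (D.r a' b' * x) = D.r (a + a') (b + b') * x := by
  rw [← mul_assoc, D.r_mul_r]

@[simp] theorem r_mul_s : D.r a b * D.s a' b' = D.s (a + a') (b + b') := by
  simp only [s, c, m, mul_assoc, D.σr', D.κr', D.rr', D.σσ', D.κκ', D.κσ', D.σr, D.κr, D.σσ,
    D.κκ, ← D.σκ, D.r_mul_r, mul_one, sub_eq_add_neg]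
@[simp] theorem r_mul_c : D.r a b * D.c a' b' = D.c (a + a') (b + b') := by
  simp only [s, c, m, mul_assoc, D.σr', D.κr', D.rr', D.σσ', D.κκ', D.κσ', D.σr, D.κr, D.σσ,
    D.κκ, ← D.σκ, D.r_mul_r, mul_one, sub_eq_add_neg]
@[simp] theorem r_mul_m : D.r a b * D.m a' b' = D.m (a + a') (b + b') := by
  simp only [s, c, m, mul_assoc, D.σr', D.κr', D.rr', D.σσ', D.κκ', D.κσ', D.σr, D.κr, D.σσ,
    D.κκ, ← D.σκ, D.r_mul_r, mul_one, sub_eq_add_neg]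
@[simp] theorem s_mul_r : D.s a b * D.r a' b' = D.s (a + b') (b + a') := by
  simp only [s, c, m, mul_assoc, D.σr', D.κr', D.rr', D.σσ', D.κκ', D.κσ', D.σr, D.κr, D.σσ,
    D.κκ, ← D.σκ, D.r_mul_r, mul_one, sub_eq_add_neg]
@[simp] theorem s_mul_s : D.s a b * D.s a' b' = D.r (a + b') (b + a') := by
  simp only [s, c, m, mul_assoc, D.σr', D.κr', D.rr', D.σσ', D.κκ', D.κσ', D.σr, D.κr, D.σσ,
    D.κκ, ← D.σκ, D.r_mul_r, mul_one, sub_eq_add_neg]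
@[simp] theorem s_mul_c : D.s a b * D.c a' b' = D.m (a + b') (b + a') := by
  simp only [s, c, m, mul_assoc, D.σr', D.κr', D.rr', D.σσ', D.κκ', D.κσ', D.σr, D.κr, D.σσ,
    D.κκ, ← D.σκ, D.r_mul_r, mul_one, sub_eq_add_neg]
@[simp] theorem s_mul_m : D.s a b * D.m a' b' = D.c (a + b') (b + a') := by
  simp only [s, c, m, mul_assoc, D.σr', D.κr', D.rr', D.σσ', D.κκ', D.κσ', D.σr, D.κr, D.σσ,
    D.κκ, ← D.σκ, D.r_mul_r, mul_one, sub_eq_add_neg]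
@[simp] theorem c_mul_r : D.c a b * D.r a' b' = D.c (a - a') (b - b') := by
  simp only [s, c, m, mul_assoc, D.σr', D.κr', D.rr', D.σσ', D.κκ', D.κσ', D.σr, D.κr, D.σσ,
    D.κκ, ← D.σκ, D.r_mul_r, mul_one, sub_eq_add_neg]
@[simp] theorem c_mul_s : D.c a b * D.s a' b' = D.m (a - a') (b - b') := by
  simp only [s, c, m, mul_assoc, D.σr', D.κr', D.rr', D.σσ', D.κκ', D.κσ', D.σr, D.κr, D.σσ,
    D.κκ, ← D.σκ, D.r_mul_r, mul_one, sub_eq_add_neg]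
@[simp] theorem c_mul_c : D.c a b * D.c a' b' = D.r (a - a') (b - b') := by
  simp only [s, c, m, mul_assoc, D.σr', D.κr', D.rr', D.σσ', D.κκ', D.κσ', D.σr, D.κr, D.σσ,
    D.κκ, ← D.σκ, D.r_mul_r, mul_one, sub_eq_add_neg]
@[simp] theorem c_mul_m : D.c a b * D.m a' b' = D.s (a - a') (b - b') := by
  simp only [s, c, m, mul_assoc, D.σr', D.κr', D.rr', D.σσ', D.κκ', D.κσ', D.σr, D.κr, D.σσ,
    D.κκ, ← D.σκ, D.r_mul_r, mul_one, sub_eq_add_neg]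
@[simp] theorem m_mul_r : D.m a b * D.r a' b' = D.m (a - b') (b - a') := by
  simp only [s, c, m, mul_assoc, D.σr', D.κr', D.rr', D.σσ', D.κκ', D.κσ', D.σr, D.κr, D.σσ,
    D.κκ, ← D.σκ, D.r_mul_r, mul_one, sub_eq_add_neg]
@[simp] theorem m_mul_s : D.m a b * D.s a' b' = D.c (a - b') (b - a') := by
  simp only [s, c, m, mul_assoc, D.σr', D.κr', D.rr', D.σσ', D.κκ', D.κσ', D.σr, D.κr, D.σσ,
    D.κκ, ← D.σκ, D.r_mul_r, mul_one, sub_eq_add_neg]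
@[simp] theorem m_mul_c : D.m a b * D.c a' b' = D.s (a - b') (b - a') := by
  simp only [s, c, m, mul_assoc, D.σr', D.κr', D.rr', D.σσ', D.κκ', D.κσ', D.σr, D.κr, D.σσ,
    D.κκ, ← D.σκ, D.r_mul_r, mul_one, sub_eq_add_neg]
@[simp] theorem m_mul_m : D.m a b * D.m a' b' = D.r (a - b') (b - a') := by
  simp only [s, c, m, mul_assoc, D.σr', D.κr', D.rr', D.σσ', D.κκ', D.κσ', D.σr, D.κr, D.σσ,
    D.κκ, ← D.σκ, D.r_mul_r, mul_one, sub_eq_add_neg]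

variable {a b a' b'}

@[simp] theorem r_eq_r : D.r a b = D.r a' b' ↔ a = a' ∧ b = b' :=
  ⟨D.r_inj _ _ _ _, by rintro ⟨rfl, rfl⟩; rfl⟩
@[simp] theorem s_eq_s : D.s a b = D.s a' b' ↔ a = a' ∧ b = b' := by simp [s]
@[simp] theorem c_eq_c : D.c a b = D.c a' b' ↔ a = a' ∧ b = b' := by simp [c]
@[simp] theorem m_eq_m : D.m a b = D.m a' b' ↔ a = a' ∧ b = b' := by simp [m]

@[simp] theorem r_eq_s : D.r a b = D.s a' b' ↔ False := iff_false_intro fun h => by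
  have h₁ : D.r a b * D.r 1 0 = D.r 1 0 * D.r a b := by simp [add_comm]
  rw [h] at h₁
  simp only [s_mul_r, r_mul_s, s_eq_s] at h₁
  exact D.one_ne (by linear_combination h₁.2)
@[simp] theorem r_eq_c : D.r a b = D.c a' b' ↔ False := iff_false_intro fun h => by
  have h₁ : D.r a b * D.r 1 0 = D.r 1 0 * D.r a b := by simp [add_comm]
  rw [h] at h₁
  simp only [c_mul_r, r_mul_c, c_eq_c] at h₁
  exact D.two_ne (by linear_combination -h₁.1)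
@[simp] theorem r_eq_m : D.r a b = D.m a' b' ↔ False := iff_false_intro fun h => by
  have h₁ : D.r a b * D.r 1 0 = D.r 1 0 * D.r a b := by simp [add_comm]
  rw [h] at h₁
  simp only [m_mul_r, r_mul_m, m_eq_m] at h₁
  exact D.one_ne (by linear_combination -h₁.1)
@[simp] theorem s_eq_c : D.s a b = D.c a' b' ↔ False := iff_false_intro fun h => by
  simpa using congrArg (· * D.s 0 0) h
@[simp] theorem s_eq_m : D.s a b = D.m a' b' ↔ False := iff_false_intro fun h => by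
  simpa using congrArg (· * D.s 0 0) h
@[simp] theorem c_eq_m : D.c a b = D.m a' b' ↔ False := iff_false_intro fun h => by
  simpa using congrArg (· * D.c 0 0) h
@[simp] theorem s_eq_r : D.s a b = D.r a' b' ↔ False := by rw [eq_comm, r_eq_s]
@[simp] theorem c_eq_r : D.c a b = D.r a' b' ↔ False := by rw [eq_comm, r_eq_c]
@[simp] theorem m_eq_r : D.m a b = D.r a' b' ↔ False := by rw [eq_comm, r_eq_m]
@[simp] theorem c_eq_s : D.c a b = D.s a' b' ↔ False := by rw [eq_comm, s_eq_c]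
@[simp] theorem m_eq_s : D.m a b = D.s a' b' ↔ False := by rw [eq_comm, s_eq_m]
@[simp] theorem m_eq_c : D.m a b = D.c a' b' ↔ False := by rw [eq_comm, c_eq_m]

@[simp] theorem r_eq_one : D.r a b = 1 ↔ a = 0 ∧ b = 0 := by rw [← D.r_zero, r_eq_r]
@[simp] theorem s_eq_one : D.s a b = 1 ↔ False := by rw [← D.r_zero, s_eq_r]
@[simp] theorem c_eq_one : D.c a b = 1 ↔ False := by rw [← D.r_zero, c_eq_r]
@[simp] theorem m_eq_one : D.m a b = 1 ↔ False := by rw [← D.r_zero, m_eq_r]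

variable (a b a' b')

@[simp] theorem inv_r : (D.r a b)⁻¹ = D.r (-a) (-b) := inv_eq_of_mul_eq_one_right (by simp)
@[simp] theorem inv_s : (D.s a b)⁻¹ = D.s (-b) (-a) := inv_eq_of_mul_eq_one_right (by simp)
@[simp] theorem inv_c : (D.c a b)⁻¹ = D.c a b := inv_eq_of_mul_eq_one_right (by simp)
@[simp] theorem inv_m : (D.m a b)⁻¹ = D.m b a := inv_eq_of_mul_eq_one_right (by simp)

theorem cases {g : G} (hg : g ∈ S) :
    ∃ a b, g = D.r a b ∨ g = D.s a b ∨ g = D.c a b ∨ g = D.m a b := (D.mem_iff g).1 hg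

theorem r_mem : D.r a b ∈ S := (D.mem_iff _).2 ⟨a, b, Or.inl rfl⟩
theorem s_mem : D.s a b ∈ S := (D.mem_iff _).2 ⟨a, b, Or.inr (Or.inl rfl)⟩
theorem c_mem : D.c a b ∈ S := (D.mem_iff _).2 ⟨a, b, Or.inr (Or.inr (Or.inl rfl))⟩
theorem m_mem : D.m a b ∈ S := (D.mem_iff _).2 ⟨a, b, Or.inr (Or.inr (Or.inr rfl))⟩

theorem c_zero : D.c 0 0 = D.κ := by rw [c, D.r_zero, one_mul]

/-- The symmetry exchanging `σ` and `σκ`. -/
def flip : GC S n where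
  hn := D.hn
  r a b := D.r a (-b)
  σ := D.σ * D.κ
  κ := D.κ
  r_mul_r a b c d := by simp [add_comm]
  r_inj a b c d h := by simpa using h
  σσ := by rw [mul_assoc, D.κσ', D.σσ', D.κκ]
  κκ := D.κκ
  σκ := by rw [D.κσ', mul_assoc]
  σr a b := by rw [mul_assoc, D.κr, D.σr', neg_neg]
  κr a b := D.κr ..
  mem_iff g := by
    have e : ∀ a b, D.r a b * (D.σ * D.κ * D.κ) = D.r a b * D.σ := fun a b => by
      rw [mul_assoc D.σ, D.κκ, mul_one]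
    simp only [e, D.mem_iff]
    exact ⟨fun ⟨a, b, h⟩ => ⟨a, -b, by rw [neg_neg]; tauto⟩, fun ⟨a, b, h⟩ => ⟨a, -b, by tauto⟩⟩

@[simp] theorem flip_r : D.flip.r a b = D.r a (-b) := rfl
@[simp] theorem flip_s : D.flip.s a b = D.m a (-b) := rfl
@[simp] theorem flip_c : D.flip.c a b = D.c a (-b) := rfl
@[simp] theorem flip_m : D.flip.m a b = D.s a (-b) := by
  show D.r a (-b) * (D.σ * D.κ * D.κ) = _
  simp only [s, c, m, mul_assoc, D.σr', D.κr', D.rr', D.σσ', D.κκ', D.κσ', D.σr, D.κr, D.σσ,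
    D.κκ, ← D.σκ, D.r_mul_r, mul_one, sub_eq_add_neg]

/-- The homocyclic subgroup. -/
def H : Subgroup G where
  carrier := {x | ∃ a b, x = D.r a b}
  one_mem' := ⟨0, 0, D.r_zero.symm⟩
  mul_mem' := by rintro _ _ ⟨a, b, rfl⟩ ⟨a', b', rfl⟩; exact ⟨_, _, D.r_mul_r ..⟩
  inv_mem' := by rintro _ ⟨a, b, rfl⟩; exact ⟨_, _, D.inv_r ..⟩

/-- The centralizer of the normal four-group. -/
def C : Subgroup G where
  carrier := {x | ∃ a b, x = D.r a b ∨ x = D.c a b}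
  one_mem' := ⟨0, 0, Or.inl D.r_zero.symm⟩
  mul_mem' := by
    rintro _ _ ⟨a, b, rfl | rfl⟩ ⟨a', b', rfl | rfl⟩
    exacts [⟨_, _, Or.inl (D.r_mul_r ..)⟩, ⟨_, _, Or.inr (D.r_mul_c ..)⟩,
      ⟨_, _, Or.inr (D.c_mul_r ..)⟩, ⟨_, _, Or.inl (D.c_mul_c ..)⟩]
  inv_mem' := by
    rintro _ ⟨a, b, rfl | rfl⟩
    exacts [⟨_, _, Or.inl (D.inv_r ..)⟩, ⟨_, _, Or.inr (D.inv_c ..)⟩]

/-- The wreathed subgroup. -/
def X : Subgroup G where
  carrier := {x | ∃ a b, x = D.r a b ∨ x = D.s a b}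
  one_mem' := ⟨0, 0, Or.inl D.r_zero.symm⟩
  mul_mem' := by
    rintro _ _ ⟨a, b, rfl | rfl⟩ ⟨a', b', rfl | rfl⟩
    exacts [⟨_, _, Or.inl (D.r_mul_r ..)⟩, ⟨_, _, Or.inr (D.r_mul_s ..)⟩,
      ⟨_, _, Or.inr (D.s_mul_r ..)⟩, ⟨_, _, Or.inl (D.s_mul_s ..)⟩]
  inv_mem' := by
    rintro _ ⟨a, b, rfl | rfl⟩
    exacts [⟨_, _, Or.inl (D.inv_r ..)⟩, ⟨_, _, Or.inr (D.inv_s ..)⟩]

/-- The diagonal. -/
def Dg : Subgroup G where
  carrier := {x | ∃ a, x = D.r a a}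
  one_mem' := ⟨0, D.r_zero.symm⟩
  mul_mem' := by rintro _ _ ⟨a, rfl⟩ ⟨a', rfl⟩; exact ⟨_, D.r_mul_r ..⟩
  inv_mem' := by rintro _ ⟨a, rfl⟩; exact ⟨_, D.inv_r ..⟩

/-- The candidates `Q₈ ∘ Q_{2^{n+1}}` for `k` even. -/
def dif (k : ZMod (2 ^ n)) : Subgroup G where
  carrier := {x | ∃ a b, (2 * (a - b) = 0 ∧ (x = D.r a b ∨ x = D.m a b)) ∨
    (2 * (a - b - k) = 0 ∧ (x = D.s a b ∨ x = D.c a b))}
  one_mem' := ⟨0, 0, Or.inl ⟨by simp, Or.inl D.r_zero.symm⟩⟩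
  mul_mem' := by
    rintro _ _ ⟨a, b, ⟨h, rfl | rfl⟩ | ⟨h, rfl | rfl⟩⟩ ⟨a', b', ⟨h', rfl | rfl⟩ | ⟨h', rfl | rfl⟩⟩ <;>
      simp only [r_mul_r, r_mul_s, r_mul_c, r_mul_m, s_mul_r, s_mul_s, s_mul_c, s_mul_m, c_mul_r,
        c_mul_s, c_mul_c, c_mul_m, m_mul_r, m_mul_s, m_mul_c, m_mul_m] <;>
      first
      | exact ⟨_, _, Or.inl ⟨by linear_combination h + h', Or.inl rfl⟩⟩
      | exact ⟨_, _, Or.inl ⟨by linear_combination h + h', Or.inr rfl⟩⟩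
      | exact ⟨_, _, Or.inl ⟨by linear_combination h - h', Or.inl rfl⟩⟩
      | exact ⟨_, _, Or.inl ⟨by linear_combination h - h', Or.inr rfl⟩⟩
      | exact ⟨_, _, Or.inr ⟨by linear_combination h + h', Or.inl rfl⟩⟩
      | exact ⟨_, _, Or.inr ⟨by linear_combination h + h', Or.inr rfl⟩⟩
      | exact ⟨_, _, Or.inr ⟨by linear_combination h - h', Or.inl rfl⟩⟩
      | exact ⟨_, _, Or.inr ⟨by linear_combination h - h', Or.inr rfl⟩⟩
  inv_mem' := by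
    rintro _ ⟨a, b, ⟨h, rfl | rfl⟩ | ⟨h, rfl | rfl⟩⟩
    · exact ⟨_, _, Or.inl ⟨by linear_combination -h, Or.inl (D.inv_r ..)⟩⟩
    · exact ⟨_, _, Or.inl ⟨by linear_combination -h, Or.inr (D.inv_m ..)⟩⟩
    · exact ⟨_, _, Or.inr ⟨by linear_combination h, Or.inl (D.inv_s ..)⟩⟩
    · exact ⟨_, _, Or.inr ⟨by linear_combination h, Or.inr (D.inv_c ..)⟩⟩

variable {a b a' b'} {k : ZMod (2 ^ n)}

theorem mem_H {x : G} : x ∈ D.H ↔ ∃ a b, x = D.r a b := Iff.rfl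
theorem mem_C {x : G} : x ∈ D.C ↔ ∃ a b, x = D.r a b ∨ x = D.c a b := Iff.rfl
theorem mem_X {x : G} : x ∈ D.X ↔ ∃ a b, x = D.r a b ∨ x = D.s a b := Iff.rfl
theorem mem_Dg {x : G} : x ∈ D.Dg ↔ ∃ a, x = D.r a a := Iff.rfl
theorem mem_dif {x : G} : x ∈ D.dif k ↔ ∃ a b, (2 * (a - b) = 0 ∧ (x = D.r a b ∨ x = D.m a b)) ∨
    (2 * (a - b - k) = 0 ∧ (x = D.s a b ∨ x = D.c a b)) := Iff.rfl

@[simp] theorem r_mem_H : D.r a b ∈ D.H := ⟨a, b, rfl⟩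
@[simp] theorem s_mem_H : D.s a b ∈ D.H ↔ False := by simp [mem_H]
@[simp] theorem c_mem_H : D.c a b ∈ D.H ↔ False := by simp [mem_H]
@[simp] theorem m_mem_H : D.m a b ∈ D.H ↔ False := by simp [mem_H]
@[simp] theorem r_mem_C : D.r a b ∈ D.C := ⟨a, b, Or.inl rfl⟩
@[simp] theorem s_mem_C : D.s a b ∈ D.C ↔ False := by simp [mem_C]
@[simp] theorem c_mem_C : D.c a b ∈ D.C := ⟨a, b, Or.inr rfl⟩
@[simp] theorem m_mem_C : D.m a b ∈ D.C ↔ False := by simp [mem_C]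
@[simp] theorem r_mem_X : D.r a b ∈ D.X := ⟨a, b, Or.inl rfl⟩
@[simp] theorem s_mem_X : D.s a b ∈ D.X := ⟨a, b, Or.inr rfl⟩
@[simp] theorem c_mem_X : D.c a b ∈ D.X ↔ False := by simp [mem_X]
@[simp] theorem m_mem_X : D.m a b ∈ D.X ↔ False := by simp [mem_X]
@[simp] theorem r_mem_Dg : D.r a b ∈ D.Dg ↔ a = b :=
  ⟨fun ⟨e, h⟩ => by simp at h; rw [h.1, h.2], by rintro rfl; exact ⟨a, rfl⟩⟩
@[simp] theorem s_mem_Dg : D.s a b ∈ D.Dg ↔ False := by simp [mem_Dg]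
@[simp] theorem c_mem_Dg : D.c a b ∈ D.Dg ↔ False := by simp [mem_Dg]
@[simp] theorem m_mem_Dg : D.m a b ∈ D.Dg ↔ False := by simp [mem_Dg]
@[simp] theorem r_mem_dif : D.r a b ∈ D.dif k ↔ 2 * (a - b) = 0 :=
  ⟨fun ⟨e, f, h⟩ => by simp at h; rw [h.2.1, h.2.2]; exact h.1,
    fun h => ⟨a, b, Or.inl ⟨h, Or.inl rfl⟩⟩⟩
@[simp] theorem m_mem_dif : D.m a b ∈ D.dif k ↔ 2 * (a - b) = 0 :=
  ⟨fun ⟨e, f, h⟩ => by simp at h; rw [h.2.1, h.2.2]; exact h.1,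
    fun h => ⟨a, b, Or.inl ⟨h, Or.inr rfl⟩⟩⟩
@[simp] theorem s_mem_dif : D.s a b ∈ D.dif k ↔ 2 * (a - b - k) = 0 :=
  ⟨fun ⟨e, f, h⟩ => by simp at h; rw [h.2.1, h.2.2]; exact h.1,
    fun h => ⟨a, b, Or.inr ⟨h, Or.inl rfl⟩⟩⟩
@[simp] theorem c_mem_dif : D.c a b ∈ D.dif k ↔ 2 * (a - b - k) = 0 :=
  ⟨fun ⟨e, f, h⟩ => by simp at h; rw [h.2.1, h.2.2]; exact h.1,
    fun h => ⟨a, b, Or.inr ⟨h, Or.inr rfl⟩⟩⟩

theorem H_le_C : D.H ≤ D.C := by rintro _ ⟨a, b, rfl⟩; simp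
theorem H_le_X : D.H ≤ D.X := by rintro _ ⟨a, b, rfl⟩; simp
theorem Dg_le_H : D.Dg ≤ D.H := by rintro _ ⟨a, rfl⟩; simp
theorem C_le : D.C ≤ S := by rintro _ ⟨a, b, rfl | rfl⟩; exacts [D.r_mem .., D.c_mem ..]
theorem X_le : D.X ≤ S := by rintro _ ⟨a, b, rfl | rfl⟩; exacts [D.r_mem .., D.s_mem ..]
theorem H_le : D.H ≤ S := D.H_le_C.trans D.C_le
theorem Dg_le : D.Dg ≤ S := D.Dg_le_H.trans D.H_le
theorem dif_le : D.dif k ≤ S := by
  rintro _ ⟨a, b, ⟨-, rfl | rfl⟩ | ⟨-, rfl | rfl⟩⟩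
  exacts [D.r_mem .., D.m_mem .., D.s_mem .., D.c_mem ..]

theorem flip_H : D.flip.H = D.H := by
  ext x; exact ⟨fun ⟨a, b, h⟩ => ⟨a, -b, h⟩, fun ⟨a, b, h⟩ => ⟨a, -b, by simpa using h⟩⟩
theorem flip_C : D.flip.C = D.C := by
  ext x; exact ⟨fun ⟨a, b, h⟩ => ⟨a, -b, h⟩, fun ⟨a, b, h⟩ => ⟨a, -b, by simpa using h⟩⟩

theorem H_comm {x y : G} (hx : x ∈ D.H) (hy : y ∈ D.H) : x * y = y * x := by
  obtain ⟨a, b, rfl⟩ := hx
  obtain ⟨a', b', rfl⟩ := hy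
  simp [add_comm]

theorem icj_mem_H {x g : G} (hx : x ∈ S) (hg : g ∈ S) : x⁻¹ * (g * x * g⁻¹) ∈ D.H := by
  obtain ⟨a, b, rfl | rfl | rfl | rfl⟩ := D.cases hx <;>
    obtain ⟨a', b', rfl | rfl | rfl | rfl⟩ := D.cases hg <;> simp

theorem conj_mem_of_H_le {Y : Subgroup G} (h₁ : D.H ≤ Y) (h₂ : Y ≤ S) {x g : G} (hx : x ∈ Y)
    (hg : g ∈ S) : g * x * g⁻¹ ∈ Y := by
  simpa using mul_mem hx (h₁ (D.icj_mem_H (h₂ hx) hg))

theorem z_comm {g : G} (hg : g ∈ S) : g * D.r (hf n) (hf n) = D.r (hf n) (hf n) * g := by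
  have := D.h2
  obtain ⟨a, b, rfl | rfl | rfl | rfl⟩ := D.cases hg <;>
    simp only [r_mul_r, r_mul_s, r_mul_c, r_mul_m, s_mul_r, c_mul_r, m_mul_r, r_eq_r, s_eq_s,
      c_eq_c, m_eq_m] <;> constructor <;> first | ring1 | linear_combination -this

include D in
theorem finite : Finite S := by
  haveI : NeZero (2 ^ n) := ⟨by positivity⟩
  refine Finite.of_surjective (fun x : Fin 4 × ZMod (2 ^ n) × ZMod (2 ^ n) =>
    (![⟨_, D.r_mem x.2.1 x.2.2⟩, ⟨_, D.s_mem x.2.1 x.2.2⟩, ⟨_, D.c_mem x.2.1 x.2.2⟩,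
      ⟨_, D.m_mem x.2.1 x.2.2⟩] x.1 : S)) ?_
  rintro ⟨g, hg⟩
  obtain ⟨a, b, rfl | rfl | rfl | rfl⟩ := D.cases hg
  exacts [⟨(0, a, b), rfl⟩, ⟨(1, a, b), rfl⟩, ⟨(2, a, b), rfl⟩, ⟨(3, a, b), rfl⟩]

theorem r_pow (a b : ZMod (2 ^ n)) (k : ℕ) : D.r a b ^ k = D.r (k * a) (k * b) := by
  induction k with
  | zero => simp [D.r_zero]
  | succ k ih => rw [pow_succ, ih, D.r_mul_r]; congr 1 <;> push_cast <;> ring

include D in
theorem isPGroup : IsPGroup 2 S := by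
  rintro ⟨g, hg⟩
  refine ⟨n + 1, Subtype.ext ?_⟩
  have : ∃ a b, g * g = D.r a b := by
    obtain ⟨a, b, rfl | rfl | rfl | rfl⟩ := D.cases hg
    exacts [⟨_, _, D.r_mul_r ..⟩, ⟨_, _, D.s_mul_s ..⟩, ⟨_, _, D.c_mul_c ..⟩, ⟨_, _, D.m_mul_m ..⟩]
  obtain ⟨a, b, h⟩ := this
  show g ^ 2 ^ (n + 1) = 1
  rw [pow_succ', pow_mul, sq, h, D.r_pow]
  simp [two_pow_eq_zero]

end GC

end Cfsg.Agent.WQ
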