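import Cfsg.Agent.Lib.SP4.OddB1
import Cfsg.Agent.Lib.Rank2.Final

/-!
General tools on essential subgroups and automizers used for S5176.
-/

set_option autoImplicit false
set_option linter.style.haveILetI false
set_option linter.unusedVariables false
set_option linter.unusedSectionVars false

namespace Cfsg.Agent.WQ

open Subgroup Cfsg.Agent.Fus Cfsg.Agent.Ess Cfsg.Agent.TwoGrp
open Cfsg.Agent.Fus2 (M afn HomOn img)
open Cfsg.FusionSystem (centralizerIn normalizerIn)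

universe u

section Group

variable {G : Type*} [Group G] {p : ℕ}

/-- A finite group is generated by a Sylow `p`-subgroup and its `p'`-elements. -/
theorem le_of_sylow_of_coprime [hp : Fact p.Prime] {T A K : Subgroup G} [Finite A]
    (hT : IsSylowIn p T A) (h₁ : T ≤ K) (h₂ : ∀ β ∈ A, (orderOf β).Coprime p → β ∈ K) : A ≤ K := by
  rw [← relIndex_eq_one]
  by_contra hne
  obtain ⟨r, hr, hd⟩ := Nat.exists_prime_and_dvd hne
  haveI : Fact r.Prime := ⟨hr⟩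
  by_cases e : r = p
  · subst e
    exact hT.not_dvd_relIndex (hd.trans (relIndex_dvd_of_le_left A h₁))
  obtain ⟨R, hR⟩ := exists_isSylowIn r A
  refine hR.not_dvd_relIndex (hd.trans (relIndex_dvd_of_le_left A fun β hβ => h₂ β (hR.le hβ) ?_))
  obtain ⟨k, hk⟩ := exists_pow_eq_one_of_mem hR.isPGroup hβ
  exact Nat.Coprime.coprime_dvd_left (orderOf_dvd_of_pow_eq_one hk)
    (Nat.Coprime.pow_left k ((Nat.coprime_primes hr hp.out).2 e))

/-- A `p`-subgroup normalized by a Sylow subgroup lies in it. -/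
theorem le_of_normalized {T A U : Subgroup G} (hT : IsSylowIn p T A) (hU : U ≤ A)
    (hp : IsPGroup p U) (hn : T ≤ normalizer (U : Set G)) : U ≤ T :=
  le_sup_right.trans (hT.eq_of_le (IsPGroup.to_sup_of_normal_right' hT.isPGroup hp hn)
    le_sup_left (sup_le hT.le hU)).le

theorem exists_inv_pow {x : G} {k : ℕ} (hk : x ^ 2 ^ k = 1) (h : x ≠ 1) :
    ∃ m : ℕ, x ^ m * x ^ m = 1 ∧ x ^ m ≠ 1 := by
  induction k with
  | zero => exact absurd (by simpa using hk) h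
  | succ k ih =>
    by_cases e : x ^ 2 ^ k = 1
    · exact ih e
    · exact ⟨2 ^ k, by rw [← pow_add, ← two_mul, ← pow_succ', hk], e⟩

theorem exists_oddAut' {X : Subgroup G} [Finite X] {β : MulAut X} (h : (orderOf β).Coprime 2) :
    ∃ γ : OddAut X, ∀ x ∈ X, γ.φ x = afn β x := by
  obtain ⟨γ, hγ⟩ := exists_oddAut_of_aut β
    ((Nat.Prime.coprime_iff_not_dvd Nat.prime_two).1 h.symm) (pow_orderOf_eq_one β)
  exact ⟨γ, fun x hx => by rw [Fus2.afn_apply _ hx, ← hγ]⟩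

theorem afn_comm {E : Subgroup G} (α : MulAut E) {x y : G} (hx : x ∈ E) (hy : y ∈ E)
    (h : x * y = y * x) : afn α x * afn α y = afn α y * afn α x := by
  rw [← (Fus2.homOn_afn α).map_mul hx hy, h, (Fus2.homOn_afn α).map_mul hy hx]

theorem afn_eq_one {E : Subgroup G} (α : MulAut E) {x : G} : afn α x = 1 ↔ x = 1 :=
  ⟨fun h => Fus2.afn_injective α (h.trans (Fus2.homOn_afn α).map_one.symm),
    by rintro rfl; exact (Fus2.homOn_afn α).map_one⟩

theorem afn_sq {E : Subgroup G} (α : MulAut E) {x : G} (hx : x ∈ E) :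
    afn α x * afn α x = afn α (x * x) := ((Fus2.homOn_afn α).map_mul hx hx).symm

/-- Commuting with an invariant set is an invariant property. -/
theorem afn_cen {E : Subgroup G} (α : MulAut E) {X : G → Prop}
    (hX : ∀ y ∈ E, X y → X (afn α⁻¹ y)) {x : G} (hx : x ∈ E)
    (h : ∀ y ∈ E, X y → x * y = y * x) : ∀ y ∈ E, X y → afn α x * y = y * afn α x := by
  intro y hy hy'
  have := afn_comm α hx (Fus2.afn_mem α⁻¹ hy) (h _ (Fus2.afn_mem α⁻¹ hy) (hX y hy hy'))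
  rwa [Fus2.afn_afn_inv] at this

/-- Commuting with all squares is an invariant property. -/
theorem afn_cen_sq {E : Subgroup G} (α : MulAut E) {x : G} (hx : x ∈ E)
    (h : ∀ y ∈ E, x * (y * y) = y * y * x) : ∀ y ∈ E, afn α x * (y * y) = y * y * afn α x := by
  intro y hy
  have hy' := Fus2.afn_mem α⁻¹ hy
  have := afn_comm α hx (mul_mem hy' hy') (h _ hy')
  rwa [← afn_sq α hy', Fus2.afn_afn_inv] at this

end Group

section Fusion

variable {Ω : Type u} [Group Ω] {S : Subgroup Ω} {F : FusionSystem S} {E : Subgroup Ω} {p : ℕ}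

theorem fn_of_normal [Finite S] (F : FusionSystem S) (hE : E ≤ S)
    (h : S ≤ normalizer (E : Set Ω)) : F.IsFullyNormalized E :=
  ⟨hE, fun Q _ => card_le_of_le' (normalizerIn_le _) fun g hg =>
    mem_normalizerIn.2 ⟨hg.1, h hg.1⟩⟩

theorem fc_of_central [Finite S] (F : FusionSystem S) (hE : E ≤ S)
    (h : ∀ g ∈ S, ∀ x ∈ E, x * g = g * x) : F.IsFullyCentralized E :=
  ⟨hE, fun Q _ => card_le_of_le' (centralizerIn_le _) fun g hg =>
    mem_centralizerIn.2 ⟨hg.1, h g hg.1⟩⟩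

theorem mem_of_comm (hE : F.IsEssential p E) {g : Ω} (hg : g ∈ S) (h : ∀ x ∈ E, x * g = g * x) :
    g ∈ E := IsCentric_centralizerIn_le hE.1 (mem_centralizerIn.2 ⟨hg, h⟩)

theorem mem_norm [Finite S] (hE : E ≤ S) {g : Ω} (h : ∀ x ∈ E, x⁻¹ * (g * x * g⁻¹) ∈ E) :
    g ∈ normalizer (E : Set Ω) := by
  haveI := finite_of_le hE
  exact mem_normalizer_of_conj_mem fun x hx => by simpa using mul_mem hx (h x hx)

variable [Finite S] [hp : Fact p.Prime] (hS : IsPGroup p S) (hF : F.IsSaturated p)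
include hS hF

/-- An element acting trivially on `E / Φ(E)` lies in the essential subgroup `E`. -/
theorem mem_of_phi (hE : F.IsEssential p E) {g : Ω} (hg : g ∈ S)
    (h : ∀ x ∈ E, x⁻¹ * (g * x * g⁻¹) ∈ phi p E) : g ∈ E :=
  mem_of_triv_phi hS hF hE le_rfl (by rw [subgroupOf_self]; exact inv_top _) hg
    (mem_norm hE.1.1 fun x hx => phi_le (h x hx)) (fun x hx => phi_le (h x hx)) h

/-- The pair lemma: consequence of the existence of a strongly embedded subgroup. -/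
theorem pair (hE : F.IsEssential p E) : ∃ γ ∈ F.autGroup E, ∀ g ∈ S, ∀ g' ∈ S, g ∉ E → g' ∉ E →
    (∀ x ∈ E, ∃ u ∈ E, x⁻¹ * (g * x * g⁻¹) = u ∧ g * u = u * g ∧
      g' * afn γ⁻¹ u = afn γ⁻¹ u * g') →
    (∀ x ∈ E, ∃ u ∈ E, x⁻¹ * (g' * x * g'⁻¹) = u ∧ g' * u = u * g' ∧
      g * afn γ u = afn γ u * g) → False := by
  haveI := finite_of_le hE.1.1
  obtain ⟨γ, hγ, H⟩ := (essData hS hF hE).not_ctl_pair
  refine ⟨γ, hγ, fun g hg g' hg' h₁ h₂ h₃ h₄ => ?_⟩
  have hN : g ∈ normalizer (E : Set Ω) := mem_norm hE.1.1 fun x hx => by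
    obtain ⟨u, hu, e, -⟩ := h₃ x hx; exact e ▸ hu
  have hN' : g' ∈ normalizer (E : Set Ω) := mem_norm hE.1.1 fun x hx => by
    obtain ⟨u, hu, e, -⟩ := h₄ x hx; exact e ▸ hu
  refine H _ (conjAut_mem_autInducedBy hg hN) _ (conjAut_mem_autInducedBy hg' hN')
    (fun h => h₁ ((mem_iff_conjAut_mem_Inn hE.1 hg hN).1 h))
    (fun h => h₂ ((mem_iff_conjAut_mem_Inn hE.1 hg' hN').1 h))
    (Ctl.trans_bot (isPGroup_of_le hS hE.1.1)
      (B := fixSub (conjAut E g hN) ⊓ fixSub (γ * conjAut E g' hN' * γ⁻¹))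
      (ctl_pair le_top (fun x _ => ?_) fun x _ => ?_)
      (ctl_pair bot_le (trivOn_bot_iff.2 fun x hx => hx.1) (trivOn_bot_iff.2 fun x hx => hx.2)))
  · obtain ⟨u, hu, e, e₁, e₂⟩ := h₃ x x.2
    have e' : x⁻¹ * conjAut E g hN x = ⟨u, hu⟩ := Subtype.ext e
    rw [e']
    refine ⟨Subtype.ext (mul_inv_eq_iff_eq_mul.2 e₁), ?_⟩
    have : conjAut E g' hN' (γ⁻¹ ⟨u, hu⟩) = γ⁻¹ ⟨u, hu⟩ := Subtype.ext (by
      rw [coe_conjAut_apply, ← Fus2.afn_apply _ hu, e₂, mul_inv_cancel_right])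
    show γ (conjAut E g' hN' (γ⁻¹ ⟨u, hu⟩)) = ⟨u, hu⟩
    rw [this]; simp
  · obtain ⟨u, hu, e, e₁, e₂⟩ := h₄ _ (γ⁻¹ x).2
    have e' : (γ⁻¹ x)⁻¹ * conjAut E g' hN' (γ⁻¹ x) = ⟨u, hu⟩ := Subtype.ext e
    have e'' : x⁻¹ * (γ * conjAut E g' hN' * γ⁻¹) x = γ ⟨u, hu⟩ := by
      rw [← e', map_mul, map_inv]; simp
    rw [e'']
    refine ⟨Subtype.ext (by
      rw [coe_conjAut_apply, ← Fus2.afn_apply _ hu, e₂, mul_inv_cancel_right]), ?_⟩
    have : conjAut E g' hN' ⟨u, hu⟩ = ⟨u, hu⟩ := Subtype.ext (mul_inv_eq_iff_eq_mul.2 e₁)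
    show γ (conjAut E g' hN' (γ⁻¹ (γ ⟨u, hu⟩))) = γ ⟨u, hu⟩
    rw [show γ⁻¹ (γ ⟨u, hu⟩) = ⟨u, hu⟩ by simp, this]

/-- A morphism to a fully centralized element extends to the centralizer. -/
theorem ext_cen {u v : Ω} (h : F.IsConjElt u v) (hv : F.IsFullyCentralized (zpowers v)) :
    ∃ φ, M F (centralizerIn S (zpowers u)) φ ∧ φ u = v := by
  obtain ⟨f, hf, rfl⟩ := isConjElt_iff.1 h
  obtain ⟨g, hg, e⟩ := Fus2.sat_ext_centralizer hS hF hf (by rwa [img_zpowers hf.homOn])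
  exact ⟨g, hg.mono le_sup_right, e u (mem_zpowers u)⟩

omit hS hF in
theorem exists_fc {u : Ω} (hu : u ∈ S) :
    ∃ v, F.IsConjElt u v ∧ F.IsFullyCentralized (zpowers v) := by
  obtain ⟨Q, hQ, h⟩ := exists_isConj_fullyCentralized (F := F) (zpowers_le.2 hu)
  obtain ⟨f, hf, rfl⟩ := Fus2.isConj_iff.1 hQ
  exact ⟨f u, isConjElt_of_M hf (mem_zpowers u), by rwa [img_zpowers hf.homOn] at h⟩

end Fusion

theorem mem_cs {Ω : Type u} [Group Ω] {S : Subgroup Ω} {u g : Ω} :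
    g ∈ centralizerIn S (zpowers u) ↔ g ∈ S ∧ u * g = g * u :=
  mem_centralizerIn.trans (and_congr_right fun _ => ⟨fun h => h u (mem_zpowers u), by
    rintro h _ ⟨k, rfl⟩
    exact (Commute.zpow_left h k).eq⟩)

theorem foc_of_simple {Ω : Type u} [Group Ω] {S : Subgroup Ω} {F : FusionSystem S} [Finite S]
    (hS : IsPGroup 2 S) (hs : F.IsSimple 2) {a b : Ω} (ha : a ∈ S) (hb : b ∈ S)
    (hab : a * b ≠ b * a) : S ≤ F.focalSubgroup := by
  have : Fact (Nat.Prime 2) := ⟨Nat.prime_two⟩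
  obtain ⟨E, hE, hi⟩ := Biset.exists_pPowerIndex (p := 2) F.focalSubgroup _ S hS F hs.1
    (Fus2.foc_le F) (Fus2.hyp_le_foc F 2) rfl
  have hc : ∀ x ∈ S, ∀ g ∈ S, x⁻¹ * (g * x * g⁻¹) ∈ F.focalSubgroup := fun x hx g hg =>
    Fus2.foc_le_iff.1 le_rfl _ _ (Fus2.M_conj F le_rfl hg) x hx
  have := Asch.isNormalIn_iff.2 (Asch.nor_of_pPowerIndex hS hs.1 (Fus2.foc_le F)
    (fun s hs x hx => by simpa using mul_mem hx (hc x (Fus2.foc_le F hx) s hs)) hE hi)
  rcases hs.2.2 _ E this with h' | ⟨h', -⟩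
  · have := hc b hb a ha
    rw [h', mem_bot, inv_mul_eq_one, eq_mul_inv_iff_mul_eq] at this
    exact absurd this.symm hab
  · exact h'.ge

end Cfsg.Agent.WQ
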