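import Cfsg.Agent.Lib.WQ.Ctx

/-!
Pairs of conjugates of `z` with isomorphic centralizers; the quasi-dihedral case.
-/

set_option autoImplicit false
set_option linter.style.haveILetI false
set_option linter.unusedVariables false
set_option linter.unusedSectionVars false
set_option linter.unusedSimpArgs false
set_option linter.unusedTactic false
set_option linter.unreachableTactic false

namespace Cfsg.Agent.WQ

open Subgroup Cfsg.Agent.Fus Cfsg.Agent.Ess Cfsg.Agent.TwoGrp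
open Cfsg.Agent.Fus2 (M afn HomOn img)
open Cfsg.FusionSystem (centralizerIn normalizerIn)

universe u

variable {Ω : Type u} [Group Ω] {S : Subgroup Ω} {F : FusionSystem S} {n : ℕ}

namespace Ctx

variable (X : Ctx F n)

/-- `φ` maps `w` to `z` and `z` to `w'`, and is an isomorphism of the centralizers. -/
structure Pr (w w' : Ω) (φ ψ : Ω → Ω) : Prop where
  hφ : M F (centralizerIn S (zpowers w)) φ
  hψ : M F (centralizerIn S (zpowers w')) ψ
  wS : w ∈ S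
  ne : w ≠ X.z
  φw : φ w = X.z
  φz : φ X.z = w'
  iso : Fus2.GIso (centralizerIn S (zpowers w)) (centralizerIn S (zpowers w')) φ ψ

namespace Pr

variable {X} {w w' : Ω} {φ ψ : Ω → Ω} (h : X.Pr w w' φ ψ)
include h

theorem zC : X.z ∈ centralizerIn S (zpowers w) := X.z_mem_cs h.wS
theorem wC : w ∈ centralizerIn S (zpowers w) := self_mem_cs h.wS

theorem symm : X.Pr w' w ψ φ where
  hφ := h.hψ
  hψ := h.hφ
  wS := h.φz ▸ h.hφ.mem h.zC
  ne e := h.ne (h.hφ.inj _ h.wC _ h.zC (by rw [h.φw, h.φz, e]))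
  φw := by rw [← h.φz, h.iso.left _ h.zC]
  φz := by rw [← h.φw, h.iso.left _ h.wC]
  iso := h.iso.symm

theorem conj : F.IsConjElt X.z w := isConjElt_symm (h.φw ▸ isConjElt_of_M h.hφ h.wC)

theorem sq : w * w = 1 := X.conj_sq h.conj

end Pr

theorem exists_pr {u : Ω} (h : F.IsConjElt X.z u) (hne : u ≠ X.z) :
    ∃ w w' φ ψ, X.Pr w w' φ ψ ∧ ∃ P f, M F P f ∧ X.z ∈ P ∧ u ∈ P ∧ f X.z = X.z ∧ f u = w := by
  haveI := X.fin
  have hu := isConjElt_right_mem h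
  let Y : Set Ω := {w | ∃ P f, M F P f ∧ X.z ∈ P ∧ u ∈ P ∧
    ((f X.z = X.z ∧ f u = w) ∨ (f u = X.z ∧ f X.z = w))}
  have hY : Y.Finite := (Set.toFinite (S : Set Ω)).subset (by
    rintro w ⟨P, f, hf, h₁, h₂, ⟨-, rfl⟩ | ⟨-, rfl⟩⟩
    exacts [hf.mem h₂, hf.mem h₁])
  obtain ⟨w, ⟨P, f, hf, h₁, h₂, hw⟩, hmax⟩ := Set.exists_max_image Y
    (fun w => Nat.card (centralizerIn S (zpowers w))) hY
    ⟨u, S, _, Fus2.M_id F le_rfl, X.zS, hu, Or.inl ⟨rfl, rfl⟩⟩
  have c : F.IsConjElt X.z w := by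
    rcases hw with ⟨-, rfl⟩ | ⟨-, rfl⟩
    exacts [isConjElt_trans h (isConjElt_of_M hf h₂), isConjElt_of_M hf h₁]
  have hwS := isConjElt_right_mem c
  have hw1 : w ≠ X.z := by
    rintro rfl
    rcases hw with ⟨e₁, e₂⟩ | ⟨e₁, e₂⟩ <;> exact hne (hf.inj _ h₂ _ h₁ (by rw [e₁, e₂]))
  obtain ⟨φ, hφ, eφ⟩ := X.to_z c
  have hzC := X.z_mem_cs hwS
  have hwC := self_mem_cs hwS
  have hQ : zpowers X.z ⊔ zpowers u ≤ P := sup_le (zpowers_le.2 h₁) (zpowers_le.2 h₂)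
  have m₁ : X.z ∈ zpowers X.z ⊔ zpowers u := mem_sup_left (mem_zpowers _)
  have m₂ : u ∈ zpowers X.z ⊔ zpowers u := mem_sup_right (mem_zpowers _)
  have hc := (hf.mono hQ).comp hφ ((hf.mono hQ).homOn.mem_of_sup (by
    rintro _ ⟨i, rfl⟩
    rw [hf.homOn.map_zpow h₁]
    rcases hw with ⟨e, -⟩ | ⟨-, e⟩ <;> rw [e]
    exacts [zpow_mem hzC i, zpow_mem hwC i]) (by
    rintro _ ⟨i, rfl⟩
    rw [hf.homOn.map_zpow h₂]
    rcases hw with ⟨-, e⟩ | ⟨e, -⟩ <;> rw [e]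
    exacts [zpow_mem hwC i, zpow_mem hzC i]))
  have hm : ∀ g ∈ centralizerIn S (zpowers w), φ g ∈ centralizerIn S (zpowers (φ X.z)) :=
    fun g hg => mem_cs.2 ⟨hφ.mem hg, by
      rw [← hφ.map_mul hzC hg, ← X.z_comm (hφ.le hg), hφ.map_mul hg hzC]⟩
  obtain ⟨ψ, hψ, -, l₁, l₂, l₃⟩ := hφ.inv' (hφ.img_eq_of_le (centralizerIn_le _) hm
    (hmax (φ X.z) ⟨_, _, hc, m₁, m₂, by
      rcases hw with ⟨e₁, e₂⟩ | ⟨e₁, e₂⟩ <;> simp only [e₁, e₂, eφ, true_and, and_true, true_or,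
        or_true]⟩))
  have hp : X.Pr w (φ X.z) φ ψ := ⟨hφ, hψ, hwS, hw1, eφ, rfl, hφ.homOn, hm, l₂, l₁, l₃⟩
  rcases hw with ⟨e₁, e₂⟩ | ⟨e₁, e₂⟩
  · exact ⟨_, _, _, _, hp, P, f, hf, h₁, h₂, e₁, e₂⟩
  · exact ⟨_, _, _, _, hp.symm, _, _, hc, m₁, m₂, by simp only [e₂, eφ], by simp only [e₁]⟩

/-- Involutions centralizing no element of order four of `R`. -/
def Tc (u : Ω) : Prop := X.ii u = -1 ∧ ∃ b, X.jj u = 2 * b + 1

theorem comm_q {u : Ω} (hu : u ∈ S) {c : ZMod (2 ^ n)} (h : X.ii u = 1 + 4 * c) :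
    u * X.r (qt n) = X.r (qt n) * u := by
  rw [X.gr hu, h]
  congr 2
  linear_combination 2 * c * X.hq + c * X.h2

theorem qq : X.r (qt n) * X.r (qt n) = X.z := by rw [X.r_mul, ← two_mul, X.hq, z]

theorem good {u : Ω} (hu : u ∈ S) (h : u * u = 1) (hT : ¬ X.Tc u) :
    ∃ t ∈ S, u * t = t * u ∧ t * t = X.z := by
  obtain ⟨b, hb⟩ := X.ii_odd hu
  rcases par b with ⟨c, rfl⟩ | ⟨c, rfl⟩
  · exact ⟨_, X.rS _, X.comm_q hu (c := c) (by rw [hb]; ring), X.qq⟩
  have hj := X.jj_sq hu h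
  obtain ⟨d, hd⟩ : ∃ d, X.jj u = 2 * d := (par _).resolve_right fun ⟨d, hd⟩ => hT ⟨by
    have := (isUnit_odd d).mul_left_eq_zero.1
      (by rw [← hd]; linear_combination hj : (X.ii u + 1) * (2 * d + 1) = 0)
    linear_combination this, d, hd⟩
  obtain ⟨e, he⟩ := exists_mul_odd_eq_one (-c - 1)
  refine ⟨X.r ((2 * e + 1) * d) * X.y, mul_mem (X.rS _) X.yS, ?_, X.ry_sq _⟩
  rw [← mul_assoc, X.gr hu, mul_assoc, X.gy hu, ← mul_assoc, ← mul_assoc, X.r_mul, hb, hd]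
  congr 3
  linear_combination (-2 * d) * he

namespace Pr

variable {X} {w w' : Ω} {φ ψ : Ω → Ω} (h : X.Pr w w' φ ψ)
include h

theorem two_mul {t : Ω} (ht : t ∈ S) (h₁ : w' * t = t * w') (h₂ : t * t = X.z) :
    2 * (X.ii w - 1) = 0 := by
  have m := mem_cs.2 ⟨ht, h₁⟩
  have e : w = ψ t * ψ t := by rw [← h.hψ.map_mul m m, h₂, h.symm.φz]
  obtain ⟨b, hb⟩ := X.ii_odd (h.hψ.mem m)
  have e₁ : X.ii w = 1 + 4 * (b * b + b) := by
    rw [e, X.ii_mul (h.hψ.mem m) (h.hψ.mem m), hb]; ring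
  have e₂ := X.ii_sq h.wS h.sq
  rw [e₁] at e₂ ⊢
  exact (isUnit_odd (b * b + b)).mul_left_eq_zero.1 (by linear_combination e₂)

theorem ii_eq_one (h' : 2 * (X.ii w' - 1) = 0) : X.ii w = 1 := by
  have m : X.r 2 ∈ centralizerIn S (zpowers w') := mem_cs.2 ⟨X.rS _, by
    rw [X.gr h.symm.wS]; congr 2; linear_combination h'⟩
  have e : w = ψ (X.r 2) ^ 2 ^ (n - 2) := by
    rw [← h.hψ.homOn.map_pow m, X.r_pow, ← h.symm.φz, z, hf]
    congr 2
    obtain ⟨k, rfl⟩ : ∃ k, n = k + 2 := ⟨n - 2, by have := X.hn; omega⟩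
    simp [pow_succ]
  obtain ⟨b, hb⟩ := X.ii_odd (h.hψ.mem m)
  rw [e, X.ii_pow (h.hψ.mem m), hb, odd_pow_eq_one X.hn]

theorem t1 (hT : ¬ X.Tc w') : X.ii w = 1 ∧ X.ii w' = 1 := by
  obtain ⟨t, ht, h₁, h₂⟩ := X.good h.symm.wS h.symm.sq hT
  have a := h.two_mul ht h₁ h₂
  obtain ⟨e, he⟩ := X.hqe
  have b := h.symm.two_mul (X.rS _) (by
    rw [X.gr h.wS]; congr 2; linear_combination e * a + (X.ii w - 1) * he) X.qq
  exact ⟨h.ii_eq_one b, h.symm.ii_eq_one a⟩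

end Pr

theorem conj_ii {u : Ω} (h : F.IsConjElt X.z u) : X.ii u = 1 ∨ X.ii u = -1 := by
  by_cases hne : u = X.z
  · exact Or.inl (hne ▸ X.ii_z)
  obtain ⟨w, w', φ, ψ, hp, P, f, hf, h₁, h₂, e₁, rfl⟩ := X.exists_pr h hne
  have a : X.ii (f u) = 1 ∨ X.ii (f u) = -1 := by
    by_cases hT : X.Tc (f u)
    exacts [Or.inr hT.1, Or.inl (hp.symm.t1 hT).2]
  rcases (X.inv hf h₁ e₁ h₂).1 with b | b <;> rcases a with a | a
  exacts [Or.inl (b ▸ a), Or.inr (b ▸ a), Or.inr (by linear_combination b - a),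
    Or.inl (by linear_combination b - a)]

theorem dichotomy : (∀ u, F.IsConjElt X.z u → u ≠ X.z → X.Tc u) ∨
    ∃ w w' φ ψ, X.Pr w w' φ ψ ∧ X.ii w = 1 ∧ X.ii w' = 1 := by
  refine or_iff_not_imp_left.2 fun hn => ?_
  push Not at hn
  obtain ⟨u, h, hne, hT⟩ := hn
  obtain ⟨w, w', φ, ψ, hp, P, f, hf, h₁, h₂, e₁, rfl⟩ := X.exists_pr h hne
  refine ⟨_, w', φ, ψ, hp, (hp.symm.t1 fun ⟨a, b, hb⟩ => hT ?_).symm⟩
  obtain ⟨c₁, c, c₂⟩ := X.inv hf h₁ e₁ h₂
  refine ⟨c₁.elim (fun e => e ▸ a) fun e => ?_, b - c, by linear_combination hb - c₂⟩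
  obtain ⟨d, hd⟩ := X.hqe
  exact absurd (by
    linear_combination X.jj_conj h hne (by linear_combination e - a) - X.hq + 2 * hd + c₂ - hb)
    (X.ne_odd (2 * d + c) b).symm

/-! ### The quasi-dihedral case -/

theorem Tc.conj {X : Ctx F n} {u : Ω} (hu : u ∈ S) (h : u * u = 1) (hT : X.Tc u)
    (a : ZMod (2 ^ n)) : F.IsConjElt u (X.r a * u) := by
  obtain ⟨h₁, b, h₂⟩ := hT
  have key : ∀ c d, F.IsConjElt (X.r c * u) (X.r (c + 2 * d) * u) := fun c d => by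
    have := Tr.isConjElt_conj (F := F) (mul_mem (X.rS c) hu) (X.rS d)
    rwa [X.inv_r, mul_assoc, mul_assoc, X.gr hu, h₁, ← mul_assoc, ← mul_assoc, X.r_mul, X.r_mul,
      show d + c + -1 * -d = c + 2 * d by ring] at this
  rcases par a with ⟨c, rfl⟩ | ⟨c, rfl⟩
  · simpa [X.r_zero] using key 0 c
  · have e : X.y⁻¹ * u * X.y⁻¹⁻¹ = X.r (-X.jj u) * u := by
      rw [inv_inv, mul_assoc, X.gy hu, inv_mul_eq_iff_eq_mul, ← mul_assoc, X.yr, neg_neg]
    have := isConjElt_trans (e ▸ Tr.isConjElt_conj hu (inv_mem X.yS)) (key _ (c + b + 1))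
    rwa [h₂, show -(2 * b + 1) + 2 * (c + b + 1) = 2 * c + 1 by ring] at this

section CaseC

variable (hC : ∀ u, F.IsConjElt X.z u → u ≠ X.z → X.Tc u)
include hC

theorem conj_mul_r {u : Ω} (h : F.IsConjElt X.z u) (hne : u ≠ X.z) (a : ZMod (2 ^ n)) :
    F.IsConjElt X.z (X.r a * u) ∧ X.r a * u ≠ X.z := by
  have hu := isConjElt_right_mem h
  refine ⟨isConjElt_trans h ((hC u h hne).conj hu (X.conj_sq h) a), fun e => X.two_ne ?_⟩
  have := X.ii_mul (X.rS a) hu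
  rw [e, X.ii_z, X.ii_r, (hC u h hne).1] at this
  linear_combination this

theorem c1 {b s : Ω} (hb : F.IsConjElt X.z b) (hne : b ≠ X.z) (hs : s ∈ S) (hc : b * s = s * b)
    (hbs : F.IsConjElt X.z (s * b)) (hne' : s * b ≠ X.z) : s = 1 ∨ s = X.z := by
  refine or_iff_not_imp_left.2 fun h1 => ?_
  obtain ⟨φ, hφ, e⟩ := X.to_z hb
  have hbS := isConjElt_right_mem hb
  have m₁ := X.z_mem_cs hbS
  have m₂ := self_mem_cs hbS
  have m₃ := mul_mem (mem_cs.2 ⟨hs, hc⟩) m₂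
  have a₁ := hC _ (isConjElt_of_M hφ m₁) fun h => hne (hφ.inj _ m₂ _ m₁ (e.trans h.symm))
  have a₂ := hC _ (isConjElt_trans hbs (isConjElt_of_M hφ m₃)) fun h =>
    h1 (by simpa using hφ.inj _ m₃ _ m₂ (h.trans e.symm))
  by_contra h
  have a₃ := hC _ (isConjElt_trans (X.conj_mul_r hC hbs hne' (hf n)).1
    (isConjElt_of_M hφ (mul_mem m₁ m₃))) fun h' => h (by
      have := hφ.inj _ (mul_mem m₁ m₃) _ m₂ (h'.trans e.symm)
      rw [← mul_assoc, mul_eq_right, mul_eq_one_iff_inv_eq, X.inv_z] at this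
      exact this.symm)
  have a₄ := a₃.1
  rw [show X.r (hf n) = X.z from rfl, hφ.map_mul m₁ m₃, X.ii_mul (hφ.mem m₁) (hφ.mem m₃), a₁.1,
    a₂.1] at a₄
  exact X.two_ne (by linear_combination a₄)

theorem c2 {b : Ω} (hb : F.IsConjElt X.z b) (hne : b ≠ X.z) (k : ℕ) :
    ∀ t ∈ S, t ^ 2 ^ k = 1 → X.ii t = 1 → X.jj t = 0 → F.IsConjElt X.z (t * b) →
      t = 1 ∨ t = X.z := by
  have hbS := isConjElt_right_mem hb
  have hbb := X.conj_sq hb
  induction k with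
  | zero => exact fun t _ h _ _ _ => Or.inl (by simpa using h)
  | succ k ih =>
    intro t ht hk h₁ h₂ hc
    have hi : b * t = t⁻¹ * b := by
      have := X.conj_sq hc
      rw [eq_inv_mul_iff_mul_eq, ← mul_assoc, ← mul_left_inj b, hbb, ← this, mul_assoc (t * b)]
    have hne' : t * b ≠ X.z := fun e => X.two_ne (by
      have := X.ii_mul ht hbS
      rw [e, X.ii_z, h₁, (hC b hb hne).1] at this
      linear_combination this)
    rcases ih (t * t) (mul_mem ht ht) (by rw [← sq, ← pow_mul, ← pow_succ', hk])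
      (by rw [X.ii_mul ht ht, h₁, one_mul]) (by rw [X.jj_mul ht ht, h₁, h₂]; simp) (by
        have := isConjElt_trans hb (Tr.isConjElt_conj hbS ht)
        rwa [mul_assoc, show b * t⁻¹ = t * b by
          rw [mul_inv_eq_iff_eq_mul, mul_assoc, hi, mul_inv_cancel_left], ← mul_assoc] at this)
      with h | h
    · exact X.c1 hC hb hne ht (by rw [hi, inv_eq_of_mul_eq_one_right h]) hc hne'
    · exfalso
      have hq := X.comm_R ht h₁ h₂ (X.rR (qt n))
      have e := X.conj_mul_r hC hc hne' (qt n)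
      rw [← mul_assoc] at e
      have j₁ : X.jj (X.r (qt n) * t) = hf n := by
        rw [X.jj_mul (X.rS _) ht, h₂, X.jj_r, X.hq]; simp
      rcases X.c1 hC hb hne (mul_mem (X.rS _) ht) (by
        have e₁ : X.r (X.ii b * qt n) = X.r (qt n) * X.z := by
          rw [(hC b hb hne).1, z, X.r_mul]; congr 1; linear_combination -X.hq - X.h2
        have e₂ : t⁻¹ = X.z * t := by
          rw [inv_eq_iff_mul_eq_one, ← mul_assoc, X.z_comm ht, mul_assoc, h, X.zz]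
        rw [← mul_assoc, X.gr hbS, mul_assoc, hi, e₁, e₂, mul_assoc, ← mul_assoc X.z,
          ← mul_assoc X.z, X.zz, one_mul, mul_assoc]) e.1 e.2 with h' | h' <;> rw [h'] at j₁
      · exact X.h0 (j₁.symm.trans X.jj_one)
      · exact X.h0 (j₁.symm.trans X.jj_z)

theorem c3 {u v : Ω} (hu : F.IsConjElt X.z u) (hne : u ≠ X.z) (hv : F.IsConjElt X.z v)
    (hne' : v ≠ X.z) : ∃ a, v = X.r a * u := by
  obtain ⟨i₁, b, j₁⟩ := hC u hu hne
  obtain ⟨i₂, c, j₂⟩ := hC v hv hne'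
  have huS := isConjElt_right_mem hu
  have hvS := isConjElt_right_mem hv
  obtain ⟨h₁, h₂⟩ := X.conj_mul_r hC hu hne (c - b)
  have hS := isConjElt_right_mem h₁
  have hb := X.conj_sq h₁
  obtain ⟨k, hk⟩ := X.hS ⟨_, mul_mem hvS hS⟩
  have e : v = v * (X.r (c - b) * u) * (X.r (c - b) * u) := by rw [mul_assoc, hb, mul_one]
  rcases X.c2 hC h₁ h₂ k _ (mul_mem hvS hS) (congrArg Subtype.val hk)
    (by rw [X.ii_mul hvS hS, X.ii_mul (X.rS _) huS, i₁, i₂, X.ii_r]; ring)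
    (by rw [X.jj_mul hvS hS, X.jj_mul (X.rS _) huS, j₁, j₂, i₂, X.ii_r, X.jj_r]; ring)
    (e ▸ hv) with h | h <;> rw [h] at e
  · exact ⟨_, by rw [e, one_mul]⟩
  · exact ⟨_, by rw [e, z, ← mul_assoc, X.r_mul]⟩

theorem caseC {u : Ω} (hu : F.IsConjElt X.z u) (hne : u ≠ X.z) :
    ∃ P : Subgroup Ω, P ≤ S ∧ IsQuasiDihedral P ∧ F.StronglyClosed P := by
  haveI : NeZero (2 ^ n) := ⟨by positivity⟩
  haveI := X.fin
  haveI := finite_of_le X.R_le
  obtain ⟨i₁, b, j₁⟩ := hC u hu hne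
  have huS := isConjElt_right_mem hu
  have huu := X.conj_sq hu
  have hui := inv_eq_of_mul_eq_one_right huu
  have hN : ∀ t ∈ X.R, u * t * u ∈ X.R := fun t ht => by
    simpa only [hui] using X.wc_mem (Fus2.M_conj F le_rfl huS) X.R_le ht
  have huR : u ∉ X.R := fun h => by
    obtain ⟨-, e, he⟩ := X.R_ii h
    exact X.ne_odd e b (he.symm.trans j₁)
  let P : Subgroup Ω :=
    { carrier := {t | t ∈ X.R ∨ t * u ∈ X.R}
      one_mem' := Or.inl (one_mem _)
      mul_mem' := by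
        rintro s t (hs | hs) (ht | ht)
        · exact Or.inl (mul_mem hs ht)
        · exact Or.inr (mul_assoc s t u ▸ mul_mem hs ht)
        · refine Or.inr ?_
          have := mul_mem hs (hN t ht)
          rwa [← mul_assoc, ← mul_assoc, mul_assoc s, huu, mul_one] at this
        · refine Or.inl ?_
          have := mul_mem hs (hN _ ht)
          rwa [mul_assoc u, mul_assoc t, huu, mul_one, mul_assoc, ← mul_assoc u, huu, one_mul] at this
      inv_mem' := by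
        rintro s (hs | hs)
        · exact Or.inl (inv_mem hs)
        · refine Or.inr ?_
          have := hN _ (inv_mem hs)
          rwa [mul_inv_rev, hui, ← mul_assoc, huu, one_mul] at this }
  have hP : ∀ t, t ∈ P ↔ t ∈ X.R ∨ t * u ∈ X.R := fun t => Iff.rfl
  have hRP : X.R ≤ P := fun t ht => Or.inl ht
  have huP : u ∈ P := Or.inr (huu ▸ one_mem _)
  have hPS : P ≤ S := by
    rintro t (ht | ht)
    · exact X.R_le ht
    · exact (S.mul_mem_cancel_right huS).1 (X.R_le ht)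
  have hz : ∀ v, F.IsConjElt X.z v → v ∈ P := fun v hv => by
    by_cases h : v = X.z
    · exact h ▸ hRP (X.rR _)
    · obtain ⟨a, rfl⟩ := X.c3 hC hu hne hv h
      exact mul_mem (hRP (X.rR a)) huP
  have aa : u * X.y * (u * X.y) = X.r (X.jj u + hf n) := by
    rw [← X.r_mul, ← X.yy, ← mul_assoc (X.r _), ← X.cy u huS, hui, ← mul_assoc]
  have hhf : hf n * (X.jj u + hf n) = hf n := by
    rw [j₁]; linear_combination (b + qt n) * X.h2 - hf n * X.hq
  refine ⟨P, hPS, ?_, stronglyClosed_iff_isConjElt.2 ⟨hPS, fun t ht v hv => ?_⟩⟩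
  · have hn := X.hn
    have ha : (u * X.y) ^ 2 ^ n = X.z := by
      obtain ⟨k, rfl⟩ : ∃ k, n = k + 1 := ⟨n - 1, by omega⟩
      refine Eq.trans (congrArg _ (pow_succ' 2 k)) (Eq.trans ?_ (congrArg X.r hhf))
      rw [pow_mul, sq, aa, X.r_pow]
      simp [hf]
    have c₁ : Nat.card X.R = 2 ^ n + 2 ^ n := by
      rw [card_eq_of_param (H := X.R) (Sum.elim X.r fun a => X.r a * X.y)
        (X.r_inj.sumElim (fun a b h => by simpa using h) fun a b h => X.r_ne (-b + a) (by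
          rw [← X.r_mul, h, ← mul_assoc, X.r_mul, neg_add_cancel, X.r_zero, one_mul]))
        (by simp [X.mem_R, exists_or])]
      simp
    refine ⟨n + 1, by omega, ?_, ⟨u * X.y, mul_mem huP (hRP X.yR)⟩, ⟨u, huP⟩, ?_, ?_,
      Subtype.ext ?_⟩
    · rw [card_eq_of_param (H := P) (Sum.elim (fun t : X.R => (t : Ω)) fun t : X.R => t * u)
        (Subtype.val_injective.sumElim (fun a b h => Subtype.ext (by simpa using h))
          fun a b h => huR (by
            simpa only [h, inv_mul_cancel_left] using mul_mem (inv_mem b.2) a.2)) (fun t => ?_)]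
      · rw [Nat.card_sum, c₁]; ring
      · refine ⟨?_, ?_⟩
        · rintro (h | h)
          · exact ⟨.inl ⟨t, h⟩, rfl⟩
          · exact ⟨.inr ⟨_, h⟩, by simp [mul_assoc, huu]⟩
        · rintro ⟨a | a, rfl⟩
          exacts [hRP a.2, mul_mem (hRP a.2) huP]
    · haveI : Fact (Nat.Prime 2) := ⟨Nat.prime_two⟩
      rw [orderOf_mk]
      exact orderOf_eq_prime_pow (ha ▸ X.z_ne) (by rw [pow_succ, pow_mul, ha, sq, X.zz])
    · rw [orderOf_mk]
      exact orderOf_eq_two_iff'.2 ⟨huu, X.conj_ne hu⟩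
    · show u * (u * X.y) * u⁻¹ = (u * X.y) ^ (2 ^ (n + 1 - 1) - 1)
      rw [← mul_left_inj (u * X.y), ← pow_succ, Nat.sub_add_cancel Nat.one_le_two_pow,
        Nat.add_sub_cancel, ha, ← mul_assoc u, huu, one_mul, mul_assoc, inv_mul_cancel_left, X.yy, z]
  obtain ⟨f, hf', rfl⟩ := isConjElt_iff.1 hv
  have key : ∀ a, X.r a ∈ zpowers t → 2 * a ≠ 0 → ∃ s ∈ zpowers t, s * s = X.z := fun a ha h => by
    obtain ⟨e, he⟩ := exists_mul_eq_hf h
    refine ⟨_, pow_mem ha e.val, ?_⟩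
    rw [X.r_pow, X.r_mul, z, ← he, ZMod.natCast_zmod_val]
    congr 1; ring
  have : t = 1 ∨ F.IsConjElt X.z t ∨ ∃ s ∈ zpowers t, s * s = X.z := by
    rcases ht with ht | ht
    · obtain ⟨a, rfl | rfl⟩ := (X.mem_R _).1 ht
      · by_cases h : 2 * a = 0
        · rcases (X.two_eq a).1 h with rfl | rfl
          exacts [Or.inl X.r_zero, Or.inr (Or.inl (isConjElt_refl X.zS))]
        · exact Or.inr (Or.inr (key a (mem_zpowers _) h))
      · exact Or.inr (Or.inr ⟨_, mem_zpowers _, X.ry_sq a⟩)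
    · obtain ⟨a, h | h⟩ := (X.mem_R _).1 ht <;> rw [← eq_mul_inv_iff_mul_eq, hui] at h
      · exact Or.inr (Or.inl (h ▸ (X.conj_mul_r hC hu hne a).1))
      · have e : t * t = X.r (2 * (a - b - 1 + qt n) + 1) := by
          have e₁ : X.y * u * (X.y * u) = X.r (-X.jj u + hf n) := by
            rw [mul_assoc, ← mul_assoc u, ← X.r_mul, ← X.yy, ← mul_assoc (X.r _), ← X.yr,
              mul_assoc X.y, ← X.cy u huS, hui]
          rw [h, mul_assoc (X.r a), mul_assoc, ← mul_assoc (X.y * u), X.gr (mul_mem X.yS huS),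
            mul_assoc, e₁, X.r_mul, X.r_mul, X.ii_mul X.yS huS, X.ii_y, i₁, j₁, ← X.hq]
          congr 1; ring
        exact Or.inr (Or.inr (key _ (e ▸ mul_mem (mem_zpowers t) (mem_zpowers t)) fun h =>
          X.two_ne ((isUnit_odd _).mul_left_eq_zero.1 h)))
  rcases this with rfl | h | ⟨s, hs, h⟩
  · exact hf'.map_one.symm ▸ one_mem _
  · exact hz _ (isConjElt_trans h hv)
  have hzt : X.z ∈ zpowers t := h ▸ mul_mem hs hs
  have e : f X.z = X.z := by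
    by_contra e
    have := (hC _ (isConjElt_of_M hf' hzt) e).1
    rw [← h, hf'.map_mul hs hs, X.ii_mul (hf'.mem hs) (hf'.mem hs)] at this
    exact X.sq_ne _ this
  obtain ⟨g, hg, h₁⟩ := X.fac hf' hzt e
  have h₂ : g t ∈ P := by
    rcases ht with ht | ht
    · exact hRP (X.wc_mem hg le_sup_right ht)
    · have m : u ∈ zpowers t ⊔ X.R := by
        simpa using mul_mem (inv_mem (mem_sup_left (mem_zpowers t))) (mem_sup_right ht)
      have := mul_mem (hRP (X.wc_mem hg le_sup_right ht))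
        (hz _ (isConjElt_trans hu (isConjElt_of_M hg m)))
      rwa [← hg.map_mul (mem_sup_right ht) m, mul_assoc, huu, mul_one] at this
  simpa using mul_mem h₂ (inv_mem (hRP (h₁ t (mem_zpowers t))))

end CaseC

end Ctx

end Cfsg.Agent.WQ
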